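import Mathlib
import Cfsg.Agent.LocalEven.AutFun
import Cfsg.Agent.Transfer.HallHigmanAb

/-! Linear lemmas for the action of an abelian subgroup of largest order. -/

set_option autoImplicit false

namespace Cfsg.Agent.Max

open Subgroup

theorem ja_binom {R : Type*} [Ring R] (t : R) (i : ℕ) :
    ∃ c : R, Commute c t ∧ (1 + t) ^ i = 1 + (i : R) * t + c * t ^ 2 := by
  induction i with
  | zero => exact ⟨0, Commute.zero_left t, by simp⟩
  | succ i ih =>
    obtain ⟨c, hc, h⟩ := ih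
    refine ⟨c + i + c * t, ((hc.add_left (Nat.cast_commute i t)).add_left
      (hc.mul_left (Commute.refl t))), ?_⟩
    rw [pow_succ, h]
    push_cast
    noncomm_ring

theorem ja_natCast_zero {U : Type*} [AddCommGroup U] {p : ℕ} (hU : ∀ v : U, p • v = 0) :
    (p : AddMonoid.End U) = 0 := by
  ext v
  rw [AddMonoid.End.natCast_apply, hU]
  rfl

theorem ja_pow_p {R : Type*} [Ring R] {p : ℕ} [hp : Fact p.Prime] (h : (p : R) = 0) (γ : R) :
    γ ^ p - 1 = (γ - 1) ^ p := by
  have h1 := Transfer.geom_sum_eq_pow_of_char h γ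
  rw [← geom_sum_mul, h1, ← pow_succ, Nat.sub_add_cancel hp.out.one_le]

theorem ja_pow_pk {R : Type*} [Ring R] {p : ℕ} [hp : Fact p.Prime] (h : (p : R) = 0) (γ : R)
    (k : ℕ) : γ ^ p ^ k - 1 = (γ - 1) ^ p ^ k := by
  induction k with
  | zero => simp
  | succ k ih => rw [pow_succ, pow_mul, ja_pow_p h, ih, ← pow_mul]

theorem ja_height {U : Type*} [AddCommGroup U] {p : ℕ} [hp : Fact p.Prime] (hp5 : 5 ≤ p)
    (hU : ∀ v : U, p • v = 0) (γ : AddMonoid.End U) {x c : U} {i : ℕ}
    (h4 : ((γ - 1) ^ (4 : ℕ)) x = 0) (h2 : ((γ - 1) ^ (2 : ℕ)) x = (γ ^ i) x - x + c)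
    (hc : (γ - 1) c = 0) : ((γ - 1) ^ (3 : ℕ)) x = 0 := by
  set t := γ - 1 with ht
  have mul_ap : ∀ (a b : AddMonoid.End U) (v : U), (a * b) v = a (b v) := fun _ _ _ => rfl
  by_cases hi : p ∣ i
  · obtain ⟨j, rfl⟩ := hi
    have h1 : (γ ^ p) x = x := by
      have e := ja_pow_p (ja_natCast_zero hU) γ
      have e2 : (γ ^ p - 1) x = 0 := by
        rw [e, ← ht, show p = (p - 4) + 4 by omega, pow_add, mul_ap, h4, map_zero]
      exact sub_eq_zero.1 e2
    have h3 : ∀ j : ℕ, (γ ^ (p * j)) x = x := by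
      intro j
      induction j with
      | zero => simp
      | succ j ih => rw [Nat.mul_succ, pow_add, mul_ap, h1, ih]
    rw [h3, sub_self, zero_add] at h2
    rw [pow_succ' t 2, mul_ap, h2, hc]
  · obtain ⟨d, hd, e⟩ := ja_binom t i
    have e1 : γ = 1 + t := by rw [ht]; abel
    have e2 : t ^ 2 * (γ ^ i - 1) = (i : AddMonoid.End U) * t ^ 3 + d * t ^ 4 := by
      rw [e1, e]
      have h5 : t ^ 2 * d = d * t ^ 2 := (hd.symm.pow_left 2).eq
      have h6 : t ^ 2 * (i : AddMonoid.End U) = i * t ^ 2 := (Nat.cast_commute i _).symm.eq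
      calc t ^ 2 * (1 + (i : AddMonoid.End U) * t + d * t ^ 2 - 1)
          = (t ^ 2 * i) * t + (t ^ 2 * d) * t ^ 2 := by noncomm_ring
        _ = _ := by rw [h5, h6]; noncomm_ring
    have e3 : (t ^ (2 : ℕ)) ((t ^ (2 : ℕ)) x) = 0 := by rw [← mul_ap, ← pow_add]; exact h4
    have e4 : (t ^ (2 : ℕ)) c = 0 := by rw [pow_two, mul_ap, hc, map_zero]
    rw [h2, map_add, e4, add_zero] at e3
    have e5 : (t ^ (2 : ℕ) * (γ ^ i - 1) : AddMonoid.End U) x = 0 := e3
    rw [e2] at e5
    have e6 : i • (t ^ (3 : ℕ)) x = 0 := by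
      have : ((i : AddMonoid.End U) * t ^ (3 : ℕ) + d * t ^ (4 : ℕ) : AddMonoid.End U) x =
        (i : AddMonoid.End U) ((t ^ (3 : ℕ)) x) + d ((t ^ (4 : ℕ)) x) := rfl
      rw [this, h4, map_zero, add_zero, AddMonoid.End.natCast_apply] at e5
      exact e5
    have h7 : addOrderOf ((t ^ (3 : ℕ)) x) ∣ Nat.gcd p i :=
      Nat.dvd_gcd (addOrderOf_dvd_of_nsmul_eq_zero (hU _)) (addOrderOf_dvd_of_nsmul_eq_zero e6)
    rw [(hp.out.coprime_iff_not_dvd.2 hi).gcd_eq_one, Nat.dvd_one,
      AddMonoid.addOrderOf_eq_one_iff] at h7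
    exact h7

section beta

variable {U W : Type*} [AddCommGroup U] [AddCommGroup W] (β : U →+ U →+ W)
  (γ : AddMonoid.End U) (σ : AddMonoid.End W)

/-- The trilinear degree function. -/
def jaF (u v : U) (a b c : ℕ) : W :=
  ((σ - 1) ^ c) (β (((γ - 1) ^ a) u) (((γ - 1) ^ b) v))

variable {β γ σ}

theorem jaF_rec (h : ∀ x y, β (γ x) (γ y) = σ (β x y)) (u v : U) (a b c : ℕ) :
    jaF β γ σ u v a b (c + 1) = jaF β γ σ u v (a + 1) b c + jaF β γ σ u v a (b + 1) c +
      jaF β γ σ u v (a + 1) (b + 1) c := by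
  unfold jaF
  have mul_ap : ∀ (a b : AddMonoid.End U) (v : U), (a * b) v = a (b v) := fun _ _ _ => rfl
  have mul_ap' : ∀ (a b : AddMonoid.End W) (v : W), (a * b) v = a (b v) := fun _ _ _ => rfl
  have s1 : ∀ x : U, (γ - 1) x = γ x - x := fun _ => rfl
  have s2 : ∀ x : W, (σ - 1) x = σ x - x := fun _ => rfl
  rw [pow_succ (σ - 1), mul_ap', pow_succ' (γ - 1) a, pow_succ' (γ - 1) b, mul_ap, mul_ap,
    ← map_add, ← map_add, s2, ← h, s1, s1]
  congr 1
  simp only [map_sub, AddMonoidHom.sub_apply]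
  abel

theorem jaF_zero (h : ∀ x y, β (γ x) (γ y) = σ (β x y)) {n m : ℕ} (hn : (γ - 1) ^ n = 0)
    (hm : (σ - 1) ^ m = 0) (u v : U) (a b c : ℕ) (hd : n + m ≤ a + b + c + 1) :
    jaF β γ σ u v a b c = 0 := by
  have za : ∀ a b c, n ≤ a → jaF β γ σ u v a b c = 0 := by
    intro a b c ha
    unfold jaF
    rw [pow_eq_zero_of_le ha hn]
    simp
  have zb : ∀ a b c, n ≤ b → jaF β γ σ u v a b c = 0 := by
    intro a b c ha
    unfold jaF
    rw [pow_eq_zero_of_le ha hn]
    simp
  have zc : ∀ a b c, m ≤ c → jaF β γ σ u v a b c = 0 := by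
    intro a b c ha
    unfold jaF
    rw [pow_eq_zero_of_le ha hm]
    rfl
  have key : ∀ k a b c, n + m ≤ a + b + c + 1 → 2 * n + m ≤ a + b + c + k →
      jaF β γ σ u v a b c = 0 := by
    intro k
    induction k with
    | zero =>
      intro a b c _ h2
      by_cases ha : n ≤ a
      · exact za _ _ _ ha
      by_cases hb : n ≤ b
      · exact zb _ _ _ hb
      exact zc _ _ _ (by omega)
    | succ k ihk =>
      have inner : ∀ j a b c, m ≤ c + j → n + m ≤ a + b + c + 1 →
          2 * n + m ≤ a + b + c + (k + 1) → jaF β γ σ u v a b c = 0 := by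
        intro j
        induction j with
        | zero => intro a b c h0 _ _; exact zc _ _ _ h0
        | succ j ihj =>
          intro a b c h0 h1 h2
          by_cases hc : m ≤ c
          · exact zc _ _ _ hc
          induction b generalizing a with
          | zero => exact za _ _ _ (by omega)
          | succ b ihb =>
            have e := jaF_rec h u v a b c
            rw [ihj a b (c + 1) (by omega) (by omega) (by omega),
              ihb (a + 1) (by omega) (by omega),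
              ihk (a + 1) (b + 1) c (by omega) (by omega), zero_add, add_zero] at e
            exact e.symm
      intro a b c h1 h2
      exact inner m a b c (by omega) h1 h2
  exact key (2 * n + m) a b c hd (by omega)

theorem jaF_five (h : ∀ x y, β (γ x) (γ y) = σ (β x y)) (halt : ∀ x, β x x = 0)
    (hn : (γ - 1) ^ 5 = 0) (hm : (σ - 1) ^ 2 = 0) (w : U) : jaF β γ σ w w 2 3 0 = 0 := by
  have z := jaF_zero h hn hm w w
  have c2 : jaF β γ σ w w 2 2 1 = 0 := by unfold jaF; rw [halt, map_zero]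
  have zc : ∀ a b, jaF β γ σ w w a b 2 = 0 := by intro a b; unfold jaF; rw [hm]; rfl
  have zb : jaF β γ σ w w 0 5 0 = 0 := by unfold jaF; rw [hn]; simp
  have e1 := jaF_rec h w w 1 2 1
  rw [zc, c2, z 2 3 1 (by omega), zero_add, add_zero] at e1
  have e2 := jaF_rec h w w 0 3 1
  rw [zc, ← e1, z 1 4 1 (by omega), zero_add, add_zero] at e2
  have e3 := jaF_rec h w w 0 4 0
  rw [← e2, zb, z 1 5 0 (by omega), add_zero, add_zero] at e3
  have e4 := jaF_rec h w w 1 3 0
  rw [← e1, ← e3, z 2 4 0 (by omega), add_zero, add_zero] at e4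
  exact e4.symm

theorem ja_iso (h : ∀ x y, β (γ x) (γ y) = σ (β x y)) (halt : ∀ x, β x x = 0) {n : ℕ}
    (hn : (γ - 1) ^ n = 0)
    (hm : (7 ≤ n ∧ (σ - 1) ^ 3 = 0) ∨ (5 ≤ n ∧ (σ - 1) ^ 2 = 0)) (w : U) {a b : ℕ}
    (ha : n ≤ a + 3) (hb : n ≤ b + 3) :
    β (((γ - 1) ^ a) w) (((γ - 1) ^ b) w) = 0 := by
  have anti : ∀ x y, β x y = - β y x := by
    intro x y
    have := halt (x + y)
    simp only [map_add, AddMonoidHom.add_apply, halt, zero_add, add_zero] at this
    exact eq_neg_of_add_eq_zero_right this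
  have key : ∀ a b, n ≤ a + 3 → a < b → β (((γ - 1) ^ a) w) (((γ - 1) ^ b) w) = 0 := by
    intro a b ha hab
    change jaF β γ σ w w a b 0 = 0
    rcases hm with ⟨h1, h2⟩ | ⟨h1, h2⟩
    · exact jaF_zero h hn h2 w w a b 0 (by omega)
    · by_cases hd : n + 2 ≤ a + b + 0 + 1
      · exact jaF_zero h hn h2 w w a b 0 hd
      · obtain rfl : n = 5 := by omega
        obtain rfl : a = 2 := by omega
        obtain rfl : b = 3 := by omega
        exact jaF_five h halt hn h2 w
  rcases lt_trichotomy a b with hab | rfl | hab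
  · exact key a b ha hab
  · exact halt _
  · rw [anti, key b a hb hab, neg_zero]

end beta

end Cfsg.Agent.Max
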