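import Mathlib
import Cfsg.Agent.Max.JA1

/-! Thompson's replacement count and its linear consequence. -/

set_option autoImplicit false

namespace Cfsg.Agent.Max

open Subgroup

universe u

variable {X : Type u} [Group X]

/-- The subgroup generated by the twisted commutators `x⁻¹ a x a⁻¹`. -/
def jaM (A : Subgroup X) (x : X) : Subgroup X :=
  closure {y | ∃ a ∈ A, y = x⁻¹ * (a * x * a⁻¹)}

theorem jaM_mem {A : Subgroup X} {x a : X} (ha : a ∈ A) : x⁻¹ * (a * x * a⁻¹) ∈ jaM A x :=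
  subset_closure ⟨a, ha, rfl⟩

theorem jaM_conj {A : Subgroup X} {x a y : X} (ha : a ∈ A) (hy : y ∈ jaM A x) :
    a * y * a⁻¹ ∈ jaM A x := by
  induction hy using closure_induction with
  | mem y hy =>
    obtain ⟨b, hb, rfl⟩ := hy
    have e : a * (x⁻¹ * (b * x * b⁻¹)) * a⁻¹ =
      (x⁻¹ * (a * x * a⁻¹))⁻¹ * (x⁻¹ * ((a * b) * x * (a * b)⁻¹)) := by group
    rw [e]
    exact mul_mem (inv_mem (jaM_mem ha)) (jaM_mem (mul_mem ha hb))
  | one => simpa using one_mem _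
  | mul y z _ _ h1 h2 =>
    have e : a * (y * z) * a⁻¹ = (a * y * a⁻¹) * (a * z * a⁻¹) := by group
    rw [e]; exact mul_mem h1 h2
  | inv y _ h1 =>
    have e : a * y⁻¹ * a⁻¹ = (a * y * a⁻¹)⁻¹ := by group
    rw [e]; exact inv_mem h1

theorem ja_sup_comm {M C : Subgroup X} (hM : IsMulCommutative M) (hC : IsMulCommutative C)
    (h : C ≤ centralizer (M : Set X)) : IsMulCommutative (M ⊔ C : Subgroup X) := by
  rw [← le_centralizer_iff_isMulCommutative] at hM hC ⊢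
  rw [LocalEven.centralizer_sup']
  exact sup_le (le_inf hM (le_centralizer_iff.1 h)) (le_inf h hC)

theorem ja_thompson [Finite X] {T A : Subgroup X} (hA : A ∈ PLocal.abFam 0 T) {x : X}
    (hx : x ∈ T) (hM : IsMulCommutative (jaM A x)) {m : X} (hm : m ∈ jaM A x) :
    ∃ u ∈ A, ∃ c ∈ jaM A x, c ∈ centralizer (A : Set X) ∧ m = x⁻¹ * (u * x * u⁻¹) * c := by
  set M := jaM A x with hMdef
  have hAc : ∀ a ∈ A, ∀ b ∈ A, a * b = b * a := fun a ha b hb =>
    congrArg Subtype.val ((PLocal.abFam.comm hA).is_comm.comm (⟨a, ha⟩ : A) ⟨b, hb⟩)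
  have hMc : ∀ a ∈ M, ∀ b ∈ M, a * b = b * a := fun a ha b hb =>
    congrArg Subtype.val (hM.is_comm.comm (⟨a, ha⟩ : M) ⟨b, hb⟩)
  have hMT : M ≤ T := by
    rw [hMdef, jaM, closure_le]
    rintro _ ⟨a, ha, rfl⟩
    exact mul_mem (inv_mem hx) (mul_mem (mul_mem ((PLocal.abFam.le hA) ha) hx) (inv_mem ((PLocal.abFam.le hA) ha)))
  set C := A ⊓ centralizer (M : Set X) with hC
  set D := M ⊓ centralizer (A : Set X) with hD
  have hCc : IsMulCommutative C := by
    rw [← le_centralizer_iff_isMulCommutative]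
    intro a ha b hb
    exact hAc b hb.1 a ha.1
  have h1 : M ⊓ C = D := by
    apply le_antisymm
    · intro y hy
      exact ⟨hy.1, fun b hb => hAc b hb y hy.2.1⟩
    · intro y hy
      exact ⟨hy.1, PLocal.abFam.mem_of_centralizes hA (hMT hy.1) hy.2 (pow_zero y),
        fun b hb => hMc b hb y hy.1⟩
  have h2 := Core.card_sup_mul_card_inf (N := M) (H := C)
    (inf_le_right.trans (LocalEven.centralizer_le_normalizer' M))
  have h3 : Nat.card (M ⊔ C : Subgroup X) ≤ Nat.card A :=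
    hA.2 _ (sup_le hMT (inf_le_left.trans (PLocal.abFam.le hA))) (ja_sup_comm hM hCc inf_le_right)
      (fun b _ => pow_zero b)
  rw [h1] at h2
  have h4 := Core.card_mul_relIndex (inf_le_left : C ≤ A)
  have h5 := Core.card_mul_relIndex (inf_le_left : D ≤ M)
  have h6 : D.relIndex M ≤ C.relIndex A := by
    have hp1 : 0 < Nat.card C := Nat.card_pos
    have hp2 : 0 < Nat.card D := Nat.card_pos
    have : Nat.card D * Nat.card C * D.relIndex M ≤ Nat.card D * Nat.card C * C.relIndex A := by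
      calc Nat.card D * Nat.card C * D.relIndex M = Nat.card M * Nat.card C := by
            rw [← h5]; ring
        _ = Nat.card (M ⊔ C : Subgroup X) * Nat.card D := h2.symm
        _ ≤ Nat.card A * Nat.card D := Nat.mul_le_mul_right _ h3
        _ = _ := by rw [← h4]; ring
    exact Nat.le_of_mul_le_mul_left this (Nat.mul_pos hp2 hp1)
  let f : A ⧸ C.subgroupOf A → M ⧸ D.subgroupOf M := fun q =>
    QuotientGroup.mk ⟨x⁻¹ * ((q.out : X) * x * (q.out : X)⁻¹), jaM_mem q.out.2⟩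
  have hf : Function.Injective f := by
    intro q q' hqq
    have e := QuotientGroup.eq.1 hqq
    rw [mem_subgroupOf] at e
    have hu := q.out.2
    have hv := q'.out.2
    have hw : (q.out : X)⁻¹ * q'.out ∈ A := mul_mem (inv_mem hu) hv
    have e1 : (x⁻¹ * ((q.out : X) * x * (q.out : X)⁻¹))⁻¹ *
      (x⁻¹ * ((q'.out : X) * x * (q'.out : X)⁻¹)) ∈ centralizer (A : Set X) := e.2
    rw [← QuotientGroup.out_eq' q, ← QuotientGroup.out_eq' q']
    refine QuotientGroup.eq.2 (mem_subgroupOf.2 ⟨hw, ?_⟩)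
    change (q.out : X)⁻¹ * q'.out ∈ centralizer (M : Set X)
    generalize (q.out : X) = u at hu hw e1 ⊢
    generalize (q'.out : X) = v at hv hw e1 ⊢
    obtain ⟨w, rfl⟩ : ∃ w, v = u * w := ⟨u⁻¹ * v, by group⟩
    rw [inv_mul_cancel_left] at hw ⊢
    have e2 : x⁻¹ * (w * x * w⁻¹) ∈ centralizer (A : Set X) := by
      have e3 : x⁻¹ * (w * x * w⁻¹) = u⁻¹ * ((x⁻¹ * (u * x * u⁻¹))⁻¹ *
        (x⁻¹ * ((u * w) * x * (u * w)⁻¹))) * u := by group
      have e4 := e1 u hu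
      rw [e3, mul_assoc, ← e4, inv_mul_cancel_left]
      exact e1
    rw [← zpowers_le, le_centralizer_iff, hMdef, jaM, closure_le]
    rintro _ ⟨a, ha, rfl⟩
    rw [SetLike.mem_coe, LocalEven.centralizer_zpowers, LocalEven.mem_centralizer_singleton]
    have e5 : w * (x⁻¹ * (a * x * a⁻¹)) * w⁻¹ =
      (x⁻¹ * (w * x * w⁻¹))⁻¹ * (x⁻¹ * ((w * a) * x * (w * a)⁻¹)) := by group
    have e6 : x⁻¹ * ((a * w) * x * (a * w)⁻¹) =
      (x⁻¹ * (a * x * a⁻¹)) * (a * (x⁻¹ * (w * x * w⁻¹)) * a⁻¹) := by group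
    rw [hAc w hw a ha, e6, e2 a ha, mul_inv_cancel_right,
      hMc _ (jaM_mem ha) _ (jaM_mem hw), inv_mul_cancel_left] at e5
    exact mul_inv_eq_iff_eq_mul.1 e5
  have hb := hf.bijective_of_nat_card_le h6
  obtain ⟨q, hq⟩ := hb.2 (QuotientGroup.mk ⟨m, hm⟩)
  have e := QuotientGroup.eq.1 hq
  rw [mem_subgroupOf] at e
  refine ⟨q.out, q.out.2, _, e.1, e.2, ?_⟩
  exact (mul_inv_cancel_left _ _).symm

open scoped IsMulCommutative in
theorem ja_exists_lin (E Z : Subgroup X) [E.Normal] [Z.Normal] (h : ⁅E, E⁆ ≤ Z) :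
    ∃ (U : Type u) (_ : AddCommGroup U) (ψ : X → U) (ρ : X →* AddMonoid.End U),
      (∀ y ∈ E, ∀ z ∈ E, ψ (y * z) = ψ y + ψ z) ∧ (∀ y ∈ E, ψ y = 0 ↔ y ∈ Z) ∧
      (∀ v, ∃ y ∈ E, ψ y = v) ∧ (∀ a, ∀ y ∈ E, ψ (a * y * a⁻¹) = ρ a (ψ y)) := by
  classical
  let V : Subgroup (X ⧸ Z) := E.map (QuotientGroup.mk' Z)
  haveI hVn : V.Normal := Normal.map inferInstance _ (QuotientGroup.mk'_surjective Z)
  haveI hV : IsMulCommutative V := by
    rw [← le_centralizer_iff_isMulCommutative, ← LocalEven.commutator_eq_bot_iff,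
      ← map_commutator, ← Glaub.le_iff_map_mk']
    exact h
  have hf : ∀ x : X, QuotientGroup.mk' Z x ∈ normalizer (V : Set (X ⧸ Z)) := fun x =>
    le_normalizer_of_normal (K := ⊤) trivial
  refine ⟨Additive V, inferInstance,
    fun y => if hy : y ∈ E then Additive.ofMul ⟨QuotientGroup.mk' Z y, mem_map_of_mem _ hy⟩ else 0,
    (PLocal.conjEnd V).comp ((QuotientGroup.mk' Z).codRestrict _ hf), ?_, ?_, ?_, ?_⟩
  · intro y hy z hz
    simp only [dif_pos hy, dif_pos hz, dif_pos (mul_mem hy hz)]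
    rw [← ofMul_mul]
    congr 1
  · intro y hy
    simp only [dif_pos hy]
    rw [ofMul_eq_zero, ← Subtype.val_inj]
    exact QuotientGroup.eq_one_iff y
  · intro v
    obtain ⟨y, hy, e⟩ := (Additive.toMul v).2
    replace hy : y ∈ E := hy
    refine ⟨y, hy, ?_⟩
    simp only [dif_pos hy]
    have e2 : (⟨QuotientGroup.mk' Z y, mem_map_of_mem _ hy⟩ : V) = Additive.toMul v :=
      Subtype.ext e
    rw [e2]
    rfl
  · intro a y hy
    simp only [dif_pos hy, dif_pos (Normal.conj_mem inferInstance y hy a)]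
    rfl

/-- Data of a linearised section on which `A` acts through the powers of `γ`. -/
structure JaLin (p : ℕ) (A E : Subgroup X) (g : X) {U : Type*} [AddCommGroup U] (ψ : X → U)
    (γ : AddMonoid.End U) : Prop where
  add : ∀ y ∈ E, ∀ z ∈ E, ψ (y * z) = ψ y + ψ z
  tors : ∀ v : U, p • v = 0
  conj : ∀ y ∈ E, ψ (g * y * g⁻¹) = γ (ψ y)
  pow : ∀ a ∈ A, ∃ i : ℕ, ∀ y ∈ E, ψ (a * y * a⁻¹) = (γ ^ i) (ψ y)
  norm : ∀ a ∈ A, ∀ y ∈ E, a * y * a⁻¹ ∈ E
  mem : g ∈ A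

namespace JaLin

variable {p : ℕ} {A E : Subgroup X} {g : X} {U : Type*} [AddCommGroup U] {ψ : X → U}
  {γ : AddMonoid.End U}

theorem one (h : JaLin p A E g ψ γ) : ψ 1 = 0 := by
  have := h.add 1 (one_mem _) 1 (one_mem _)
  rw [mul_one] at this
  exact left_eq_add.1 this

theorem inv (h : JaLin p A E g ψ γ) {y : X} (hy : y ∈ E) : ψ y⁻¹ = - ψ y := by
  have := h.add y⁻¹ (inv_mem hy) y hy
  rw [inv_mul_cancel, h.one] at this
  exact eq_neg_of_add_eq_zero_left this.symm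

theorem jaM_le (h : JaLin p A E g ψ γ) {x : X} (hx : x ∈ E) : jaM A x ≤ E := by
  rw [jaM, closure_le]
  rintro _ ⟨a, ha, rfl⟩
  exact mul_mem (inv_mem hx) (h.norm a ha x hx)

theorem tau (h : JaLin p A E g ψ γ) {y : X} (hy : y ∈ E) :
    ψ (y⁻¹ * (g * y * g⁻¹)) = (γ - 1) (ψ y) := by
  rw [h.add _ (inv_mem hy) _ (h.norm g h.mem y hy), h.inv hy, h.conj y hy, neg_add_eq_sub]
  rfl

theorem height [Finite X] [Fact p.Prime] (h : JaLin p A E g ψ γ) (hp5 : 5 ≤ p) {T : Subgroup X}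
    (hA : A ∈ PLocal.abFam 0 T) (hE : E ≤ T) {x : X} (hx : x ∈ E)
    (hM : IsMulCommutative (jaM A x)) (h4 : ((γ - 1) ^ (4 : ℕ)) (ψ x) = 0) :
    ((γ - 1) ^ (3 : ℕ)) (ψ x) = 0 := by
  have hy := jaM_mem (x := x) h.mem
  have hyE := h.jaM_le hx hy
  have hm := mul_mem (inv_mem hy) (jaM_conj h.mem hy)
  obtain ⟨u, hu, c, hc, hcA, e⟩ := ja_thompson hA (hE hx) hM hm
  obtain ⟨i, hi⟩ := h.pow u hu
  have hcE := h.jaM_le hx hc
  refine ja_height hp5 h.tors γ (c := ψ c) (i := i) h4 ?_ ?_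
  · have e1 := congrArg ψ e
    rw [h.tau hyE, h.tau hx, h.add _ (h.jaM_le hx (jaM_mem hu)) _ hcE,
      h.add _ (inv_mem hx) _ (h.norm u hu x hx), h.inv hx, hi x hx, neg_add_eq_sub] at e1
    rw [pow_two]
    exact e1
  · rw [← h.tau hcE, hcA g h.mem]
    simp [h.one]

end JaLin

end Cfsg.Agent.Max
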