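import Mathlib
import Cfsg.Agent.Max.JA2
import Cfsg.Agent.Glaub.Weak

/-! The core configuration: an abelian subgroup of largest order acting cyclically. -/

set_option autoImplicit false

namespace Cfsg.Agent.Max

open Subgroup
open scoped commutatorElement

universe u

variable {X : Type u} [Group X]

theorem ja_nil3 {U : Type*} [AddCommGroup U] {t : AddMonoid.End U} {N : ℕ} (hN : t ^ N = 0)
    (h : ∀ v, (t ^ (4 : ℕ)) v = 0 → (t ^ (3 : ℕ)) v = 0) : t ^ 3 = 0 := by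
  have key : ∀ j, t ^ (3 + j) = 0 → t ^ 3 = 0 := by
    intro j
    induction j with
    | zero => exact id
    | succ j ih =>
      intro hj
      refine ih (AddMonoidHom.ext fun v => ?_)
      have e : (t ^ (4 : ℕ)) ((t ^ j) v) = 0 := by
        change (t ^ 4 * t ^ j) v = 0
        rw [← pow_add, show 4 + j = 3 + (j + 1) by omega, hj]
        rfl
      have := h _ e
      change (t ^ 3 * t ^ j) v = 0 at this
      rw [← pow_add] at this
      exact this
  exact key N (pow_eq_zero_of_le (by omega) hN)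

/-- A subgroup cut out by an additive subgroup of the linearisation. -/
def jaSub {E : Subgroup X} {U : Type*} [AddCommGroup U] {ψ : X → U}
    (hadd : ∀ y ∈ E, ∀ z ∈ E, ψ (y * z) = ψ y + ψ z) (Y : AddSubgroup U) : Subgroup X where
  carrier := {y | y ∈ E ∧ ψ y ∈ Y}
  mul_mem' := fun {a b} ha hb => ⟨mul_mem ha.1 hb.1, by
    rw [hadd a ha.1 b hb.1]; exact add_mem ha.2 hb.2⟩
  one_mem' := ⟨one_mem _, by
    have := hadd 1 (one_mem _) 1 (one_mem _)
    rw [mul_one] at this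
    rw [left_eq_add.1 this]; exact zero_mem _⟩
  inv_mem' := fun {a} ha => ⟨inv_mem ha.1, by
    have h1 := hadd 1 (one_mem _) 1 (one_mem _)
    rw [mul_one] at h1
    have := hadd a⁻¹ (inv_mem ha.1) a ha.1
    rw [inv_mul_cancel, left_eq_add.1 h1] at this
    rw [eq_neg_of_add_eq_zero_left this.symm]; exact neg_mem ha.2⟩

theorem ja_psi_pow {E : Subgroup X} {U : Type*} [AddCommGroup U] {ψ : X → U}
    (hadd : ∀ y ∈ E, ∀ z ∈ E, ψ (y * z) = ψ y + ψ z) {y : X} (hy : y ∈ E) (n : ℕ) :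
    ψ (y ^ n) = n • ψ y := by
  induction n with
  | zero =>
    have := hadd 1 (one_mem _) 1 (one_mem _)
    rw [mul_one] at this
    rw [pow_zero, zero_smul]
    exact left_eq_add.1 this
  | succ n ih => rw [pow_succ, hadd _ (pow_mem hy n) _ hy, ih, succ_nsmul]

theorem ja_comm_congr {E Z : Subgroup X} (hZE : Z ≤ centralizer (E : Set X)) (hZ : Z ≤ E)
    {x x' y y' : X} (hx : x ∈ E) (hy : y ∈ E) (h1 : x⁻¹ * x' ∈ Z) (h2 : y⁻¹ * y' ∈ Z) :
    ⁅x', y'⁆ = ⁅x, y⁆ := by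
  obtain ⟨z, rfl⟩ : ∃ z, x' = x * z := ⟨x⁻¹ * x', by group⟩
  obtain ⟨w, rfl⟩ : ∃ w, y' = y * w := ⟨y⁻¹ * y', by group⟩
  rw [inv_mul_cancel_left] at h1 h2
  have a1 : (y * w) * z = z * (y * w) := hZE h1 _ (mul_mem hy (hZ h2))
  have a2 : x⁻¹ * w = w * x⁻¹ := hZE h2 _ (inv_mem hx)
  rw [commutatorElement_def, commutatorElement_def]
  calc x * z * (y * w) * (x * z)⁻¹ * (y * w)⁻¹
      = x * (z * (y * w)) * z⁻¹ * x⁻¹ * (y * w)⁻¹ := by group
    _ = x * y * (w * x⁻¹) * (y * w)⁻¹ := by rw [← a1]; group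
    _ = _ := by rw [← a2]; group

theorem ja_comm_mul {E Z : Subgroup X} (hZE : Z ≤ centralizer (E : Set X)) (hEE : ⁅E, E⁆ ≤ Z)
    {x x' y : X} (hx : x ∈ E) (hx' : x' ∈ E) (hy : y ∈ E) :
    ⁅x * x', y⁆ = ⁅x, y⁆ * ⁅x', y⁆ := by
  have h1 := hEE (commutator_mem_commutator hx' hy)
  have a1 : x * ⁅x', y⁆ = ⁅x', y⁆ * x := hZE h1 _ hx
  have a2 : ⁅x, y⁆ * ⁅x', y⁆ = ⁅x', y⁆ * ⁅x, y⁆ :=
    hZE h1 _ (commutator_le_of_le' hx hy)
  have e : ⁅x * x', y⁆ = (x * ⁅x', y⁆) * x⁻¹ * ⁅x, y⁆ := by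
    simp only [commutatorElement_def]; group
  rw [e, a1, a2, mul_inv_cancel_right]
where
  commutator_le_of_le' {E : Subgroup X} {x y : X} (hx : x ∈ E) (hy : y ∈ E) : ⁅x, y⁆ ∈ E := by
    rw [commutatorElement_def]
    exact mul_mem (mul_mem (mul_mem hx hy) (inv_mem hx)) (inv_mem hy)

theorem ja_comm_pow {E Z : Subgroup X} (hZE : Z ≤ centralizer (E : Set X)) (hEE : ⁅E, E⁆ ≤ Z)
    {x y : X} (hx : x ∈ E) (hy : y ∈ E) (n : ℕ) : ⁅x ^ n, y⁆ = ⁅x, y⁆ ^ n := by
  induction n with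
  | zero => simp
  | succ n ih => rw [pow_succ, ja_comm_mul hZE hEE (pow_mem hx n) hx hy, ih, pow_succ]

/-- The final linear step. -/
theorem ja_final [Finite X] {p : ℕ} [Fact p.Prime] (hp5 : 5 ≤ p) {T A E : Subgroup X} {g : X}
    (hA : A ∈ PLocal.abFam 0 T) (hE : E ≤ T) {U W : Type*} [AddCommGroup U] [AddCommGroup W]
    {ψ : X → U} {γ : AddMonoid.End U} (h : JaLin p A E g ψ γ) (hs : ∀ v, ∃ y ∈ E, ψ y = v)
    (β : U →+ U →+ W) {σ : AddMonoid.End W} (hβ : ∀ x y, β (γ x) (γ y) = σ (β x y))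
    (halt : ∀ x, β x x = 0) (hc : ∀ y ∈ E, ∀ z ∈ E, β (ψ y) (ψ z) = 0 → y * z = z * y)
    {n : ℕ} (hn : (γ - 1) ^ n = 0)
    (hm : (7 ≤ n ∧ (σ - 1) ^ 3 = 0) ∨ (5 ≤ n ∧ (σ - 1) ^ 2 = 0)) : (γ - 1) ^ (n - 1) = 0 := by
  have h5 : 5 ≤ n := by omega
  refine AddMonoidHom.ext fun w => ?_
  have ap : ∀ (a b : ℕ) (v : U), ((γ - 1) ^ a) (((γ - 1) ^ b) v) = ((γ - 1) ^ (a + b)) v := by
    intro a b v
    rw [pow_add]; rfl
  obtain ⟨x, hx, e⟩ := hs (((γ - 1) ^ (n - 4)) w)
  let Y : AddSubgroup U := AddSubgroup.closure {v | ∃ a, n ≤ a + 3 ∧ v = ((γ - 1) ^ a) w}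
  have hY : ∀ u ∈ Y, ∀ v ∈ Y, β u v = 0 := by
    intro u hu v hv
    induction hu using AddSubgroup.closure_induction with
    | mem u hu =>
      obtain ⟨a, ha, rfl⟩ := hu
      induction hv using AddSubgroup.closure_induction with
      | mem v hv =>
        obtain ⟨b, hb, rfl⟩ := hv
        exact ja_iso hβ halt hn hm w ha hb
      | zero => exact map_zero _
      | add v v' _ _ h1 h2 => rw [map_add, h1, h2, add_zero]
      | neg v _ h1 => rw [map_neg, h1, neg_zero]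
    | zero => simp
    | add u u' _ _ h1 h2 => rw [map_add, AddMonoidHom.add_apply, h1, h2, add_zero]
    | neg u _ h1 => rw [map_neg, AddMonoidHom.neg_apply, h1, neg_zero]
  have s1 : ∀ v : U, γ v = ((γ - 1) ^ (1 : ℕ)) v + v := by
    intro v
    rw [pow_one]
    exact (sub_add_cancel (γ v) v).symm
  have hγ : ∀ u ∈ Y, γ u ∈ Y := by
    intro u hu
    induction hu using AddSubgroup.closure_induction with
    | mem u hu =>
      obtain ⟨a, ha, rfl⟩ := hu
      rw [s1, ap]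
      exact add_mem (AddSubgroup.subset_closure ⟨1 + a, by omega, rfl⟩)
        (AddSubgroup.subset_closure ⟨a, ha, rfl⟩)
    | zero => rw [map_zero]; exact zero_mem _
    | add u u' _ _ h1 h2 => rw [map_add]; exact add_mem h1 h2
    | neg u _ h1 => rw [map_neg]; exact neg_mem h1
  have hi : ∀ i : ℕ, (γ ^ i) (ψ x) - ψ x ∈ Y := by
    intro i
    induction i with
    | zero => simp
    | succ i ih =>
      have e2 : (γ ^ (i + 1)) (ψ x) - ψ x =
          γ ((γ ^ i) (ψ x) - ψ x) + ((γ - 1) ^ (1 : ℕ)) (ψ x) := by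
        rw [pow_succ', map_sub, s1 (ψ x)]
        change γ ((γ ^ i) (ψ x)) - ψ x = _
        abel
      rw [e2]
      refine add_mem (hγ _ ih) ?_
      rw [e, ap]
      exact AddSubgroup.subset_closure ⟨1 + (n - 4), by omega, rfl⟩
  have hle : jaM A x ≤ jaSub h.add Y := by
    rw [jaM, closure_le]
    rintro _ ⟨a, ha, rfl⟩
    refine ⟨mul_mem (inv_mem hx) (h.norm a ha x hx), ?_⟩
    obtain ⟨i, hi'⟩ := h.pow a ha
    rw [h.add _ (inv_mem hx) _ (h.norm a ha x hx), h.inv hx, hi' x hx, neg_add_eq_sub]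
    exact hi i
  have hM : IsMulCommutative (jaM A x) := by
    rw [← le_centralizer_iff_isMulCommutative]
    intro y hy z hz
    exact hc z (hle hz).1 y (hle hy).1 (hY _ (hle hz).2 _ (hle hy).2)
  have := h.height hp5 hA hE hx hM (by
    rw [e, ap, show 4 + (n - 4) = n by omega, hn]; rfl)
  rw [e, ap, show 3 + (n - 4) = n - 1 by omega] at this
  exact this

/-- The count for the centre when `A` acts through a group of order `p`. -/
theorem ja_sq [Finite X] {p : ℕ} [hp : Fact p.Prime] {T A P W : Subgroup X} [P.Normal] {g : X}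
    (hT : IsPGroup p T) (hA : A ∈ PLocal.abFam 0 T) (hW : W ≤ T) (hWc : IsMulCommutative W)
    (hWP : P ≤ centralizer (W : Set X))
    (hgen : ∀ a ∈ A, ∃ i : ℕ, ∃ y ∈ P, a = g ^ i * y) (hgp : g ^ p ∈ P)
    {U : Type*} [AddCommGroup U] {ψ : X → U} {σ : AddMonoid.End U} (h : JaLin p A W g ψ σ)
    (hs : ∀ v, ∃ y ∈ W, ψ y = v) (h3 : (σ - 1) ^ 3 = 0) : (σ - 1) ^ 2 = 0 := by
  have hAc : ∀ a ∈ A, ∀ b ∈ A, a * b = b * a := fun a ha b hb =>
    congrArg Subtype.val ((PLocal.abFam.comm hA).is_comm.comm (⟨a, ha⟩ : A) ⟨b, hb⟩)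
  have h1 : P.relIndex A ≤ p := by
    have e := relIndex_ker A (QuotientGroup.mk' P)
    rw [QuotientGroup.ker_mk'] at e
    have hle : A.map (QuotientGroup.mk' P) ≤ zpowers (QuotientGroup.mk' P g) := by
      rintro _ ⟨a, ha, rfl⟩
      obtain ⟨i, y, hy, rfl⟩ := hgen a ha
      have : QuotientGroup.mk' P y = 1 := (QuotientGroup.eq_one_iff y).2 hy
      rw [map_mul, this, mul_one, map_pow]
      exact pow_mem (mem_zpowers _) i
    have h2 : orderOf (QuotientGroup.mk' P g) ∣ p := by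
      rw [orderOf_dvd_iff_pow_eq_one, ← map_pow]
      exact (QuotientGroup.eq_one_iff _).2 hgp
    rw [e]
    refine (card_le_of_le hle).trans ?_
    rw [Nat.card_zpowers]
    exact Nat.le_of_dvd hp.out.pos h2
  set C := P ⊓ A with hC
  set D := W ⊓ C with hD
  have hCc : IsMulCommutative C := by
    rw [← le_centralizer_iff_isMulCommutative]
    intro a ha b hb
    exact hAc b hb.2 a ha.2
  have h2 := Core.card_sup_mul_card_inf (N := W) (H := C)
    ((inf_le_left.trans hWP).trans (LocalEven.centralizer_le_normalizer' W))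
  have h3' : Nat.card (W ⊔ C : Subgroup X) ≤ Nat.card A :=
    hA.2 _ (sup_le hW (inf_le_right.trans (PLocal.abFam.le hA)))
      (ja_sup_comm hWc hCc (inf_le_left.trans hWP)) (fun b _ => pow_zero b)
  have h4 : Nat.card C * P.relIndex A = Nat.card A := by
    rw [← inf_relIndex_right P A]
    exact Core.card_mul_relIndex (inf_le_right : C ≤ A)
  have h5 := Core.card_mul_relIndex (inf_le_left : D ≤ W)
  have h6 : D.relIndex W ≤ p := by
    have hp1 : 0 < Nat.card C := Nat.card_pos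
    have hp2 : 0 < Nat.card D := Nat.card_pos
    have : Nat.card D * Nat.card C * D.relIndex W ≤ Nat.card D * Nat.card C * p := by
      calc Nat.card D * Nat.card C * D.relIndex W = Nat.card W * Nat.card C := by
            rw [← h5]; ring
        _ = Nat.card (W ⊔ C : Subgroup X) * Nat.card D := h2.symm
        _ ≤ Nat.card A * Nat.card D := Nat.mul_le_mul_right _ h3'
        _ = Nat.card D * Nat.card C * P.relIndex A := by rw [← h4]; ring
        _ ≤ _ := Nat.mul_le_mul_left _ h1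
    exact Nat.le_of_mul_le_mul_left this (Nat.mul_pos hp2 hp1)
  have hfix : ∀ y ∈ D, (σ - 1) (ψ y) = 0 := by
    intro y hy
    rw [← h.tau hy.1, hAc g h.mem y hy.2.2]
    simp [h.one]
  let D2 := jaSub h.add (AddMonoidHom.ker (((σ - 1) ^ 2 : AddMonoid.End U) : U →+ U))
  have hD2 : ∀ y, y ∈ D2 ↔ y ∈ W ∧ (σ - 1) ((σ - 1) (ψ y)) = 0 := by
    intro y
    change y ∈ W ∧ ((σ - 1) ^ (2 : ℕ)) (ψ y) = 0 ↔ _
    rw [pow_two]; rfl
  have hDD : D ≤ D2 := fun y hy => (hD2 y).2 ⟨hy.1, by rw [hfix y hy, map_zero]⟩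
  have hcase : D2 = D ∨ D2 = W := by
    obtain ⟨j, hj⟩ := (hT.to_le hW).index (D.subgroupOf W)
    change D.relIndex W = _ at hj
    rcases j with _ | _ | j
    · right
      rw [pow_zero, relIndex_eq_one] at hj
      exact le_antisymm (fun y hy => hy.1) (hj.trans hDD)
    · exact Core.eq_or_eq_of_relIndex_prime (by rw [hj]; simpa using hp.out) hDD
        (fun y hy => hy.1)
    · exfalso
      rw [hj] at h6
      have : p ^ 1 < p ^ (j + 1 + 1) := Nat.pow_lt_pow_right hp.out.one_lt (by omega)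
      rw [pow_one] at this
      omega
  refine AddMonoidHom.ext fun v => ?_
  obtain ⟨y, hy, rfl⟩ := hs v
  rw [pow_two]
  change (σ - 1) ((σ - 1) (ψ y)) = 0
  rcases hcase with e | e
  · have hy' : y⁻¹ * (g * y * g⁻¹) ∈ W := mul_mem (inv_mem hy) (h.norm g h.mem y hy)
    rw [← h.tau hy]
    refine hfix _ (e ▸ (hD2 _).2 ⟨hy', ?_⟩)
    rw [h.tau hy]
    have : ((σ - 1) ^ (3 : ℕ)) (ψ y) = 0 := by rw [h3]; rfl
    rw [pow_succ, pow_two] at this
    exact this
  · exact ((hD2 y).1 (e ▸ hy)).2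

end Cfsg.Agent.Max
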