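import Mathlib
import Cfsg.Agent.Max.JA3
import Cfsg.Agent.Core.CoprimeGen

/-! Abelian subgroups of largest order lie in `O_p` in the minimal configuration, `p ≥ 5`. -/

set_option autoImplicit false

namespace Cfsg.Agent.Max

open Subgroup
open scoped commutatorElement

universe u

variable {X : Type u} [Group X]

theorem ja_rho_one {E Z : Subgroup X} [E.Normal] {U : Type*} [AddCommGroup U] {ψ : X → U}
    {ρ : X →* AddMonoid.End U} (hadd : ∀ y ∈ E, ∀ z ∈ E, ψ (y * z) = ψ y + ψ z)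
    (hz : ∀ y ∈ E, ψ y = 0 ↔ y ∈ Z) (hs : ∀ v, ∃ y ∈ E, ψ y = v)
    (hc : ∀ a, ∀ y ∈ E, ψ (a * y * a⁻¹) = ρ a (ψ y)) (a : X) :
    ρ a = 1 ↔ ∀ y ∈ E, ⁅y, a⁆ ∈ Z := by
  have key : ∀ y ∈ E, ρ a (ψ y) = ψ y ↔ ⁅y⁻¹, a⁆ ∈ Z := by
    intro y hy
    have h1 : ⁅y⁻¹, a⁆ ∈ E := by
      rw [commutatorElement_def, mul_assoc, mul_assoc, ← mul_assoc a]
      exact mul_mem (inv_mem hy) (Normal.conj_mem inferInstance _ (inv_mem (inv_mem hy)) a)
    have e : a * y * a⁻¹ = y * ⁅y⁻¹, a⁆ := by rw [commutatorElement_def]; group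
    rw [← hc a y hy, e, hadd y hy _ h1, add_eq_left, hz _ h1]
  constructor
  · intro h y hy
    have := (key y⁻¹ (inv_mem hy)).1 (by rw [h]; rfl)
    rwa [inv_inv] at this
  · intro h
    refine AddMonoidHom.ext fun v => ?_
    obtain ⟨y, hy, rfl⟩ := hs v
    exact (key y hy).2 (h _ (inv_mem hy))

theorem ja_core [Finite X] {p : ℕ} [hp : Fact p.Prime] (hp5 : 5 ≤ p) {T A Q P L : Subgroup X}
    [Q.Normal] [P.Normal] [L.Normal] (hT : IsPGroup p T) (hA : A ∈ PLocal.abFam 0 T)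
    (hQP : Q ≤ P) (hPT : P ≤ T) (hLL : ⁅L, L⁆ ≤ Q) (hLp : ¬ p ∣ Q.relIndex L) {g : X}
    (hg : g ∈ A) (hgP : g ∉ P) (hgen : ∀ a ∈ A, ∃ i : ℕ, ∃ y ∈ P, a = g ^ i * y)
    (hL : ∀ a ∈ A, a ∉ P → L ≤ ⁅L, zpowers a⁆ ⊔ Q)
    (hK : ¬ LocalEven.pResOf p L ≤ centralizer (Q : Set X)) : False := by
  classical
  set K := LocalEven.pResOf p L with hKdef
  haveI hKn : K.Normal := LocalEven.pResOf_normal L
  obtain ⟨E, ⟨hEn, hEQ, hKE⟩, hmin⟩ := exists_minimal_of_wellFoundedLT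
    (fun E : Subgroup X => E.Normal ∧ E ≤ Q ∧ ¬ K ≤ centralizer (E : Set X))
    ⟨Q, inferInstance, le_rfl, hK⟩
  have hEP : E ≤ P := hEQ.trans hQP
  have hET : E ≤ T := hEP.trans hPT
  have hEp : IsPGroup p E := hT.to_le hET
  set Z := E ⊓ centralizer (K : Set X) with hZdef
  haveI hZn : Z.Normal := inferInstance
  have hZ : ∀ D : Subgroup X, D.Normal → D ≤ E → D ≠ E → D ≤ Z := by
    intro D hD h1 h2
    refine le_inf h1 (le_centralizer_iff.1 ?_)
    by_contra h3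
    exact h2 (le_antisymm h1 (hmin ⟨hD, h1.trans hEQ, h3⟩ h1))
  have hEZ : ¬ E ≤ Z := fun h => hKE (le_centralizer_iff.1 (h.trans inf_le_right))
  have hE0 : E ≠ ⊥ := fun h => hEZ (h ▸ bot_le)
  have hEK : ⁅E, K⁆ = E := by
    by_contra h
    have h1 := (hZ _ inferInstance (commutator_le_left _ _) h).trans inf_le_right
    refine hKE (LocalEven.pResOf_le_iff.2 fun y hy hyp => ?_)
    have hyK : zpowers y ≤ K := zpowers_le.2 (LocalEven.mem_pResOf hy hyp)
    refine zpowers_le.1 (Core.le_centralizer_of_commutator_commutator_eq_bot _ _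
      le_normalizer_of_normal ?_ ?_)
    · obtain ⟨k, hk⟩ := IsPGroup.iff_card.1 hEp
      rw [Nat.card_zpowers, hk]
      exact hyp.pow_right k
    · rw [LocalEven.commutator_eq_bot_iff]
      exact ((commutator_mono le_rfl hyK).trans h1).trans (centralizer_le hyK)
  have hEPZ : ⁅E, P⁆ ≤ Z :=
    hZ _ inferInstance (commutator_le_left _ _)
      (Core.commutator_lt_of_isPGroup hEp (hT.to_le hPT) le_normalizer_of_normal hE0).ne
  have hEE : ⁅E, E⁆ ≤ Z := (commutator_mono le_rfl hEP).trans hEPZ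
  have hZE : Z ≤ centralizer (E : Set X) := by
    rw [le_centralizer_iff, ← hEK]
    refine Core.three_subgroups ((commutator_le_right _ _).trans inf_le_right) ?_
    rw [LocalEven.commutator_eq_bot_iff.2 (le_centralizer_iff.1 inf_le_right)]
    exact bot_le
  obtain ⟨U, _, ψ, ρ, hadd, hz, hs, hc⟩ := ja_exists_lin E Z hEE
  have hρ := ja_rho_one hadd hz hs hc
  have htors : ∀ v : U, p • v = 0 := by
    let D := jaSub hadd (AddMonoidHom.ker (nsmulAddMonoidHom (α := U) p))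
    have hD : ∀ y, y ∈ D ↔ y ∈ E ∧ p • ψ y = 0 := fun y => Iff.rfl
    have hDn : D.Normal := ⟨fun y hy a => (hD _).2 ⟨hEn.conj_mem y hy.1 a, by
      rw [hc a y hy.1, ← map_nsmul, ((hD y).1 hy).2, map_zero]⟩⟩
    have hDE : D = E := by
      by_contra h
      have h1 := hZ D hDn (fun y hy => hy.1) h
      obtain ⟨x, hx, hxZ⟩ := SetLike.not_le_iff_exists.1 hEZ
      obtain ⟨k, hk⟩ := hEp ⟨x, hx⟩
      obtain ⟨y, hy, hy1, hy2⟩ := Glaub.exists_pow_not_mem (p := p) (k := k)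
        (congrArg Subtype.val hk) hxZ
      have hyE : y ∈ E := zpowers_le.2 hx hy
      exact hy1 (h1 ((hD y).2 ⟨hyE, by
        rw [← ja_psi_pow hadd hyE]; exact (hz _ (pow_mem hyE p)).2 hy2⟩))
    intro v
    obtain ⟨y, hy, rfl⟩ := hs v
    exact ((hD y).1 (hDE ▸ hy)).2
  have hρP : ∀ y ∈ P, ρ y = 1 := fun y hy =>
    (hρ y).2 fun x hx => hEPZ (commutator_mem_commutator hx hy)
  have hlin : JaLin p A E g ψ (ρ g) :=
    ⟨hadd, htors, hc g, fun a ha => by
      obtain ⟨i, y, hy, rfl⟩ := hgen a ha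
      exact ⟨i, fun x hx => by rw [hc _ x hx, map_mul, hρP y hy, mul_one, map_pow]⟩,
      fun a _ y hy => hEn.conj_mem y hy a, hg⟩
  have hHH : ∀ a ∈ A, (ρ a - 1) ^ (p - 1) = 0 → a ∈ P := by
    intro a ha h0
    by_contra haP
    have hPN : P ≤ ρ.ker := hρP
    have hinj : Function.Injective (QuotientGroup.lift ρ.ker ρ fun x hx => hx) := by
      rw [injective_iff_map_eq_one]
      intro x hx
      obtain ⟨x, rfl⟩ := QuotientGroup.mk_surjective x
      exact (QuotientGroup.eq_one_iff x).mpr hx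
    haveI : (L.map (QuotientGroup.mk' ρ.ker)).Normal :=
      Normal.map inferInstance _ (QuotientGroup.mk'_surjective _)
    have h1 := Transfer.mem_centralizer_of_pow_sub_one_eq_zero (ja_natCast_zero htors) _ hinj
      (g := QuotientGroup.mk' ρ.ker a) h0 (L := L.map (QuotientGroup.mk' ρ.ker))
      (by
        rw [← le_centralizer_iff_isMulCommutative, ← LocalEven.commutator_eq_bot_iff,
          ← map_commutator, ← Glaub.le_iff_map_mk']
        exact hLL.trans (hQP.trans hPN))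
      (by
        rw [← relIndex_ker, QuotientGroup.ker_mk']
        exact fun h => hLp (h.trans (relIndex_dvd_of_le_left L (hQP.trans hPN))))
      (le_normalizer_of_normal (K := ⊤) trivial)
    have h2 : ⁅L, zpowers a⁆ ≤ ρ.ker := by
      rw [Glaub.le_iff_map_mk', map_commutator, MonoidHom.map_zpowers,
        ← Core.le_centralizer_iff_commutator_eq_bot, zpowers_le]
      exact h1
    have h3 : K ≤ ρ.ker :=
      (LocalEven.pResOf_le L).trans ((hL a ha haP).trans (sup_le h2 (hQP.trans hPN)))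
    refine hEZ ?_
    rw [← hEK, commutator_le]
    intro x hx y hy
    exact (hρ y).1 (h3 hy) x hx
  -- the centre
  set W := omegaOneCenter p P with hWdef
  haveI hWn : W.Normal := Transfer.omegaOneCenter_normal P
  have hWe : IsElementaryAbelian p W := Transfer.ea_omegaOneCenter P
  have hWT : W ≤ T := (Transfer.omegaOneCenter_le P).trans hPT
  obtain ⟨U', _, ψ', ρ', hadd', hz', hs', hc'⟩ := ja_exists_lin W ⊥
    (LocalEven.commutator_eq_bot_iff.2 (Transfer.ea_le_centralizer hWe)).le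
  have hρ' := ja_rho_one hadd' hz' hs' hc'
  have htors' : ∀ v : U', p • v = 0 := by
    intro v
    obtain ⟨y, hy, rfl⟩ := hs' v
    rw [← ja_psi_pow hadd' hy, hz' _ (pow_mem hy p), hWe.2 y hy]
    exact one_mem _
  have hρP' : ∀ y ∈ P, ρ' y = 1 := fun y hy => (hρ' y).2 fun x hx => by
    rw [mem_bot, commutatorElement_eq_one_iff_mul_comm]
    exact (Transfer.omegaOneCenter_le_centralizer P hx y hy).symm
  have hlin' : JaLin p A W g ψ' (ρ' g) :=
    ⟨hadd', htors', hc' g, fun a ha => by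
      obtain ⟨i, y, hy, rfl⟩ := hgen a ha
      exact ⟨i, fun x hx => by rw [hc' _ x hx, map_mul, hρP' y hy, mul_one, map_pow]⟩,
      fun a _ y hy => hWn.conj_mem y hy a, hg⟩
  obtain ⟨k, hk⟩ := hT ⟨g, PLocal.abFam.le hA hg⟩
  replace hk : g ^ p ^ k = 1 := congrArg Subtype.val hk
  have hσ3 : (ρ' g - 1) ^ 3 = 0 := by
    refine ja_nil3 (N := p ^ k) ?_ fun v hv => ?_
    · rw [← ja_pow_pk (ja_natCast_zero htors'), ← map_pow, hk, map_one, sub_self]
    · obtain ⟨y, hy, rfl⟩ := hs' v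
      refine hlin'.height hp5 hA hWT hy ?_ hv
      exact (Transfer.ea_of_le hWe (hlin'.jaM_le hy)).1
  -- the commutator form
  have hψeq : ∀ x ∈ E, ∀ y ∈ E, ψ x = ψ y → x⁻¹ * y ∈ Z := by
    intro x hx y hy h
    rw [← hz _ (mul_mem (inv_mem hx) hy), hadd _ (inv_mem hx) _ hy, hlin.inv hx, h, neg_add_cancel]
  have hcW : ∀ x ∈ E, ∀ y ∈ E, ⁅x, y⁆ ∈ W := by
    intro x hx y hy
    refine Transfer.mem_omegaOneCenter_iff.2 ⟨hEP (inf_le_left (a := E)
      (hEE (commutator_mem_commutator hx hy))), fun q hq => ?_, ?_⟩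
    · have h1 : ∀ x ∈ E, x⁻¹ * (q * x * q⁻¹) ∈ Z := fun x hx =>
        hψeq _ hx _ (hEn.conj_mem x hx q) (by rw [hc q x hx, hρP q hq]; rfl)
      have h2 := ja_comm_congr hZE inf_le_left hx hy (h1 x hx) (h1 y hy)
      rw [← conjugate_commutatorElement] at h2
      exact mul_inv_eq_iff_eq_mul.1 h2
    · rw [← ja_comm_pow hZE hEE hx hy, commutatorElement_eq_one_iff_mul_comm]
      refine (hZE ?_ y hy).symm
      rw [← hz _ (pow_mem hx p), ja_psi_pow hadd hx, htors]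
  choose sec hsec1 hsec2 using hs
  have hβ0 : ∀ x ∈ E, ∀ y ∈ E, ψ' ⁅sec (ψ x), sec (ψ y)⁆ = ψ' ⁅x, y⁆ := by
    intro x hx y hy
    rw [ja_comm_congr hZE inf_le_left hx hy (hψeq _ hx _ (hsec1 _) (hsec2 _).symm)
      (hψeq _ hy _ (hsec1 _) (hsec2 _).symm)]
  have hneg : ∀ x ∈ E, ∀ y ∈ E, ψ' ⁅x, y⁆ = - ψ' ⁅y, x⁆ := by
    intro x hx y hy
    rw [← hlin'.inv (hcW y hy x hx), commutatorElement_inv]
  have hl : ∀ u u' v : U, ψ' ⁅sec (u + u'), sec v⁆ = ψ' ⁅sec u, sec v⁆ + ψ' ⁅sec u', sec v⁆ := by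
    intro u u' v
    have := hβ0 _ (mul_mem (hsec1 u) (hsec1 u')) _ (hsec1 v)
    rw [hadd _ (hsec1 u) _ (hsec1 u'), hsec2, hsec2, hsec2] at this
    rw [this, ja_comm_mul hZE hEE (hsec1 u) (hsec1 u') (hsec1 v),
      hadd' _ (hcW _ (hsec1 _) _ (hsec1 _)) _ (hcW _ (hsec1 _) _ (hsec1 _))]
  let β : U →+ U →+ U' := AddMonoidHom.mk'
    (fun u => AddMonoidHom.mk' (fun v => ψ' ⁅sec u, sec v⁆) (fun v v' => by
      rw [hneg _ (hsec1 u) _ (hsec1 _), hl, hneg _ (hsec1 u) _ (hsec1 v),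
        hneg _ (hsec1 u) _ (hsec1 v'), neg_add]))
    (fun u u' => AddMonoidHom.ext fun v => hl u u' v)
  have hβ : ∀ x ∈ E, ∀ y ∈ E, β (ψ x) (ψ y) = ψ' ⁅x, y⁆ := hβ0
  have hnil : ∃ n, (ρ g - 1) ^ n = 0 := ⟨p ^ k, by
    rw [← ja_pow_pk (ja_natCast_zero htors), ← map_pow, hk, map_one, sub_self]⟩
  have hn := Nat.find_spec hnil
  have hnp : p ≤ Nat.find hnil := by
    by_contra h
    exact hgP (hHH g hg (pow_eq_zero_of_le (by omega) hn))
  refine Nat.find_min hnil (m := Nat.find hnil - 1) (by omega) ?_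
  refine ja_final hp5 hA hET hlin (fun v => ⟨sec v, hsec1 v, hsec2 v⟩) β (σ := ρ' g) ?_ ?_ ?_ hn ?_
  · intro u v
    rw [← hsec2 u, ← hsec2 v, ← hc g _ (hsec1 u), ← hc g _ (hsec1 v),
      hβ _ (hEn.conj_mem _ (hsec1 u) g) _ (hEn.conj_mem _ (hsec1 v) g),
      hβ _ (hsec1 u) _ (hsec1 v), ← hc' g _ (hcW _ (hsec1 u) _ (hsec1 v)),
      conjugate_commutatorElement]
  · intro u
    rw [← hsec2 u, hβ _ (hsec1 u) _ (hsec1 u), commutatorElement_self, hlin'.one]
  · intro y hy z hz0 h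
    rw [hβ y hy z hz0, hz' _ (hcW y hy z hz0), mem_bot] at h
    exact commutatorElement_eq_one_iff_mul_comm.1 h
  · by_cases h7 : 7 ≤ Nat.find hnil
    · exact Or.inl ⟨h7, hσ3⟩
    · refine Or.inr ⟨by omega, ja_sq hT hA hWT hWe.1 (Transfer.le_centralizer_omegaOneCenter P)
        hgen (hHH _ (pow_mem hg p) ?_) hlin' hs' hσ3⟩
      rw [map_pow, ja_pow_p (ja_natCast_zero htors), ← pow_mul]
      refine pow_eq_zero_of_le ?_ hn
      have : 5 * 4 ≤ p * (p - 1) := Nat.mul_le_mul hp5 (by omega)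
      omega

theorem ja_comap_normal {Y : Type*} [Group Y] (f : X →* Y) (D : Subgroup Y)
    (h : ∀ a, f a ∈ normalizer (D : Set Y)) : (D.comap f).Normal :=
  ⟨fun y hy a => by
    rw [mem_comap, map_mul, map_mul, map_inv]
    exact (mem_normalizer_iff.1 (h a) _).1 hy⟩

theorem ja_le_pCore {G : Type u} [Group G] [Finite G] {p : ℕ} [hp : Fact p.Prime] (hp5 : 5 ≤ p)
    {S : Sylow p G} (h : Transfer.ThompsonMin p G S) {A : Subgroup G}
    (hA : A ∈ PLocal.abFam 0 (S : Subgroup G)) : A ≤ pCore p G := by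
  by_contra hAQ
  set Q := pCore p G with hQ
  have hQS : Q ≤ S := Glaub.pCore_le_of_isSylowIn (LocalEven.isSylowIn_top S)
  set π := QuotientGroup.mk' Q with hπ
  set B := A.map π with hB
  set K := pResidual p (G ⧸ Q) with hK
  obtain ⟨q, -, -, hq⟩ := h.exists_isElementaryAbelian
  have hKp : ¬ p ∣ Nat.card K := Transfer.hasNormalPComplement_iff_not_dvd.mp h.quot_npc
  have hBc : IsMulCommutative B := by
    have := PLocal.abFam.comm hA
    infer_instance
  have hBp : IsPGroup p B := (S.2.to_le (PLocal.abFam.le hA)).map π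
  obtain ⟨L, ⟨hLK, hBL, hLc⟩, hmin⟩ := exists_minimal_of_wellFoundedLT
    (fun L : Subgroup (G ⧸ Q) => L ≤ K ∧ B ≤ normalizer (L : Set (G ⧸ Q)) ∧
      ¬ B ≤ centralizer (L : Set (G ⧸ Q)))
    ⟨K, le_rfl, le_normalizer_of_normal, fun hc => hAQ fun a ha =>
      h.mem_pCore_of_mem_centralizer (PLocal.abFam.le hA ha) (hc (mem_map_of_mem π ha))⟩
  have hLp : ¬ p ∣ Nat.card L := fun hd => hKp (hd.trans (card_dvd_of_le hLK))
  have hLa : IsMulCommutative L := (Transfer.ea_of_le hq hLK).1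
  have hL0 : L ≠ ⊥ := fun e => hLc (e ▸ Core.le_centralizer_bot B)
  have hcop : ∀ D ≤ B, (Nat.card D).Coprime (Nat.card L) := fun D hD =>
    Transfer.coprime_card_of_isPGroup_of_not_dvd (hBp.to_le hD) hLp
  have hBB : B ≤ centralizer (B : Set (G ⧸ Q)) := le_centralizer_iff_isMulCommutative.2 hBc
  have hirr : ∀ a ∈ B, a ∉ centralizer (L : Set (G ⧸ Q)) → ⁅L, zpowers a⁆ = L := by
    intro a ha hac
    have h1 : zpowers a ≤ B := zpowers_le.2 ha
    have h2 : ⁅L, zpowers a⁆ ≤ L := Core.commutator_le_of_le_normalizer (h1.trans hBL)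
    refine le_antisymm h2 (hmin ⟨h2.trans hLK, ?_, fun hc => hac ?_⟩ h2)
    · exact Core.le_normalizer_commutator hBL
        ((hBB.trans (centralizer_le h1)).trans (LocalEven.centralizer_le_normalizer' _))
    · exact zpowers_le.1 (Core.le_centralizer_of_commutator_commutator_eq_bot _ _ (h1.trans hBL)
        (hcop _ h1) (Core.le_centralizer_iff_commutator_eq_bot.1 (h1.trans hc)))
  set B₀ := B ⊓ centralizer (L : Set (G ⧸ Q)) with hB₀
  obtain ⟨_, ⟨g, hg, rfl⟩, hgen⟩ : ∃ a ∈ B, B ≤ B₀ ⊔ zpowers a := by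
    by_contra hnc
    push Not at hnc
    refine hL0 (eq_bot_iff.2 (Core.le_of_centralizers_rel hBc hnc inf_le_right hBL
      (hcop _ le_rfl) fun a ha ha0 => ?_))
    have h1 : zpowers a ≤ B := zpowers_le.2 ha
    have h2 := Core.centralizer_inf_commutator_eq_bot (zpowers a) L hLa (h1.trans hBL) (hcop _ h1)
    rw [hirr a ha (fun hc => ha0 ⟨ha, hc⟩), inf_right_comm, inf_idem,
      LocalEven.centralizer_zpowers] at h2
    exact h2.le
  set H := (B ⊔ L).comap π with hH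
  have hAH : A ≤ H := (le_comap_map π A).trans (comap_mono le_sup_left)
  have hQH : Q ≤ H := fun y hy => by
    rw [hH, mem_comap, show π y = 1 from (QuotientGroup.eq_one_iff y).2 hy]
    exact one_mem _
  set f : H →* G ⧸ Q := π.comp H.subtype with hf
  have hfr : f.range = B ⊔ L := by
    rw [hf, MonoidHom.range_comp, range_subtype, hH,
      map_comap_eq_self_of_surjective (QuotientGroup.mk'_surjective Q)]
  have hfm : ∀ a, f a ∈ B ⊔ L := fun a => hfr ▸ ⟨a, rfl⟩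
  have hfk : ∀ a : H, a ∈ f.ker ↔ (a : G) ∈ Q := fun a => QuotientGroup.eq_one_iff (a : G)
  haveI : (B₀.comap f).Normal := ja_comap_normal f _ fun a =>
    (sup_le ((hBB.trans (centralizer_le (show B₀ ≤ B from inf_le_left))).trans
      (LocalEven.centralizer_le_normalizer' _))
      ((le_centralizer_iff.1 inf_le_right).trans (LocalEven.centralizer_le_normalizer' _)) :
        B ⊔ L ≤ normalizer (B₀ : Set (G ⧸ Q))) (hfm a)
  haveI : (L.comap f).Normal := ja_comap_normal f _ fun a =>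
    (sup_le hBL le_normalizer : B ⊔ L ≤ normalizer (L : Set (G ⧸ Q))) (hfm a)
  have hLm : (L.comap f).map f = L := map_comap_eq_self (hfr ▸ le_sup_right)
  have hA2 : A ∈ PLocal.abFam 0 (((S : Subgroup G).subgroupOf H).map H.subtype) := by
    rw [subgroupOf_map_subtype]
    exact PLocal.abFam.of_le hA (le_inf (PLocal.abFam.le hA) hAH) inf_le_left
  rw [PLocal.abFam_map _ H.subtype_injective] at hA2
  obtain ⟨A', hA', e⟩ := hA2
  have hmem : ∀ a : H, a ∈ A' ↔ (a : G) ∈ A := fun a => by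
    rw [← e]
    exact (mem_map_iff_mem H.subtype_injective).symm
  have hfA : ∀ a ∈ A', f a ∈ B := fun a ha => mem_map_of_mem π ((hmem a).1 ha)
  have hkP : f.ker ≤ B₀.comap f := ker_le_comap f _
  refine ja_core hp5 (T := (S : Subgroup G).subgroupOf H) (A := A') (Q := f.ker)
    (P := B₀.comap f) (L := L.comap f) (LocalEven.isPGroup_subgroupOf S.2) hA' hkP ?_ ?_ ?_
    (g := ⟨g, hAH hg⟩) ((hmem _).2 hg) ?_ ?_ ?_ ?_
  · rintro y ⟨⟨a, ha, e⟩, -⟩
    have h1 : a⁻¹ * y ∈ Q := QuotientGroup.eq.1 e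
    have := mul_mem (PLocal.abFam.le hA ha) (hQS h1)
    rwa [mul_inv_cancel_left] at this
  · rw [← Subgroup.map_eq_bot_iff, map_commutator, hLm, LocalEven.commutator_eq_bot_iff]
    exact le_centralizer_iff_isMulCommutative.2 hLa
  · rw [relIndex_ker, hLm]
    exact hLp
  · intro hg0
    exact hLc ((hgen.trans (sup_le le_rfl (zpowers_le.2 hg0))).trans inf_le_right)
  · intro a ha
    have h1 : a ∈ zpowers (⟨g, hAH hg⟩ : H) ⊔ B₀.comap f := by
      have h2 : a ∈ (B₀ ⊔ (zpowers (⟨g, hAH hg⟩ : H)).map f).comap f := by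
        rw [MonoidHom.map_zpowers]
        exact hgen (hfA a ha)
      rw [← comap_sup_eq_of_le_range f (hfr ▸ inf_le_left.trans le_sup_left) (map_le_range _ _),
        comap_map_eq] at h2
      exact (sup_le le_sup_right (sup_le le_sup_left (hkP.trans le_sup_right)) :
        _ ≤ zpowers (⟨g, hAH hg⟩ : H) ⊔ B₀.comap f) h2
    obtain ⟨x, hx, y, hy, rfl⟩ := mem_sup_of_normal_right.1 h1
    obtain ⟨i, rfl⟩ := (mem_powers_iff_mem_zpowers.2 hx)
    exact ⟨i, y, hy, rfl⟩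
  · intro a ha haP
    rw [← comap_map_eq, map_commutator, hLm, MonoidHom.map_zpowers,
      hirr _ (hfA a ha) fun hc => haP ⟨hfA a ha, hc⟩]
  · intro hc
    have h1 : LocalEven.pResOf p (L.comap f) ≤ f.ker := fun y hy =>
      (hfk y).2 (h.centralizer_le fun z hz =>
        congrArg Subtype.val (hc hy ⟨z, hQH hz⟩ ((hfk _).2 hz)))
    rw [← Subgroup.map_eq_bot_iff, LocalEven.map_pResOf, hLm] at h1
    refine hL0 (eq_bot_iff.2 (h1 ▸ LocalEven.le_pResOf_of_coprime le_rfl ?_))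
    exact ((hp.out.coprime_iff_not_dvd).2 hLp).symm

theorem isCharPFunctor_jn0 {p : ℕ} [Fact p.Prime] :
    IsCharPFunctor p (fun (Q : Type u) [Group Q] => PLocal.jn 0 (⊤ : Subgroup Q)) := by
  refine ⟨fun Q _ _ hQ _ => PLocal.jn_ne_bot (Or.inl rfl) (hQ.to_subgroup ⊤) top_ne_bot,
    fun Q R _ _ _ _ φ => ?_⟩
  beta_reduce
  rw [PLocal.map_jn _ φ.injective, map_top_of_surjective _ φ.surjective]

theorem inducedFunctor_jn0 (S : Subgroup X) :
    inducedFunctor (fun (Q : Type u) [Group Q] => PLocal.jn 0 (⊤ : Subgroup Q)) S =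
      PLocal.jn 0 S := by
  unfold inducedFunctor
  beta_reduce
  rw [PLocal.map_jn _ S.subtype_injective, ← MonoidHom.range_eq_map, range_subtype]

theorem npc_of_automizer_jn0 {p : ℕ} [Fact p.Prime] (hp5 : 5 ≤ p)
    (G : Type u) [Group G] [Finite G] (S : Sylow p G)
    (h : ∀ g ∈ normalizer (PLocal.jn 0 (S : Subgroup G) : Set G), (orderOf g).Coprime p →
      g ∈ centralizer (PLocal.jn 0 (S : Subgroup G) : Set G)) :
    HasNormalPComplement p G := by
  refine LocalEven.npc_of_automizer isCharPFunctor_jn0 (fun Y _ _ T hT => ?_) G S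
    (by rwa [inducedFunctor_jn0])
  rw [inducedFunctor_jn0]
  constructor
  · have h1 : PLocal.jn 0 (T : Subgroup Y) ≤ pCore p Y :=
      PLocal.jn_le_iff.2 fun A hA => ja_le_pCore hp5 hT hA
    rw [← PLocal.jn_eq_of_le h1 (Glaub.pCore_le_of_isSylowIn (LocalEven.isSylowIn_top T))]
    exact Core.normal_of_le_normalizer
      (le_normalizer_of_normal.trans (PLocal.normalizer_le_normalizer_jn 0 _))
  · intro x hx
    obtain ⟨A, hA⟩ := PLocal.abFam_nonempty 0 (T : Subgroup Y)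
    exact PLocal.abFam.le_jn hA (PLocal.abFam.mem_of_centralizes hA hx.1
      (centralizer_le (PLocal.abFam.le_jn hA) hx.2) (pow_zero x))

end Cfsg.Agent.Max
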