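import Mathlib
import Cfsg.Agent.Max.JA4

/-! The lattice of optimal subgroups of an abelian subgroup of largest order. -/

set_option autoImplicit false

namespace Cfsg.Agent.Max

open Subgroup
open scoped commutatorElement

universe u

variable {X : Type u} [Group X]

theorem ja_idx [Finite X] (D A M D' : Subgroup X) (f : X → X) (hf : ∀ a ∈ A, f a ∈ M)
    (hinj : ∀ a ∈ A, ∀ b ∈ A, (f a)⁻¹ * f b ∈ D' → a⁻¹ * b ∈ D) :
    D.relIndex A ≤ D'.relIndex M ∧
      (D'.relIndex M ≤ D.relIndex A → ∀ m ∈ M, ∃ a ∈ A, (f a)⁻¹ * m ∈ D') := by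
  let F : A ⧸ D.subgroupOf A → M ⧸ D'.subgroupOf M := fun q =>
    QuotientGroup.mk ⟨f q.out, hf _ q.out.2⟩
  have hF : Function.Injective F := by
    intro q q' hqq
    have e := QuotientGroup.eq.1 hqq
    rw [mem_subgroupOf] at e
    rw [← QuotientGroup.out_eq' q, ← QuotientGroup.out_eq' q']
    exact QuotientGroup.eq.2 (mem_subgroupOf.2 (hinj _ q.out.2 _ q'.out.2 e))
  refine ⟨Nat.card_le_card_of_injective F hF, fun h m hm => ?_⟩
  obtain ⟨q, hq⟩ := (hF.bijective_of_nat_card_le h).2 (QuotientGroup.mk ⟨m, hm⟩)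
  have e := QuotientGroup.eq.1 hq
  rw [mem_subgroupOf] at e
  exact ⟨q.out, q.out.2, e⟩

theorem ja_comm {A : Subgroup X} (h : IsMulCommutative A) {a b : X} (ha : a ∈ A) (hb : b ∈ A) :
    a * b = b * a :=
  congrArg Subtype.val (h.is_comm.comm (⟨a, ha⟩ : A) ⟨b, hb⟩)

theorem ja_comm_le {A B : Subgroup X} (h : IsMulCommutative A) (hB : B ≤ A) :
    IsMulCommutative B := by
  rw [← le_centralizer_iff_isMulCommutative]
  exact fun a ha b hb => ja_comm h (hB hb) (hB ha)

/-- The twisted commutator. -/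
def jT (a y : X) : X := y⁻¹ * (a * y * a⁻¹)

theorem jT_mem {A : Subgroup X} {x a : X} (ha : a ∈ A) : jT a x ∈ jaM A x := jaM_mem ha

theorem jT_conj (a y : X) : a * y * a⁻¹ = y * jT a y := by unfold jT; group

theorem jT_mul (a b y : X) : jT (a * b) y = jT a y * (jT b y * jT a (jT b y)) := by
  unfold jT; group

theorem jT_eq_one {a y : X} : jT a y = 1 ↔ a * y = y * a := by
  unfold jT
  rw [inv_mul_eq_one, eq_comm, mul_inv_eq_iff_eq_mul]

theorem jT_sym {a b y : X} (h : a * b = b * a) (hc : jT a y * jT b y = jT b y * jT a y) :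
    jT a (jT b y) = jT b (jT a y) := by
  have e := jT_mul a b y
  rw [h, jT_mul, ← mul_assoc, ← mul_assoc, hc] at e
  exact (mul_left_cancel e).symm

theorem jT_mul_cent {a y c : X} (h1 : a * c = c * a) (h2 : c * jT a y = jT a y * c) :
    jT a (y * c) = jT a y := by
  have e : jT a (y * c) = c⁻¹ * jT a y * (a * c * a⁻¹) := by unfold jT; group
  rw [e, h1, mul_inv_cancel_right, mul_assoc, ← h2, inv_mul_cancel_left]

theorem jaM_le {A F : Subgroup X} {y : X} : jaM A y ≤ F ↔ ∀ a ∈ A, jT a y ∈ F := by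
  rw [jaM, closure_le]
  exact ⟨fun h a ha => h ⟨a, ha, rfl⟩, by rintro h _ ⟨a, ha, rfl⟩; exact h a ha⟩

/-- The upper central filtration for the action of `A`. -/
def jK (A : Subgroup X) : ℕ → X → Prop
  | 0, y => y = 1
  | k + 1, y => ∀ a ∈ A, jK A k (jT a y)

/-- The chain of subgroups of `A` attached to `y`. -/
def jD (A : Subgroup X) : ℕ → X → Subgroup X
  | 0, y => A ⊓ centralizer (jaM A y : Set X)
  | k + 1, y => A ⊓ ⨅ a ∈ A, jD A k (jT a y)

theorem jK_one {A : Subgroup X} {y : X} : jK A 1 y ↔ y ∈ centralizer (A : Set X) :=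
  forall₂_congr fun _ _ => jT_eq_one

theorem mem_jD {A F : Subgroup X} (hA : IsMulCommutative A) (hF : IsMulCommutative F)
    (hAF : ∀ a ∈ A, ∀ y ∈ F, jT a y ∈ F) (k : ℕ) {y u : X} (hy : ∀ a ∈ A, jT a y ∈ F) :
    u ∈ jD A k y ↔ u ∈ A ∧ jK A (k + 1) (jT u y) := by
  induction k generalizing y with
  | zero =>
    refine and_congr_right fun hu => ?_
    change u ∈ centralizer (jaM A y : Set X) ↔ ∀ a ∈ A, jT a (jT u y) = 1
    rw [← zpowers_le, le_centralizer_iff, jaM_le]
    refine forall₂_congr fun a ha => ?_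
    rw [LocalEven.centralizer_zpowers, LocalEven.mem_centralizer_singleton, ← jT_eq_one,
      jT_sym (ja_comm hA hu ha) (ja_comm hF (hy u hu) (hy a ha))]
  | succ k ih =>
    refine and_congr_right fun hu => ?_
    change u ∈ ⨅ a ∈ A, jD A k (jT a y) ↔ ∀ a ∈ A, jK A (k + 1) (jT a (jT u y))
    simp only [mem_iInf]
    refine forall₂_congr fun a ha => ?_
    rw [ih fun b hb => hAF b hb _ (hy a ha),
      jT_sym (ja_comm hA hu ha) (ja_comm hF (hy u hu) (hy a ha))]
    exact and_iff_right hu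

theorem jK_of_iter {A E : Subgroup X} {n : ℕ} (hn : iterCommutator E A n = ⊥) (k : ℕ) :
    ∀ j, n ≤ j + k → ∀ y ∈ iterCommutator E A j, (∀ a ∈ A, ∀ y ∈ E, a * y * a⁻¹ ∈ E) →
      jK A k y := by
  induction k with
  | zero =>
    intro j hj y hy hE
    have h : A ≤ normalizer (E : Set X) := fun a ha => mem_normalizer_fintype' hE ha
    have := Glaub.iter_anti h (show n ≤ j by omega) hy
    rwa [hn] at this
  | succ k ih =>
    intro j hj y hy hE a ha
    refine ih (j + 1) (by omega) _ ?_ hE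
    have : jT a y = ⁅y⁻¹, a⁆ := by rw [commutatorElement_def, jT]; group
    rw [this]
    exact commutator_mem_commutator (inv_mem hy) ha
where
  mem_normalizer_fintype' {A E : Subgroup X} (hE : ∀ a ∈ A, ∀ y ∈ E, a * y * a⁻¹ ∈ E) {a : X}
      (ha : a ∈ A) : a ∈ normalizer (E : Set X) := by
    rw [mem_normalizer_iff]
    refine fun y => ⟨hE a ha y, fun h => ?_⟩
    have := hE a⁻¹ (inv_mem ha) _ h
    simpa [mul_assoc] using this

theorem ja_iter_bot [Finite X] {p : ℕ} [Fact p.Prime] {A E : Subgroup X} (hE : IsPGroup p E)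
    (hA : IsPGroup p A) (h : A ≤ normalizer (E : Set X)) : ∃ n, iterCommutator E A n = ⊥ := by
  induction E using WellFoundedLT.induction with
  | ind E ih =>
    by_cases h0 : E = ⊥
    · exact ⟨0, h0⟩
    · have hlt := Core.commutator_lt_of_isPGroup hE hA h h0
      obtain ⟨n, hn⟩ := ih _ hlt (hE.to_le hlt.le) (LocalEven.right_le_normalizer_commutator E A)
      exact ⟨n + 1, by rw [Glaub.iter_succ', hn]⟩

variable [Finite X] {T A F : Subgroup X}

theorem ja_alpha (hA : A ∈ PLocal.abFam 0 T) (hFT : F ≤ T) (hF : IsMulCommutative F)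
    {D : Subgroup X} (hD : D ≤ A) (hDF : D ≤ centralizer (F : Set X)) :
    Nat.card F * Nat.card D ≤ Nat.card A * Nat.card (F ⊓ D : Subgroup X) := by
  rw [← Core.card_sup_mul_card_inf (hDF.trans (LocalEven.centralizer_le_normalizer' F))]
  exact Nat.mul_le_mul_right _ (hA.2 _ (sup_le hFT (hD.trans (PLocal.abFam.le hA)))
    (ja_sup_comm hF (ja_comm_le (PLocal.abFam.comm hA) hD) hDF) (fun b _ => pow_zero b))

/-- Optimal subgroups. -/
def jGood (A F D : Subgroup X) : Prop :=
  D ≤ A ∧ Nat.card A * Nat.card (F ⊓ A : Subgroup X) ≤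
    Nat.card (F ⊓ centralizer (D : Set X) : Subgroup X) * Nat.card D

theorem ja_alpha' (hA : A ∈ PLocal.abFam 0 T) (hFT : F ≤ T) (hF : IsMulCommutative F)
    {D : Subgroup X} (hD : D ≤ A) :
    Nat.card (F ⊓ centralizer (D : Set X) : Subgroup X) * Nat.card D ≤
      Nat.card A * Nat.card (F ⊓ A : Subgroup X) :=
  (ja_alpha hA (inf_le_left.trans hFT) (ja_comm_le hF inf_le_left) hD
    (le_centralizer_iff.1 inf_le_right)).trans
    (Nat.mul_le_mul_left _ (card_le_of_le (inf_le_inf inf_le_left hD)))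

theorem jGood.mem (hA : A ∈ PLocal.abFam 0 T) (hFT : F ≤ T) (hF : IsMulCommutative F)
    {D : Subgroup X} (h : jGood A F D) :
    (F ⊓ centralizer (D : Set X)) ⊔ D ∈ PLocal.abFam 0 T := by
  have hc : D ≤ centralizer ((F ⊓ centralizer (D : Set X) : Subgroup X) : Set X) :=
    le_centralizer_iff.1 inf_le_right
  refine PLocal.abFam.of_card hA (sup_le (inf_le_left.trans hFT) (h.1.trans (PLocal.abFam.le hA)))
    (ja_sup_comm (ja_comm_le hF inf_le_left) (ja_comm_le (PLocal.abFam.comm hA) h.1) hc)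
    (fun b _ => pow_zero b) ?_
  have h1 := Core.card_sup_mul_card_inf (hc.trans (LocalEven.centralizer_le_normalizer' _))
  have h2 := h.2
  rw [← h1] at h2
  exact Nat.le_of_mul_le_mul_right (h2.trans (Nat.mul_le_mul_left _
    (card_le_of_le (inf_le_inf inf_le_left h.1)))) Nat.card_pos

theorem jGood_self (hA : A ∈ PLocal.abFam 0 T) : jGood A F A :=
  ⟨le_rfl, by
    rw [mul_comm]
    exact Nat.mul_le_mul_right _ (card_le_of_le (inf_le_inf_left _
      (le_centralizer_iff_isMulCommutative.2 (PLocal.abFam.comm hA))))⟩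

theorem jGood.inf (hA : A ∈ PLocal.abFam 0 T) (hFT : F ≤ T) (hF : IsMulCommutative F)
    {D D' : Subgroup X} (h : jGood A F D) (h' : jGood A F D') : jGood A F (D ⊓ D') := by
  refine ⟨inf_le_left.trans h.1, ?_⟩
  have hAc := le_centralizer_iff_isMulCommutative.2 (PLocal.abFam.comm hA)
  have hFc := le_centralizer_iff_isMulCommutative.2 hF
  have h1 := Core.card_sup_mul_card_inf (N := D) (H := D')
    (((h'.1.trans hAc).trans (centralizer_le h.1)).trans (LocalEven.centralizer_le_normalizer' _))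
  have h2 := Core.card_sup_mul_card_inf (N := F ⊓ centralizer (D : Set X))
    (H := F ⊓ centralizer (D' : Set X))
    (((inf_le_left.trans hFc).trans (centralizer_le (show F ⊓ centralizer (D : Set X) ≤ F from
      inf_le_left))).trans (LocalEven.centralizer_le_normalizer' _))
  have h3 := ja_alpha' hA hFT hF (sup_le h.1 h'.1)
  rw [LocalEven.centralizer_sup', inf_inf_distrib_left] at h3
  have h4 : Nat.card ((F ⊓ centralizer (D : Set X)) ⊔ (F ⊓ centralizer (D' : Set X)) :
      Subgroup X) ≤ Nat.card (F ⊓ centralizer ((D ⊓ D' : Subgroup X) : Set X) : Subgroup X) :=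
    card_le_of_le (sup_le (inf_le_inf_left _ (centralizer_le (show D ⊓ D' ≤ D from inf_le_left)))
      (inf_le_inf_left _ (centralizer_le (show D ⊓ D' ≤ D' from inf_le_right))))
  have h5 := Nat.mul_le_mul h.2 h'.2
  have hpos : 0 < Nat.card A * Nat.card (F ⊓ A : Subgroup X) :=
    Nat.mul_pos Nat.card_pos Nat.card_pos
  refine Nat.le_of_mul_le_mul_right ?_ hpos
  generalize Nat.card A * Nat.card (F ⊓ A : Subgroup X) = α at *
  calc α * α ≤ _ := h5
    _ = (Nat.card (F ⊓ centralizer (D : Set X) : Subgroup X) *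
          Nat.card (F ⊓ centralizer (D' : Set X) : Subgroup X)) * (Nat.card D * Nat.card D') := by
        ring
    _ = (Nat.card ((F ⊓ centralizer (D : Set X)) ⊔ (F ⊓ centralizer (D' : Set X)) : Subgroup X) *
          Nat.card (D ⊓ D' : Subgroup X)) *
        (Nat.card ((F ⊓ centralizer (D : Set X)) ⊓ (F ⊓ centralizer (D' : Set X)) : Subgroup X) *
          Nat.card (D ⊔ D' : Subgroup X)) := by rw [← h1, ← h2]; ring
    _ ≤ _ := Nat.mul_le_mul (Nat.mul_le_mul_right _ h4) h3

theorem jGood_iInf (hA : A ∈ PLocal.abFam 0 T) (hFT : F ≤ T) (hF : IsMulCommutative F)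
    (D : X → Subgroup X) (h : ∀ a ∈ A, jGood A F (D a)) : jGood A F (A ⊓ ⨅ a ∈ A, D a) := by
  classical
  have key : ∀ s : Finset X, (∀ a ∈ s, a ∈ A) → jGood A F (A ⊓ ⨅ a ∈ s, D a) := by
    intro s
    induction s using Finset.induction_on with
    | empty => intro _; simpa using jGood_self hA
    | insert a s _ ih =>
      intro hs
      rw [Finset.iInf_insert, inf_left_comm]
      exact jGood.inf hA hFT hF (h a (hs a (Finset.mem_insert_self a s)))
        (ih fun b hb => hs b (Finset.mem_insert_of_mem hb))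
  have := key (A : Set X).toFinite.toFinset (fun a ha => by simpa using ha)
  simpa using this

theorem ja_idx_M (hA : IsMulCommutative A) (hF : IsMulCommutative F) {y : X}
    (hAF : ∀ a ∈ A, ∀ y ∈ F, jT a y ∈ F) (hy : ∀ a ∈ A, jT a y ∈ F) {a b : X} (ha : a ∈ A)
    (hb : b ∈ A) (h : (jT a y)⁻¹ * jT b y ∈ centralizer (A : Set X)) : a⁻¹ * b ∈ jD A 0 y := by
  have hw : a⁻¹ * b ∈ A := mul_mem (inv_mem ha) hb
  obtain ⟨w, rfl⟩ : ∃ w, b = a * w := ⟨a⁻¹ * b, by group⟩
  rw [inv_mul_cancel_left] at hw ⊢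
  rw [mem_jD hA hF hAF 0 hy, jK_one]
  refine ⟨hw, ?_⟩
  rw [jT_mul, inv_mul_cancel_left, ← jT_conj] at h
  have e : jT w y = a⁻¹ * (a * jT w y * a⁻¹) * a := by group
  rw [e, mul_assoc, ← h a ha, inv_mul_cancel_left]
  exact h

theorem jGood_jD (hA : A ∈ PLocal.abFam 0 T) (hFT : F ≤ T) (hF : IsMulCommutative F)
    (hAF : ∀ a ∈ A, ∀ y ∈ F, jT a y ∈ F) (k : ℕ) {y : X} (hy : ∀ a ∈ A, jT a y ∈ F) :
    jGood A F (jD A k y) := by
  induction k generalizing y with
  | zero =>
    refine ⟨inf_le_left, ?_⟩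
    have hAc := PLocal.abFam.comm hA
    have hM : jaM A y ≤ F := jaM_le.2 hy
    have h1 := (ja_idx (jD A 0 y) A (jaM A y) (F ⊓ A) (fun a => jT a y) (fun a ha => jT_mem ha)
      fun a ha b hb h => ja_idx_M hAc hF hAF hy ha hb
        (le_centralizer_iff_isMulCommutative.2 hAc h.2)).1
    have h2 : Nat.card (jD A 0 y) * (jD A 0 y).relIndex A = Nat.card A :=
      Core.card_mul_relIndex (inf_le_left : jD A 0 y ≤ A)
    have h3 : (F ⊓ A).relIndex (jaM A y) ≤
        (F ⊓ A).relIndex (F ⊓ centralizer (jD A 0 y : Set X)) :=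
      relIndex_le_of_le_right (le_inf hM (le_centralizer_iff.1 inf_le_right))
        (index_ne_zero_of_finite)
    have h4 := Core.card_mul_relIndex (show F ⊓ A ≤ F ⊓ centralizer (jD A 0 y : Set X) from
      inf_le_inf_left _ ((le_centralizer_iff_isMulCommutative.2 hAc).trans
        (centralizer_le (show jD A 0 y ≤ A from inf_le_left))))
    rw [← h4, ← h2]
    have := h1.trans h3
    calc _ = Nat.card (jD A 0 y) * Nat.card (F ⊓ A : Subgroup X) * (jD A 0 y).relIndex A := by
          ring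
      _ ≤ Nat.card (jD A 0 y) * Nat.card (F ⊓ A : Subgroup X) * _ := Nat.mul_le_mul_left _ this
      _ = _ := by ring
  | succ k ih =>
    exact jGood_iInf hA hFT hF _ fun a ha => ih fun b hb => hAF b hb _ (hy a ha)

end Cfsg.Agent.Max
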