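import Mathlib
import Cfsg.Agent.Max.JB1

/-! Abelian subgroups of largest order with minimal image: cubic and quadratic action. -/

set_option autoImplicit false

namespace Cfsg.Agent.Max

open Subgroup
open scoped commutatorElement

universe u

variable {X : Type u} [Group X]

theorem jT_eq_comm (a y : X) : jT a y = ⁅y⁻¹, a⁆ := by rw [commutatorElement_def, jT]; group

theorem ja_ri [Finite X] {D A C F : Subgroup X} (h1 : D ≤ A) (h2 : C ≤ F)
    (h : Nat.card F * Nat.card D ≤ Nat.card A * Nat.card C) : C.relIndex F ≤ D.relIndex A := by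
  rw [← Core.card_mul_relIndex h1, ← Core.card_mul_relIndex h2] at h
  refine Nat.le_of_mul_le_mul_left (c := Nat.card C * Nat.card D) ?_
    (Nat.mul_pos Nat.card_pos Nat.card_pos)
  calc _ = Nat.card C * C.relIndex F * Nat.card D := by ring
    _ ≤ _ := h
    _ = _ := by ring

/-- A linearised normal section on which `P` acts trivially. -/
structure JLin (E P : Subgroup X) {U : Type*} [AddCommGroup U] (ψ : X → U)
    (ρ : X →* AddMonoid.End U) : Prop where
  add : ∀ y ∈ E, ∀ z ∈ E, ψ (y * z) = ψ y + ψ z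
  conj : ∀ a, ∀ y ∈ E, ψ (a * y * a⁻¹) = ρ a (ψ y)
  norm : E.Normal
  triv : ∀ y ∈ P, ρ y = 1

/-- The upper series of a module. -/
def jU {U : Type*} [AddCommGroup U] (ρ : X →* AddMonoid.End U) (A : Subgroup X) :
    ℕ → AddSubgroup U
  | 0 => ⊥
  | k + 1 => ⨅ a ∈ A, (jU ρ A k).comap ((ρ a - 1 : AddMonoid.End U) : U →+ U)

section lin

variable {E P A : Subgroup X} {U : Type*} [AddCommGroup U] {ψ : X → U}
  {ρ : X →* AddMonoid.End U}

theorem mem_jU_succ {k : ℕ} {v : U} :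
    v ∈ jU ρ A (k + 1) ↔ ∀ a ∈ A, (ρ a - 1) v ∈ jU ρ A k := by
  simp only [jU, AddSubgroup.mem_iInf]
  rfl

theorem mem_jU_zero {v : U} : v ∈ jU ρ A 0 ↔ v = 0 := AddSubgroup.mem_bot

theorem jU_succ_le (k : ℕ) : jU ρ A k ≤ jU ρ A (k + 1) := by
  induction k with
  | zero => exact bot_le
  | succ k ih => exact fun v hv => mem_jU_succ.2 fun a ha => ih (mem_jU_succ.1 hv a ha)

theorem jU_mono : Monotone (jU ρ A) := monotone_nat_of_le_succ jU_succ_le

theorem JLin.one (h : JLin E P ψ ρ) : ψ 1 = 0 := by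
  have := h.add 1 (one_mem _) 1 (one_mem _)
  rw [mul_one] at this
  exact left_eq_add.1 this

theorem JLin.inv (h : JLin E P ψ ρ) {y : X} (hy : y ∈ E) : ψ y⁻¹ = - ψ y := by
  have := h.add y⁻¹ (inv_mem hy) y hy
  rw [inv_mul_cancel, h.one] at this
  exact eq_neg_of_add_eq_zero_left this.symm

theorem JLin.mem (h : JLin E P ψ ρ) (a : X) {y : X} (hy : y ∈ E) : jT a y ∈ E :=
  mul_mem (inv_mem hy) (h.norm.conj_mem y hy a)

theorem JLin.tau (h : JLin E P ψ ρ) (a : X) {y : X} (hy : y ∈ E) :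
    ψ (jT a y) = (ρ a - 1) (ψ y) := by
  rw [jT, h.add _ (inv_mem hy) _ (h.norm.conj_mem y hy a), h.inv hy, h.conj a y hy,
    neg_add_eq_sub]
  rfl

theorem JLin.jK (h : JLin E P ψ ρ) (k : ℕ) {y : X} (hy : y ∈ E) (hk : jK A k y) :
    ψ y ∈ jU ρ A k := by
  induction k generalizing y with
  | zero => rw [show y = 1 from hk, h.one]; exact zero_mem _
  | succ k ih => exact mem_jU_succ.2 fun a ha => h.tau a hy ▸ ih (h.mem a hy) (hk a ha)

theorem JLin.iter (h : JLin E P ψ ρ) {Z : Subgroup X} (hz : ∀ y ∈ E, ψ y = 0 → y ∈ Z) {n : ℕ}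
    (hn : ∀ y ∈ E, ψ y ∈ jU ρ A n) : iterCommutator E A n ≤ Z := by
  have key : ∀ i k, i + k = n → iterCommutator E A i ≤ jaSub h.add (jU ρ A k) := by
    intro i
    induction i with
    | zero => intro k hk y hy; exact ⟨hy, (show n = k by omega) ▸ hn y hy⟩
    | succ i ih =>
      intro k hk
      rw [Glaub.iter_succ, commutator_le]
      intro y hy a ha
      have h1 := ih (k + 1) (by omega) (inv_mem hy)
      rw [← inv_inv y, ← jT_eq_comm]
      exact ⟨h.mem a h1.1, by rw [h.tau a h1.1]; exact mem_jU_succ.1 h1.2 a ha⟩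
  exact fun y hy => hz y (key n 0 rfl hy).1 (key n 0 rfl hy).2

end lin

/-- An abelian subgroup of largest order with minimal nontrivial image modulo `P`. -/
structure JMin (p : ℕ) (T A P : Subgroup X) : Prop where
  pg : IsPGroup p T
  le : P ≤ T
  mem : A ∈ PLocal.abFam 0 T
  notle : ¬ A ≤ P
  min : ∀ A' ∈ PLocal.abFam 0 T, A' ≤ A ⊔ P → A' ≤ P ∨ A ≤ A' ⊔ P

namespace JMin

variable [Finite X] {p : ℕ} [Fact p.Prime] {T A P F : Subgroup X} [P.Normal]

omit [Finite X] [Fact p.Prime] [P.Normal] in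
theorem comm (h : JMin p T A P) : IsMulCommutative A := PLocal.abFam.comm h.mem

omit [Fact p.Prime] in
theorem cover (h : JMin p T A P) (hFP : F ≤ P) (hF : IsMulCommutative F) {D : Subgroup X}
    (hD : jGood A F D) (hDP : ¬ D ≤ P) {a : X} (ha : a ∈ A) :
    ∃ d ∈ D, ∃ y ∈ P, a = d * y := by
  have h1 := (h.min _ (jGood.mem h.mem (hFP.trans h.le) hF hD)
    (sup_le ((inf_le_left.trans hFP).trans le_sup_right) (hD.1.trans le_sup_left))).resolve_left
    fun h2 => hDP (le_sup_right.trans h2)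
  have h2 : a ∈ D ⊔ P := (sup_le (sup_le ((inf_le_left.trans hFP).trans le_sup_right)
    le_sup_left) le_sup_right : _ ≤ D ⊔ P) (h1 ha)
  obtain ⟨d, hd, y, hy, e⟩ := mem_sup_of_normal_right.1 h2
  exact ⟨d, hd, y, hy, e.symm⟩

omit [P.Normal] in
theorem nil (h : JMin p T A P) (hFT : F ≤ T) (hAF : ∀ a ∈ A, ∀ y ∈ F, jT a y ∈ F) :
    ∃ n, ∀ k, n ≤ k → ∀ y ∈ F, jK A k y := by
  have h1 : ∀ a ∈ A, ∀ y ∈ F, a * y * a⁻¹ ∈ F := fun a ha y hy => by
    rw [jT_conj]; exact mul_mem hy (hAF a ha y hy)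
  obtain ⟨n, hn⟩ := ja_iter_bot (h.pg.to_le hFT) (h.pg.to_le (PLocal.abFam.le h.mem))
    fun a ha => jK_of_iter.mem_normalizer_fintype' h1 ha
  exact ⟨n, fun k hk y hy => jK_of_iter hn k 0 (by omega) y hy h1⟩

omit [Finite X] [Fact p.Prime] [P.Normal] in
theorem chain (h : JMin p T A P) (D : ℕ → Subgroup X) {n : ℕ} (hn : A ≤ D n) :
    ∃ j, ¬ D j ≤ P ∧ ∀ i < j, D i ≤ P := by
  classical
  have hex : ∃ j, ¬ D j ≤ P := ⟨n, fun h1 => h.notle (hn.trans h1)⟩
  exact ⟨Nat.find hex, Nat.find_spec hex, fun i hi => not_not.1 (Nat.find_min hex hi)⟩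

theorem cubic (h : JMin p T A P) {E : Subgroup X} {U : Type*} [AddCommGroup U] {ψ : X → U}
    {ρ : X →* AddMonoid.End U} (hl : JLin E P ψ ρ) (hFP : F ≤ P) (hFE : F ≤ E)
    (hF : IsMulCommutative F) (hAF : ∀ a ∈ A, ∀ y ∈ F, jT a y ∈ F) {x : X} (hx : x ∈ E)
    (hxT : x ∈ T) (hxF : ∀ a ∈ A, jT a x ∈ F) : ψ x ∈ jU ρ A 3 := by
  have hFT := hFP.trans h.le
  obtain ⟨n, hn⟩ := h.nil hFT hAF
  have hD := fun k u => mem_jD (u := u) h.comm hF hAF k hxF
  obtain ⟨j, hj, hlt⟩ := h.chain (fun k => jD A k x) (n := n) fun u hu =>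
    (hD n u).2 ⟨hu, hn _ (by omega) _ (hxF u hu)⟩
  have hcov : ∀ a ∈ A, ∃ d ∈ jD A j x, ρ a = ρ d := by
    intro a ha
    obtain ⟨d, hd, y, hy, rfl⟩ :=
      h.cover hFP hF (jGood_jD h.mem hFT hF hAF j hxF) hj ha
    exact ⟨d, hd, by rw [map_mul, hl.triv y hy, mul_one]⟩
  refine mem_jU_succ.2 fun c hc => mem_jU_succ.2 fun b hb => ?_
  obtain ⟨u, hu, e1⟩ := hcov c hc
  obtain ⟨u', hu', e2⟩ := hcov b hb
  obtain ⟨huA, hu⟩ := (hD j u).1 hu
  obtain ⟨hu'A, -⟩ := (hD j u').1 hu'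
  rw [e1, e2, ← hl.tau u hx, ← hl.tau u' (hl.mem u hx)]
  have hm := hu u' hu'A
  rcases j with _ | j
  · rw [show jT u' (jT u x) = 1 from hm, hl.one]
    exact zero_mem _
  · have hM : jaM A x ≤ F := jaM_le.2 hxF
    obtain ⟨v, hv, c, hc, hcA, e⟩ := ja_thompson h.mem hxT (ja_comm_le hF hM)
      (m := jT u' (jT u x)) (mul_mem (inv_mem (jT_mem huA)) (jaM_conj hu'A (jT_mem huA)))
    change jT u' (jT u x) = jT v x * c at e
    have hvP : v ∈ P := hlt j (by omega) ((hD j v).2 ⟨hv, fun a ha => by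
      have := hm a ha
      rwa [e, jT_mul_cent (hcA a ha) (ja_comm hF (hM hc) (hAF a ha _ (hxF v hv)))] at this⟩)
    rw [e, hl.add _ (hl.mem v hx) _ (hFE (hM hc)), hl.tau v hx, hl.triv v hvP, sub_self]
    simpa using hl.jK 1 (hFE (hM hc)) (jK_one.2 hcA)

theorem quad (h : JMin p T A P) {W : Subgroup X} [hWn : W.Normal] (hWP : W ≤ P)
    (hWc : W ≤ centralizer (P : Set X)) {w : X} (hw : w ∈ W) : jK A 2 w := by
  have hF : IsMulCommutative W :=
    le_centralizer_iff_isMulCommutative.1 (hWc.trans (centralizer_le hWP))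
  have hAF : ∀ a, ∀ y ∈ W, jT a y ∈ W := fun a y hy =>
    mul_mem (inv_mem hy) (hWn.conj_mem y hy a)
  have hFT := hWP.trans h.le
  by_cases hD : jD A 0 w ≤ P
  · have h1 := (ja_idx (jD A 0 w) A W (W ⊓ A) (fun a => jT a w) (fun a _ => hAF a w hw)
      fun a ha b hb h1 => ja_idx_M h.comm hF (fun a _ => hAF a) (fun a _ => hAF a w hw) ha hb
        (le_centralizer_iff_isMulCommutative.2 h.comm h1.2)).2
      (ja_ri inf_le_left inf_le_left ((ja_alpha h.mem hFT hF inf_le_left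
        (hD.trans (le_centralizer_iff.1 hWc))).trans
        (Nat.mul_le_mul_left _ (card_le_of_le (inf_le_inf_left _ inf_le_left)))))
    have h2 : ⁅W, A⁆ ≤ ⁅⁅W, A⁆, A⁆ := Core.commutator_le_of_mul_centralizer fun k hk => by
      obtain ⟨a, ha, e⟩ := h1 k hk
      refine ⟨jT a w, ?_, _, le_centralizer_iff_isMulCommutative.2 h.comm e.2,
        (mul_inv_cancel_left _ _).symm⟩
      rw [jT_eq_comm]
      exact commutator_mem_commutator (inv_mem hw) ha
    have h3 : ⁅W, A⁆ = ⊥ := by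
      by_contra h0
      exact (Core.commutator_lt_of_isPGroup (h.pg.to_le ((commutator_le_left W A).trans hFT))
        (h.pg.to_le (PLocal.abFam.le h.mem)) (LocalEven.right_le_normalizer_commutator W A)
        h0).not_ge h2
    intro b hb a _
    have : jT b w = 1 := by
      rw [jT_eq_comm, ← mem_bot, ← h3]
      exact commutator_mem_commutator (inv_mem hw) hb
    change jT a (jT b w) = 1
    rw [this, jT_eq_one, mul_one, one_mul]
  · intro b hb a ha
    obtain ⟨d, hd, y, hy, rfl⟩ := h.cover hWP hF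
      (jGood_jD h.mem hFT hF (fun a _ => hAF a) 0 (fun a _ => hAF a w hw)) hD ha
    change jT (d * y) (jT b w) = 1
    rw [jT_eq_one, mul_assoc, hWc (hAF b w hw) y hy, ← mul_assoc, ← hd.2 _ (jT_mem hb),
      mul_assoc]

end JMin

end Cfsg.Agent.Max
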