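import Mathlib
import Cfsg.Agent.Max.JB2

/-! Bilinear calculus for a commutator form with quadratic values. -/

set_option autoImplicit false

namespace Cfsg.Agent.Max

open Subgroup

universe u

variable {X : Type u} [Group X]

/-- An equivariant alternating form with quadratic action on the values. -/
structure JBil (A : Subgroup X) {U W : Type*} [AddCommGroup U] [AddCommGroup W]
    (β : U →+ U →+ W) (ρ : X →* AddMonoid.End U) (σ : X →* AddMonoid.End W) : Prop where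
  equiv : ∀ a u v, β (ρ a u) (ρ a v) = σ a (β u v)
  alt : ∀ u, β u u = 0
  quad : ∀ a ∈ A, ∀ b ∈ A, ∀ z, (σ a - 1) ((σ b - 1) z) = 0
  two : ∀ z : W, z + z = 0 → z = 0
  comm : IsMulCommutative A

/-- Depth of a monomial. -/
def jDp {U : Type*} [AddCommGroup U] (ρ : X →* AddMonoid.End U) (A : Subgroup X) :
    ℕ → U → Prop
  | 0, _ => True
  | k + 1, u => ∃ a ∈ A, ∃ u', jDp ρ A k u' ∧ u = (ρ a - 1) u'

theorem jDp_mono {U : Type*} [AddCommGroup U] {ρ : X →* AddMonoid.End U} {A : Subgroup X}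
    (k : ℕ) {u : U} (h : jDp ρ A (k + 1) u) : jDp ρ A k u := by
  induction k generalizing u with
  | zero => trivial
  | succ k ih =>
    obtain ⟨a, ha, u', h1, rfl⟩ := h
    exact ⟨a, ha, u', ih h1, rfl⟩

namespace JBil

variable {A : Subgroup X} {U W : Type*} [AddCommGroup U] [AddCommGroup W]
  {β : U →+ U →+ W} {ρ : X →* AddMonoid.End U} {σ : X →* AddMonoid.End W}

theorem anti (h : JBil A β ρ σ) (x y : U) : β x y = - β y x := by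
  have := h.alt (x + y)
  simp only [map_add, AddMonoidHom.add_apply, h.alt, zero_add, add_zero] at this
  exact eq_neg_of_add_eq_zero_right this

theorem rec' (h : JBil A β ρ σ) (a : X) (u v : U) :
    β ((ρ a - 1) u) v = (σ a - 1) (β u v) - β u ((ρ a - 1) v) -
      β ((ρ a - 1) u) ((ρ a - 1) v) := by
  have s1 : ∀ x : U, (ρ a - 1) x = ρ a x - x := fun _ => rfl
  have s2 : ∀ x : W, (σ a - 1) x = σ a x - x := fun _ => rfl
  rw [s2, ← h.equiv, s1, s1]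
  simp only [map_sub, AddMonoidHom.sub_apply]
  abel

theorem mv (h : JBil A β ρ σ) {a e : X} (ha : a ∈ A) (he : e ∈ A) (u v : U) :
    (σ e - 1) (β ((ρ a - 1) u) v) = - (σ e - 1) (β u ((ρ a - 1) v)) -
      (σ e - 1) (β ((ρ a - 1) u) ((ρ a - 1) v)) := by
  rw [h.rec' a u v, map_sub, map_sub, h.quad e he a ha, zero_sub]

theorem tcomm (h : JBil A β ρ σ) {a b : X} (ha : a ∈ A) (hb : b ∈ A) (v : U) :
    (ρ a - 1) ((ρ b - 1) v) = (ρ b - 1) ((ρ a - 1) v) := by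
  have e : Commute (ρ a) (ρ b) := by
    change ρ a * ρ b = ρ b * ρ a
    rw [← map_mul, ← map_mul, ja_comm h.comm ha hb]
  have e2 : Commute (ρ a - 1) (ρ b - 1) :=
    (e.sub_right (Commute.one_right _)).sub_left (Commute.one_left _)
  exact congrArg (fun f : AddMonoid.End U => f v) e2.eq

theorem orth (h : JBil A β ρ σ) (k : ℕ) {v : U} (hv : v ∈ jU ρ A k) :
    (∀ u, jDp ρ A k u → ∀ c ∈ A, (σ c - 1) (β u v) = 0) ∧
      ∀ u, jDp ρ A (k + 1) u → β u v = 0 := by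
  induction k generalizing v with
  | zero =>
    rw [mem_jU_zero.1 hv]
    simp
  | succ k ih =>
    have h1 : ∀ u, jDp ρ A (k + 1) u → ∀ c ∈ A, (σ c - 1) (β u v) = 0 := by
      rintro _ ⟨a, ha, u, hu, rfl⟩ c hc
      have i1 := (ih (mem_jU_succ.1 hv a ha)).1
      rw [h.mv ha hc, i1 u hu c hc, i1 _ (jDp_mono k ⟨a, ha, u, hu, rfl⟩) c hc, neg_zero, sub_zero]
    refine ⟨h1, ?_⟩
    rintro _ ⟨a, ha, u, hu, rfl⟩
    have i2 := (ih (mem_jU_succ.1 hv a ha)).2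
    rw [h.rec', h1 u hu a ha, i2 u hu, i2 _ (jDp_mono _ ⟨a, ha, u, hu, rfl⟩), sub_zero, sub_zero]

theorem dp1 {a : X} (ha : a ∈ A) (u : U) : jDp ρ A 1 ((ρ a - 1) u) := ⟨a, ha, u, trivial, rfl⟩

theorem dp2 {a b : X} (ha : a ∈ A) (hb : b ∈ A) (u : U) :
    jDp ρ A 2 ((ρ a - 1) ((ρ b - 1) u)) := ⟨a, ha, _, dp1 hb u, rfl⟩

theorem dp3 {a b c : X} (ha : a ∈ A) (hb : b ∈ A) (hc : c ∈ A) (u : U) :
    jDp ρ A 3 ((ρ a - 1) ((ρ b - 1) ((ρ c - 1) u))) := ⟨a, ha, _, dp2 hb hc u, rfl⟩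

variable {w : U}

theorem step {k : ℕ} {v : U} (hv : v ∈ jU ρ A (k + 1)) {a : X} (ha : a ∈ A) :
    (ρ a - 1) v ∈ jU ρ A k := mem_jU_succ.1 hv a ha

theorem u4 (h : JBil A β ρ σ) (hw : w ∈ jU ρ A 5) {a b c d e : X} (ha : a ∈ A) (hb : b ∈ A)
    (hc : c ∈ A) (hd : d ∈ A) (he : e ∈ A) :
    (σ e - 1) (β w ((ρ b - 1) ((ρ a - 1) ((ρ c - 1) ((ρ d - 1) w))))) = 0 := by
  have key : ∀ {a b c d : X}, a ∈ A → b ∈ A → c ∈ A → d ∈ A →
      (σ e - 1) (β ((ρ a - 1) ((ρ b - 1) w)) ((ρ c - 1) ((ρ d - 1) w))) =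
        (σ e - 1) (β w ((ρ b - 1) ((ρ a - 1) ((ρ c - 1) ((ρ d - 1) w))))) := by
    intro a b c d ha hb hc hd
    have m2 := step (step (step hw hd) hc) ha
    rw [h.mv ha he, (h.orth 2 m2).1 _ (dp2 ha hb w) e he, h.mv hb he,
      (h.orth 1 (step m2 hb)).1 _ (dp1 hb w) e he]
    simp
  apply h.two
  have e1 := key ha hb hc hd
  have e2 := key hc hd ha hb
  have perm : (ρ d - 1) ((ρ c - 1) ((ρ a - 1) ((ρ b - 1) w))) =
      (ρ b - 1) ((ρ a - 1) ((ρ c - 1) ((ρ d - 1) w))) := by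
    rw [h.tcomm hd hc, h.tcomm hd ha, h.tcomm hd hb, h.tcomm hc ha, h.tcomm hc hb, h.tcomm ha hb]
  rw [h.anti, map_neg, e1, perm] at e2
  exact neg_eq_iff_add_eq_zero.1 e2

variable {e : X}

theorem f1 (h : JBil A β ρ σ) (hw : w ∈ jU ρ A 5) (he : e ∈ A) {a b f : X} (ha : a ∈ A)
    (hb : b ∈ A) (hf : f ∈ A) :
    (σ f - 1) (β ((ρ e - 1) w) ((ρ a - 1) ((ρ b - 1) ((ρ e - 1) w)))) = 0 := by
  rw [h.mv he hf, h.u4 hw ha he hb he hf,
    (h.orth 1 (step (step (step (step hw he) hb) ha) he)).1 _ (dp1 he w) f hf]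
  simp

theorem f2 (h : JBil A β ρ σ) (hw : w ∈ jU ρ A 5) (he : e ∈ A) {a b c : X} (ha : a ∈ A)
    (hb : b ∈ A) (hc : c ∈ A) :
    β ((ρ a - 1) ((ρ e - 1) w)) ((ρ b - 1) ((ρ c - 1) ((ρ e - 1) w))) = 0 := by
  have m1 := step (step (step (step hw he) hc) hb) ha
  rw [h.rec' a, h.f1 hw he hb hc ha, (h.orth 1 m1).2 _ (dp2 ha he w), h.rec' e,
    h.u4 hw hb ha hc he he, mem_jU_zero.1 (step m1 he)]
  simp

theorem f3 (h : JBil A β ρ σ) (hw : w ∈ jU ρ A 5) (he : e ∈ A) {a c : X} (ha : a ∈ A)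
    (hc : c ∈ A) :
    β ((ρ a - 1) ((ρ e - 1) w)) ((ρ c - 1) ((ρ e - 1) w)) +
      β ((ρ a - 1) ((ρ e - 1) w)) ((ρ c - 1) ((ρ e - 1) w)) =
      (σ a - 1) (β ((ρ e - 1) w) ((ρ c - 1) ((ρ e - 1) w))) -
        (σ c - 1) (β ((ρ e - 1) w) ((ρ a - 1) ((ρ e - 1) w))) := by
  have e1 := h.rec' a ((ρ e - 1) w) ((ρ c - 1) ((ρ e - 1) w))
  have e2 := h.rec' c ((ρ e - 1) w) ((ρ a - 1) ((ρ e - 1) w))
  rw [h.f2 hw he ha ha hc, sub_zero] at e1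
  rw [h.f2 hw he hc hc ha, sub_zero, h.anti, h.tcomm hc ha] at e2
  have e3 := neg_eq_iff_eq_neg.1 e2
  conv_lhs => lhs; rw [e1]
  conv_lhs => rhs; rw [e3]
  abel

theorem f6 (h : JBil A β ρ σ) (hw : w ∈ jU ρ A 5) (he : e ∈ A) {a c d : X} (ha : a ∈ A)
    (hc : c ∈ A) (hd : d ∈ A) :
    (σ d - 1) (β ((ρ a - 1) ((ρ e - 1) w)) ((ρ c - 1) ((ρ e - 1) w))) = 0 := by
  have e1 := h.rec' d ((ρ a - 1) ((ρ e - 1) w)) ((ρ c - 1) ((ρ e - 1) w))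
  rw [h.f2 hw he ha hd hc, h.anti, h.f2 hw he hc hd ha,
    (h.orth 2 (step (step (step hw he) hc) hd)).2 _ (dp3 hd ha he w)] at e1
  simpa using e1.symm

/-- An invariant isotropic subgroup. -/
def iso (β : U →+ U →+ W) (ρ : X →* AddMonoid.End U) (A : Subgroup X) : AddSubgroup U :=
  jU ρ A 2 ⊓ ⨅ v ∈ jU ρ A 2, (β.flip v).ker

theorem mem_iso {u : U} : u ∈ iso β ρ A ↔ u ∈ jU ρ A 2 ∧ ∀ v ∈ jU ρ A 2, β u v = 0 := by
  simp [iso, AddSubgroup.mem_iInf]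

theorem iso_step (h : JBil A β ρ σ) {u : U} (hu : u ∈ iso β ρ A) {a : X} (ha : a ∈ A) :
    (ρ a - 1) u ∈ iso β ρ A := by
  rw [mem_iso] at hu ⊢
  refine ⟨jU_succ_le 1 (step hu.1 ha), fun v hv => ?_⟩
  have h1 := step hv ha
  rw [h.rec' a, hu.2 v hv, hu.2 _ (jU_succ_le 1 h1), h.rec' a, hu.2 _ (jU_succ_le 1 h1),
    mem_jU_zero.1 (step h1 ha)]
  simp

theorem mem_iso3 (h : JBil A β ρ σ) (hw : w ∈ jU ρ A 5) (he : e ∈ A) {a b : X} (ha : a ∈ A)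
    (hb : b ∈ A) : (ρ a - 1) ((ρ b - 1) ((ρ e - 1) w)) ∈ iso β ρ A :=
  mem_iso.2 ⟨step (step (step hw he) hb) ha, fun _ hv => (h.orth 2 hv).2 _ (dp3 ha hb he w)⟩

end JBil

end Cfsg.Agent.Max
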