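import Mathlib
import Cfsg.Agent.Max.JB3

/-! The replacement count in a subgroup of class two. -/

set_option autoImplicit false

namespace Cfsg.Agent.Max

open Subgroup
open scoped commutatorElement

universe u

variable {X : Type u} [Group X]

/-- The class two configuration. -/
structure JC (p : ℕ) (T A P B W : Subgroup X) {U U' : Type*} [AddCommGroup U] [AddCommGroup U']
    (ψ : X → U) (ρ : X →* AddMonoid.End U) (ψ' : X → U') (σ : X →* AddMonoid.End U')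
    (β : U →+ U →+ U') : Prop where
  min : JMin p T A P
  BP : B ≤ P
  lin : JLin B P ψ ρ
  lin' : JLin W P ψ' σ
  bil : JBil A β ρ σ
  WB : W ≤ B
  Wc : W ≤ centralizer (P : Set X)
  ker' : ∀ y ∈ W, ψ' y = 0 → y = 1
  sur' : ∀ z, ∃ y ∈ W, ψ' y = z
  cW : ∀ y ∈ B, ∀ z ∈ B, ⁅y, z⁆ ∈ W
  hβ : ∀ y ∈ B, ∀ z ∈ B, β (ψ y) (ψ z) = ψ' ⁅y, z⁆
  psiW : ∀ y ∈ W, ψ y = 0
  sqrt : ∀ y ∈ W, ∃ k : ℕ, y ^ k * y ^ k = y

/-- The relation between elements of `A` and their central parts. -/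
def jRel (A W : Subgroup X) (x d w : X) : Prop := d ∈ A ∧ w ∈ W ∧ w⁻¹ * jT d x ∈ A

namespace JC

variable {p : ℕ} {T A P B W : Subgroup X} {U U' : Type*} [AddCommGroup U] [AddCommGroup U']
  {ψ : X → U} {ρ : X →* AddMonoid.End U} {ψ' : X → U'} {σ : X →* AddMonoid.End U'}
  {β : U →+ U →+ U'}

theorem commute (h : JC p T A P B W ψ ρ ψ' σ β) {y z : X} (hy : y ∈ B) (hz : z ∈ B)
    (h0 : β (ψ y) (ψ z) = 0) : y * z = z * y := by
  rw [h.hβ y hy z hz] at h0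
  exact commutatorElement_eq_one_iff_mul_comm.1 (h.ker' _ (h.cW y hy z hz) h0)

theorem psi_inj (h : JC p T A P B W ψ ρ ψ' σ β) {y z : X} (hy : y ∈ W) (hz : z ∈ W)
    (h0 : ψ' y = ψ' z) : y = z := by
  have := h.ker' _ (mul_mem (inv_mem hy) hz) (by
    rw [h.lin'.add _ (inv_mem hy) _ hz, h.lin'.inv hy, h0, neg_add_cancel])
  exact inv_mul_eq_one.1 this

theorem wA [Finite X] (h : JC p T A P B W ψ ρ ψ' σ β) {w : X} (hw : w ∈ W)
    (h0 : ∀ a ∈ A, (σ a - 1) (ψ' w) = 0) : w ∈ A :=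
  PLocal.abFam.mem_of_centralizes h.min.mem (h.min.le (h.BP (h.WB hw)))
    (fun a ha => jT_eq_one.1 (h.ker' _ (h.lin'.mem a hw) (by rw [h.lin'.tau a hw, h0 a ha])))
    (pow_zero w)

theorem tauA [Finite X] (h : JC p T A P B W ψ ρ ψ' σ β) {w a : X} (hw : w ∈ W) (ha : a ∈ A) :
    jT a w ∈ A :=
  h.wA (h.lin'.mem a hw) fun b hb => by rw [h.lin'.tau a hw, h.bil.quad b hb a ha]

theorem jT_mul_W (h : JC p T A P B W ψ ρ ψ' σ β) {y w : X} (a : X) (hy : y ∈ B) (hw : w ∈ W) :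
    jT a (y * w) = jT a y * jT a w := by
  have e : jT a (y * w) = w⁻¹ * jT a y * (a * w * a⁻¹) := by unfold jT; group
  rw [e, ← h.Wc (inv_mem hw) _ (h.BP (h.lin.mem a hy)), mul_assoc]
  rfl

variable {x : X}

theorem rel_B (h : JC p T A P B W ψ ρ ψ' σ β) (hx : x ∈ B) {d w : X} (hr : jRel A W x d w) :
    w⁻¹ * jT d x ∈ B := mul_mem (inv_mem (h.WB hr.2.1)) (h.lin.mem d hx)

theorem rel_tau (h : JC p T A P B W ψ ρ ψ' σ β) (hx : x ∈ B) {d w a : X} (hr : jRel A W x d w)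
    (ha : a ∈ A) : jT a (jT d x) = jT a w := by
  rw [← jT_mul_cent (y := w) (ja_comm h.min.comm ha hr.2.2)
    (h.Wc (h.lin'.mem a hr.2.1) _ (h.BP (h.rel_B hx hr))), mul_inv_cancel_left]

theorem rel_P [Finite X] (h : JC p T A P B W ψ ρ ψ' σ β) (hx : x ∈ B)
    (h0 : ∀ v ∈ A, jK A 2 (jT v x) → v ∈ P) {d w : X} (hr : jRel A W x d w) : d ∈ P :=
  h0 d hr.1 fun a ha => by
    rw [h.rel_tau hx hr ha, jK_one]
    exact le_centralizer_iff_isMulCommutative.2 h.min.comm (h.tauA hr.2.1 ha)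

theorem rel_conj (h : JC p T A P B W ψ ρ ψ' σ β) (hx : x ∈ B) {d w a : X} (hr : jRel A W x d w)
    (hd : d ∈ P) (ha : a ∈ A) : d * jT a x = jT a x * d * jT a w := by
  have e1 : jT d (jT a x) = jT a w := by
    rw [jT_sym (ja_comm h.min.comm hr.1 ha), h.rel_tau hx hr ha]
    refine h.commute (h.lin.mem d hx) (h.lin.mem a hx) ?_
    rw [h.lin.tau d hx, h.lin.triv d hd, sub_self]
    simp
  have e2 := jT_conj d (jT a x)
  rw [e1, mul_inv_eq_iff_eq_mul] at e2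
  rw [e2, mul_assoc, mul_assoc, h.Wc (h.lin'.mem a hr.2.1) d hd]

theorem exists_rel [Finite X] (h : JC p T A P B W ψ ρ ψ' σ β) (hx : x ∈ B)
    (h0 : ∀ v ∈ A, jK A 2 (jT v x) → v ∈ P) :
    ∃ R : Subgroup (X × X), ∀ z, z ∈ R ↔ jRel A W x z.1 z.2 := by
  refine ⟨{ carrier := {z | jRel A W x z.1 z.2}, mul_mem' := ?_, one_mem' := ?_, inv_mem' := ?_ },
    fun z => Iff.rfl⟩
  · rintro ⟨d, w⟩ ⟨d', w'⟩ h1 h2
    replace h1 : jRel A W x d w := h1
    replace h2 : jRel A W x d' w' := h2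
    refine ⟨mul_mem h1.1 h2.1, mul_mem h1.2.1 h2.2.1, ?_⟩
    change (w * w')⁻¹ * jT (d * d') x ∈ A
    have e1 := h.Wc (inv_mem h2.2.1) _ (h.BP (h.rel_B hx h1))
    have e : (w * w')⁻¹ * jT (d * d') x =
        (w'⁻¹ * (w⁻¹ * jT d x)) * (jT d' x * jT d (jT d' x)) := by rw [jT_mul]; group
    rw [e, ← e1, h.rel_tau hx h2 h1.1, mul_assoc, ← mul_assoc w'⁻¹]
    exact mul_mem h1.2.2 (mul_mem h2.2.2 (h.tauA h2.2.1 h1.1))
  · exact ⟨one_mem _, one_mem _, by simp [jT]⟩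
  · rintro ⟨d, w⟩ h1
    replace h1 : jRel A W x d w := h1
    refine ⟨inv_mem h1.1, inv_mem h1.2.1, ?_⟩
    change w⁻¹⁻¹ * jT d⁻¹ x ∈ A
    have e1 := h.Wc h1.2.1 _ (h.rel_P hx h0 h1)
    have e2 := h.Wc h1.2.1 _ (inv_mem (h.BP (h.lin.mem d hx)))
    have e : w⁻¹⁻¹ * jT d⁻¹ x = d⁻¹ * ((d * w) * d⁻¹ * (jT d x)⁻¹) * d := by unfold jT; group
    rw [e, e1, mul_inv_cancel_right, ← e2]
    refine mul_mem (mul_mem (inv_mem h1.1) ?_) h1.1
    simpa using inv_mem h1.2.2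

theorem eta_mul (a b : X) (v : U) :
    β v ((ρ (a * b) - 1) v) = β v ((ρ a - 1) v) + β v ((ρ b - 1) v) +
      β v ((ρ a - 1) ((ρ b - 1) v)) := by
  rw [← map_add, ← map_add]
  congr 1
  change ρ (a * b) v - v = ρ a v - v + (ρ b v - v) + (ρ a (ρ b v - v) - (ρ b v - v))
  rw [map_mul, map_sub]
  change ρ a (ρ b v) - v = _
  abel

variable {w₀ : U} {e : X}

theorem mixed_comm (h : JC p T A P B W ψ ρ ψ' σ β) (hx : x ∈ B) (hw : w₀ ∈ jU ρ A 5)
    (he : e ∈ A) (hxe : ψ x = (ρ e - 1) w₀) {a b d d' w w' : X} (ha : a ∈ A) (hb : b ∈ A)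
    (hr : jRel A W x d w) (hr' : jRel A W x d' w') (hd : d ∈ P) (hd' : d' ∈ P)
    (e1 : ψ' w + ψ' w = β (ψ x) ((ρ a - 1) (ψ x)))
    (e2 : ψ' w' + ψ' w' = β (ψ x) ((ρ b - 1) (ψ x))) :
    (d * jT a x) * (d' * jT b x) = (d' * jT b x) * (d * jT a x) := by
  have z1 := h.lin'.mem a hr'.2.1
  have z2 := h.lin'.mem b hr.2.1
  have c1 := h.rel_conj hx hr' hd' ha
  have c2 := h.rel_conj hx hr hd hb
  have hφa := h.lin.mem a hx
  have hφb := h.lin.mem b hx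
  have key : ⁅jT a x, jT b x⁆ * jT b w = jT a w' := by
    refine h.psi_inj (mul_mem (h.cW _ hφa _ hφb) z2) z1 ?_
    rw [h.lin'.add _ (h.cW _ hφa _ hφb) _ z2, ← h.hβ _ hφa _ hφb, h.lin.tau a hx, h.lin.tau b hx,
      h.lin'.tau b hr.2.1, h.lin'.tau a hr'.2.1, ← sub_eq_zero]
    apply h.bil.two
    have f := h.bil.f3 hw he ha hb
    rw [← hxe, ← e1, ← e2, map_add, map_add] at f
    have : ∀ (o s t : U'), o + o = t + t - (s + s) → o + s - t + (o + s - t) = 0 := by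
      intro o s t hh
      rw [show o + s - t + (o + s - t) = (o + o) - (t + t - (s + s)) by abel, hh, sub_self]
    exact this _ _ _ f
  have k1 : jT a x * d' = d' * jT a x * (jT a w')⁻¹ := by rw [c1]; group
  have k2 : jT b x * d = d * jT b x * (jT b w)⁻¹ := by rw [c2]; group
  have k3 := h.Wc (inv_mem z1) _ (h.BP hφb)
  have k4 := h.Wc (inv_mem z2) _ (h.BP hφa)
  have k5 := h.Wc (h.cW _ hφa _ hφb) _ (h.BP (mul_mem hφb hφa))
  have k6 := h.Wc (h.cW _ hφa _ hφb) _ (h.BP (h.WB (inv_mem z2)))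
  calc (d * jT a x) * (d' * jT b x) = d * (jT a x * d') * jT b x := by group
    _ = d * d' * jT a x * ((jT a w')⁻¹ * jT b x) := by rw [k1]; group
    _ = d * d' * (⁅jT a x, jT b x⁆ * (jT b x * jT a x)) * (jT a w')⁻¹ := by
        rw [← k3, commutatorElement_def]; group
    _ = d' * d * (jT b x * jT a x) * (⁅jT a x, jT b x⁆ * (jT b w)⁻¹) * ⁅jT a x, jT b x⁆⁻¹ := by
        rw [← k5, ← key, ja_comm h.min.comm hr.1 hr'.1]; group
    _ = d' * (d * jT b x) * (jT a x * (jT b w)⁻¹) := by rw [← k6]; group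
    _ = d' * (d * jT b x * (jT b w)⁻¹) * jT a x := by rw [k4]; group
    _ = _ := by rw [← k2]; group

end JC

end Cfsg.Agent.Max
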