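import Mathlib
import Cfsg.Agent.Max.JB4

/-! Quartic action on the central quotient of a critical subgroup. -/

set_option autoImplicit false

namespace Cfsg.Agent.Max

open Subgroup
open scoped commutatorElement

universe u

variable {X : Type u} [Group X]

namespace JC

variable {p : ℕ} {T A P B W : Subgroup X} {U U' : Type*} [AddCommGroup U] [AddCommGroup U']
  {ψ : X → U} {ρ : X →* AddMonoid.End U} {ψ' : X → U'} {σ : X →* AddMonoid.End U'}
  {β : U →+ U →+ U'} {x : X} {w₀ : U} {e : X}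

theorem tprime [Finite X] (h : JC p T A P B W ψ ρ ψ' σ β) (hx : x ∈ B) (hw : w₀ ∈ jU ρ A 5)
    (he : e ∈ A) (hxe : ψ x = (ρ e - 1) w₀) (h0 : ∀ v ∈ A, jK A 2 (jT v x) → v ∈ P)
    {u u' : X} (hu : u ∈ A) (hu' : u' ∈ A) :
    ∃ v ∈ A, ∃ w ∈ W, ∃ c ∈ A, c ∈ B ∧ jT u' (jT u x) = jT v x * w * c := by
  classical
  haveI hBn := h.lin.norm
  haveI hWn := h.lin'.norm
  obtain ⟨R, hR⟩ := h.exists_rel hx h0
  set D1 := R.map (MonoidHom.fst X X) with hD1
  set W2 := R.map (MonoidHom.snd X X) with hW2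
  have mD1 : ∀ d, d ∈ D1 ↔ ∃ w, jRel A W x d w := fun d =>
    ⟨by rintro ⟨z, hz, rfl⟩; exact ⟨z.2, (hR z).1 hz⟩,
      fun ⟨w, hr⟩ => ⟨(d, w), (hR _).2 hr, rfl⟩⟩
  have mW2 : ∀ w, w ∈ W2 ↔ ∃ d, jRel A W x d w := fun w =>
    ⟨by rintro ⟨z, hz, rfl⟩; exact ⟨z.1, (hR z).1 hz⟩,
      fun ⟨d, hr⟩ => ⟨(d, w), (hR _).2 hr, rfl⟩⟩
  have hW2W : W2 ≤ W := fun w hw => by obtain ⟨d, hr⟩ := (mW2 w).1 hw; exact hr.2.1
  have hCW : W ⊓ A ≤ W2 := fun w hw => (mW2 w).2 ⟨1, one_mem _, hw.1, by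
    simpa [jT] using hw.2⟩
  set D0 := A ⊓ A.comap (MulAut.conj x⁻¹).toMonoidHom with hD0
  have mD0 : ∀ d, d ∈ D0 ↔ jRel A W x d 1 := by
    intro d
    have e1 : (MulAut.conj x⁻¹).toMonoidHom d = jT d x * d := by simp [jT, mul_assoc]
    rw [hD0, mem_inf, mem_comap, e1, jRel, inv_one, one_mul]
    exact and_congr_right fun hd => ⟨fun h1 => ⟨one_mem _, (mul_mem_cancel_right hd).1 h1⟩,
      fun h1 => mul_mem h1.2 hd⟩
  have hD01 : D0 ≤ D1 := fun d hd => (mD1 d).2 ⟨1, (mD0 d).1 hd⟩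
  -- the subgroup `A2`
  let η : X → U' := fun a => β (ψ x) ((ρ a - 1) (ψ x))
  let Y2 : AddSubgroup U' :=
    { carrier := {z | ∃ w ∈ W2, ψ' w = z}
      add_mem' := by
        rintro _ _ ⟨w, hw, rfl⟩ ⟨w', hw', rfl⟩
        exact ⟨w * w', mul_mem hw hw', h.lin'.add _ (hW2W hw) _ (hW2W hw')⟩
      zero_mem' := ⟨1, one_mem _, h.lin'.one⟩
      neg_mem' := by
        rintro _ ⟨w, hw, rfl⟩
        exact ⟨w⁻¹, inv_mem hw, h.lin'.inv (hW2W hw)⟩ }
  have hη : ∀ a ∈ A, ∀ b ∈ A, η (a * b) - η a - η b ∈ Y2 := by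
    intro a ha b hb
    obtain ⟨w, hw', e1⟩ := h.sur' (β (ψ x) ((ρ a - 1) ((ρ b - 1) (ψ x))))
    refine ⟨w, hCW ⟨hw', h.wA hw' fun c hc => ?_⟩, ?_⟩
    · rw [e1, hxe]
      exact h.bil.f1 hw he ha hb hc
    · rw [e1]
      change _ = β _ _ - β _ _ - β _ _
      rw [eta_mul a b]
      abel
  have hη1 : η 1 = 0 := by simp [η]
  let A2 : Subgroup X :=
    { carrier := {a | a ∈ A ∧ η a ∈ Y2}
      mul_mem' := fun {a b} ha hb => ⟨mul_mem ha.1 hb.1, by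
        have := add_mem (add_mem (hη a ha.1 b hb.1) hb.2) ha.2
        simpa using this⟩
      one_mem' := ⟨one_mem _, hη1 ▸ zero_mem _⟩
      inv_mem' := fun {a} ha => ⟨inv_mem ha.1, by
        have := neg_mem (add_mem (hη a ha.1 a⁻¹ (inv_mem ha.1)) ha.2)
        simpa [hη1] using this⟩ }
  have hD12 : D1 ≤ A2 := fun d hd => by
    obtain ⟨w, hr⟩ := (mD1 d).1 hd
    refine ⟨hr.1, ?_⟩
    have : η d = 0 := by simp [η, h.lin.triv d (h.rel_P hx h0 hr)]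
    rw [this]
    exact zero_mem _
  choose sec hsec1 hsec2 using h.sur'
  have i1 : A2.relIndex A ≤ W2.relIndex W := by
    refine (ja_idx A2 A W W2 (fun a => sec (η a)) (fun a _ => hsec1 _) fun a ha b hb h1 => ?_).1
    refine ⟨mul_mem (inv_mem ha) hb, ?_⟩
    have h2 : -η a + η b ∈ Y2 := ⟨_, h1, by
      rw [h.lin'.add _ (inv_mem (hsec1 _)) _ (hsec1 _), h.lin'.inv (hsec1 _), hsec2, hsec2]⟩
    have h3 := hη a ha _ (mul_mem (inv_mem ha) hb)
    rw [mul_inv_cancel_left] at h3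
    have := sub_mem h2 h3
    rwa [show -η a + η b - (η b - η a - η (a⁻¹ * b)) = η (a⁻¹ * b) by abel] at this
  have i2 : D0.relIndex D1 ≤ (W ⊓ A).relIndex W2 := by
    choose! s hs using fun d => (mD1 d).1
    refine (ja_idx D0 D1 W2 (W ⊓ A) s (fun d hd => (mW2 _).2 ⟨d, hs d hd⟩)
      fun a ha b hb h1 => ?_).1
    have h2 := (hR _).1 (mul_mem (inv_mem ((hR (a, s a)).2 (hs a ha))) ((hR (b, s b)).2 (hs b hb)))
    refine (mD0 _).2 ⟨h2.1, one_mem _, ?_⟩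
    have : (s a)⁻¹ * s b * (((s a)⁻¹ * s b)⁻¹ * jT (a⁻¹ * b) x) ∈ A := mul_mem h1.2 h2.2.2
    rwa [mul_inv_cancel_left, ← one_mul (jT _ x), ← inv_one] at this
  -- mixed elements
  have hmix : ∀ a ∈ A2, ∃ d, ∃ w, jRel A W x d w ∧ ψ' w + ψ' w = η a := by
    rintro a ⟨-, w, hw2, e1⟩
    obtain ⟨k, hk⟩ := h.sqrt w (hW2W hw2)
    obtain ⟨d, hr⟩ := (mW2 _).1 (pow_mem hw2 k)
    exact ⟨d, _, hr, by rw [← h.lin'.add _ hr.2.1 _ hr.2.1, hk, e1]⟩
  set m := jT u' (jT u x) with hm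
  have hmB : m ∈ B := h.lin.mem u' (h.lin.mem u hx)
  let S : Set X := {y | ∃ a ∈ A, ∃ d w, jRel A W x d w ∧ ψ' w + ψ' w = η a ∧ y = d * jT a x}
  have hSP : ∀ y ∈ S, y ∈ P := by
    rintro _ ⟨a, -, d, w, hr, -, rfl⟩
    exact mul_mem (h.rel_P hx h0 hr) (h.BP (h.lin.mem a hx))
  have hSm : ∀ y ∈ S, y * m = m * y := by
    rintro _ ⟨a, ha, d, w, hr, -, rfl⟩
    have hd := h.rel_P hx h0 hr
    have c1 : jT a x * m = m * jT a x := by
      refine h.commute (h.lin.mem a hx) hmB ?_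
      rw [hm, h.lin.tau u' (h.lin.mem u hx), h.lin.tau a hx, h.lin.tau u hx, hxe]
      exact h.bil.f2 hw he ha hu' hu
    have c2 : d * m = m * d := by
      have c3 := h.rel_conj hx hr hd hu
      have z := h.lin'.mem u hr.2.1
      have c4 : d * jT u x * d⁻¹ = jT u x * jT u w := by
        rw [c3, mul_assoc (jT u x), h.Wc z d hd]; group
      have c5 : d * m * d⁻¹ = jT u' (d * jT u x * d⁻¹) := by
        have : d * m * d⁻¹ = (d * jT u x * d⁻¹)⁻¹ * ((d * u') * jT u x * (d * u')⁻¹) := by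
          rw [hm, jT]; group
        rw [this, ja_comm h.min.comm hr.1 hu']
        generalize jT u x = y
        rw [jT]; group
      rw [c4, jT_mul_cent (ja_comm h.min.comm hu' (h.tauA hr.2.1 hu))
        (h.Wc z _ (h.BP hmB)).symm] at c5
      exact mul_inv_eq_iff_eq_mul.1 c5
    rw [mul_assoc, c1, ← mul_assoc, c2, mul_assoc]
  set F := closure (S ∪ W ∪ {m}) with hF
  have hFP : F ≤ P := by
    rw [hF, closure_le]
    rintro y ((hy | hy) | rfl)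
    exacts [hSP y hy, h.BP (h.WB hy), h.BP hmB]
  have hFc : IsMulCommutative F := by
    rw [← le_centralizer_iff_isMulCommutative, hF, closure_le, centralizer_closure]
    rintro y ((hy | hy) | rfl) z ((hz | hz) | rfl)
    · obtain ⟨a, ha, d, w, hr, e1, rfl⟩ := hy
      obtain ⟨b, hb, d', w', hr', e2, rfl⟩ := hz
      exact h.mixed_comm hx hw he hxe hb ha hr' hr (h.rel_P hx h0 hr') (h.rel_P hx h0 hr) e2 e1
    · exact (h.Wc hz y (hSP y hy)).symm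
    · exact (hSm y hy).symm
    · exact h.Wc hy z (hSP z hz)
    · exact h.Wc hy z (h.BP (h.WB hz))
    · exact h.Wc hy _ (h.BP hmB)
    · exact hSm z hz
    · exact (h.Wc hz _ (h.BP hmB)).symm
    · rfl
  have hG : W ⊔ D0 ≤ F := by
    refine sup_le (fun y hy => subset_closure (Or.inl (Or.inr hy))) fun d hd => ?_
    refine subset_closure (Or.inl (Or.inl ⟨1, one_mem _, d, 1, (mD0 d).1 hd, ?_, by simp [jT]⟩))
    rw [h.lin'.one, hη1, add_zero]
  have hD0P : D0 ≤ P := fun d hd => h.rel_P hx h0 ((mD0 d).1 hd)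
  choose! s t hst using hmix
  have i3 := (ja_idx D1 A2 F (W ⊔ D0) (fun a => s a * jT a x)
    (fun a ha => subset_closure (Or.inl (Or.inl ⟨a, ha.1, s a, t a, (hst a ha).1, (hst a ha).2,
      rfl⟩))) fun a ha b hb h1 => ?_).2 ?_ m (subset_closure (Or.inr rfl))
  · obtain ⟨a, ha, h1⟩ := i3
    obtain ⟨w, hw', d, hd, e1⟩ := mem_sup_of_normal_left.1 h1
    have hr := (hst a ha).1
    have c3 := h.rel_conj hx hr (h.rel_P hx h0 hr) ha.1
    have z := h.lin'.mem a hr.2.1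
    have e2 : m = jT a x * (jT a (t a) * w) * (s a * d) := by
      have e3 : m = s a * jT a x * (w * d) := by rw [e1]; group
      rw [e3, c3, mul_assoc (jT a x) (_ * _), ← mul_assoc _ (s a),
        ← h.Wc (mul_mem z hw') _ (h.rel_P hx h0 hr)]
      group
    refine ⟨a, ha.1, _, mul_mem z hw', s a * d, mul_mem hr.1 hd.1, ?_, e2⟩
    have := mul_mem (inv_mem (mul_mem (h.lin.mem a hx) (h.WB (mul_mem z hw')))) hmB
    rwa [e2, inv_mul_cancel_left] at this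
  · obtain ⟨w, hw', d, hd, e1⟩ := mem_sup_of_normal_left.1 h1
    have hv : a⁻¹ * b ∈ A := mul_mem (inv_mem ha.1) hb.1
    have hra := (hst a ha).1
    have hrb := (hst b hb).1
    obtain ⟨w1, hr⟩ := (mD1 _).1 (mul_mem (inv_mem ((mD1 _).2 ⟨_, hra⟩)) ((mD1 _).2 ⟨_, hrb⟩))
    generalize s a = d1 at *
    generalize s b = d2 at *
    obtain ⟨f, rfl⟩ : ∃ f, d2 = d1 * f := ⟨d1⁻¹ * d2, by group⟩
    rw [inv_mul_cancel_left] at hr
    have c3 := h.rel_conj hx hr (h.rel_P hx h0 hr) hb.1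
    have z := h.lin'.mem b hr.2.1
    obtain ⟨v, rfl⟩ : ∃ v, b = a * v := ⟨a⁻¹ * b, by group⟩
    rw [inv_mul_cancel_left] at hv ⊢
    have e2 : w * d = a * jT v x * a⁻¹ * f * jT (a * v) w1 := by
      rw [e1, jT_conj]
      change (d1 * jT a x)⁻¹ * (d1 * f * jT (a * v) x) = _
      rw [mul_assoc d1, c3, jT_mul a v x]
      group
    refine (mD1 v).2 ⟨a⁻¹ * (w * (jT (a * v) w1)⁻¹) * a⁻¹⁻¹, hv,
      hWn.conj_mem _ (mul_mem hw' (inv_mem z)) _, ?_⟩
    have e3 : jT v x = a⁻¹ * (w * (d * (jT (a * v) w1)⁻¹) * f⁻¹) * a := by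
      rw [← mul_assoc w, e2]; group
    rw [e3, h.Wc (inv_mem z) d (hD0P hd)]
    have : (a⁻¹ * (w * (jT (a * v) w1)⁻¹) * a⁻¹⁻¹)⁻¹ *
        (a⁻¹ * (w * ((jT (a * v) w1)⁻¹ * d) * f⁻¹) * a) = a⁻¹ * (d * f⁻¹) * a := by group
    rw [this]
    exact mul_mem (mul_mem (inv_mem ha.1) (mul_mem hd.1 (inv_mem hr.1))) ha.1
  · have k1 : Nat.card F ≤ Nat.card A :=
      h.min.mem.2 _ (hFP.trans h.min.le) hFc (fun b _ => pow_zero b)
    have k2 := Core.card_sup_mul_card_inf (N := W) (H := D0) le_normalizer_of_normal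
    have k3 : Nat.card (W ⊓ D0 : Subgroup X) ≤ Nat.card (W ⊓ A : Subgroup X) :=
      card_le_of_le (inf_le_inf_left _ inf_le_left)
    have k4 := Core.card_mul_relIndex hG
    have k5 := Core.card_mul_relIndex (inf_le_left : D0 ≤ A)
    have k6 := Core.card_mul_relIndex (inf_le_left : W ⊓ A ≤ W)
    have hA2 : A2 ≤ A := fun a ha => ha.1
    have k7 := relIndex_mul_relIndex D0 D1 A hD01 (hD12.trans hA2)
    have k8 := relIndex_mul_relIndex D1 A2 A hD12 hA2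
    have k9 := relIndex_mul_relIndex (W ⊓ A) W2 W hCW hW2W
    have hpos : 0 < Nat.card (W ⊔ D0 : Subgroup X) * Nat.card (W ⊓ A : Subgroup X) :=
      Nat.mul_pos Nat.card_pos Nat.card_pos
    refine Nat.le_of_mul_le_mul_left ?_ hpos
    have k10 : Nat.card D0 * D0.relIndex A = Nat.card A := k5
    calc _ = Nat.card F * Nat.card (W ⊓ A : Subgroup X) := by rw [← k4]; ring
      _ ≤ Nat.card A * Nat.card (W ⊓ A : Subgroup X) := Nat.mul_le_mul_right _ k1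
      _ = Nat.card D0 * Nat.card (W ⊓ A : Subgroup X) * D1.relIndex A2 *
          (D0.relIndex D1 * A2.relIndex A) := by rw [← k10, ← k7, ← k8]; ring
      _ ≤ Nat.card D0 * Nat.card (W ⊓ A : Subgroup X) * D1.relIndex A2 *
          ((W ⊓ A).relIndex W2 * W2.relIndex W) :=
        Nat.mul_le_mul_left _ (Nat.mul_le_mul i2 i1)
      _ = Nat.card W * Nat.card D0 * D1.relIndex A2 := by rw [k9, ← k6]; ring
      _ = Nat.card (W ⊔ D0 : Subgroup X) * Nat.card (W ⊓ D0 : Subgroup X) * D1.relIndex A2 := by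
        rw [k2]
      _ ≤ _ := Nat.mul_le_mul_right _ (Nat.mul_le_mul_left _ k3)

theorem jK_cent (h : JC p T A P B W ψ ρ ψ' σ β) (k : ℕ) {y c : X} (hy : y ∈ B) (hc : c ∈ W)
    (hcA : c ∈ A) : jK A (k + 1) (y * c) ↔ jK A (k + 1) y :=
  forall₂_congr fun a ha => by
    rw [jT_mul_cent (ja_comm h.min.comm ha hcA) (h.Wc hc _ (h.BP (h.lin.mem a hy))).symm]

theorem quartic [Finite X] [Fact p.Prime] [P.Normal] (h : JC p T A P B W ψ ρ ψ' σ β) (hx : x ∈ B)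
    (hw : w₀ ∈ jU ρ A 5) (he : e ∈ A) (hxe : ψ x = (ρ e - 1) w₀) : ψ x ∈ jU ρ A 3 := by
  set F := jaSub h.lin.add (JBil.iso β ρ A) with hFdef
  have hFB : F ≤ B := fun y hy => hy.1
  have hFP := hFB.trans h.BP
  have hFT := hFP.trans h.min.le
  have hF : IsMulCommutative F := by
    rw [← le_centralizer_iff_isMulCommutative]
    exact fun y hy z hz => h.commute hz.1 hy.1
      ((JBil.mem_iso.1 hz.2).2 _ (JBil.mem_iso.1 hy.2).1)
  have hAF : ∀ a ∈ A, ∀ y ∈ F, jT a y ∈ F := fun a ha y hy =>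
    ⟨h.lin.mem a hy.1, by rw [h.lin.tau a hy.1]; exact h.bil.iso_step hy.2 ha⟩
  have hφ : ∀ a ∈ A, ∀ b ∈ A, jT b (jT a x) ∈ F := fun a ha b hb =>
    ⟨h.lin.mem b (h.lin.mem a hx), by
      rw [h.lin.tau b (h.lin.mem a hx), h.lin.tau a hx, hxe]
      exact h.bil.mem_iso3 hw he hb ha⟩
  have hD : ∀ k u, u ∈ jD A (k + 1) x ↔ u ∈ A ∧ jK A (k + 2) (jT u x) := by
    intro k u
    refine and_congr_right fun hu => ?_
    change u ∈ ⨅ a ∈ A, jD A k (jT a x) ↔ ∀ a ∈ A, jK A (k + 1) (jT a (jT u x))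
    simp only [mem_iInf]
    refine forall₂_congr fun a ha => ?_
    rw [mem_jD h.min.comm hF hAF k (hφ a ha), and_iff_right (show u ∈ A from hu)]
    have hφa := h.lin.mem a hx
    have hφu := h.lin.mem u hx
    have hc := h.cW _ (inv_mem hφu) _ (inv_mem hφa)
    have hcA : ⁅(jT u x)⁻¹, (jT a x)⁻¹⁆ ∈ A := h.wA hc fun d hd => by
      rw [← h.hβ _ (inv_mem hφu) _ (inv_mem hφa), h.lin.inv hφu, h.lin.inv hφa, h.lin.tau u hx,
        h.lin.tau a hx, hxe]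
      simpa using h.bil.f6 hw he hu ha hd
    have e1 : jT a (jT u x) = jT u (jT a x) * ⁅(jT u x)⁻¹, (jT a x)⁻¹⁆ := by
      have e2 := jT_mul a u x
      rw [ja_comm h.min.comm ha hu, jT_mul] at e2
      rw [h.Wc hc _ (h.BP (h.lin.mem u hφa)), commutatorElement_def, inv_inv, inv_inv,
        mul_assoc, mul_assoc, e2]
      group
    rw [e1, h.jK_cent k (h.lin.mem u hφa) hc hcA]
  obtain ⟨n, hn⟩ := h.min.nil (h.BP.trans h.min.le) fun a _ y hy => h.lin.mem a hy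
  obtain ⟨j, hj, hlt⟩ := h.min.chain (fun k => jD A (k + 1) x) (n := n) fun u hu =>
    (hD n u).2 ⟨hu, hn _ (by omega) _ (h.lin.mem u hx)⟩
  have hcov : ∀ a ∈ A, ∃ d ∈ jD A (j + 1) x, ρ a = ρ d := by
    intro a ha
    obtain ⟨d, hd, y, hy, rfl⟩ := h.min.cover hFP hF (jGood_iInf h.min.mem hFT hF _
      fun a ha => jGood_jD h.min.mem hFT hF hAF j (hφ a ha)) hj ha
    exact ⟨d, hd, by rw [map_mul, h.lin.triv y hy, mul_one]⟩
  refine mem_jU_succ.2 fun c hc => ?_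
  obtain ⟨u, hu, e1⟩ := hcov c hc
  obtain ⟨huA, hu⟩ := (hD j u).1 hu
  rw [e1, ← h.lin.tau u hx]
  rcases j with _ | j
  · exact h.lin.jK 2 (h.lin.mem u hx) hu
  refine mem_jU_succ.2 fun b hb => ?_
  obtain ⟨v, hv, w, hw', c, hcA, hcB, e2⟩ := h.tprime hx hw he hxe
    (fun v hv hk => hlt 0 (by omega) ((hD 0 v).2 ⟨hv, hk⟩)) huA hb
  have hφv := h.lin.mem v hx
  have hc1 : ψ c ∈ jU ρ A 1 :=
    h.lin.jK 1 hcB (jK_one.2 (le_centralizer_iff_isMulCommutative.2 h.min.comm hcA))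
  have hvP : v ∈ P := hlt j (by omega) ((hD j v).2 ⟨hv, fun a ha => by
    have := hu b hb a ha
    rw [e2, jT_mul_cent (ja_comm h.min.comm ha hcA), h.jT_mul_W a hφv hw',
      h.jK_cent j (h.lin.mem a hφv) (h.lin'.mem a hw') (h.tauA hw' ha)] at this
    · exact this
    · refine (h.commute (h.lin.mem a (mul_mem hφv (h.WB hw'))) hcB ?_).symm
      rw [h.lin.tau a (mul_mem hφv (h.WB hw')), h.lin.add _ hφv _ (h.WB hw'), h.psiW w hw',
        add_zero, h.lin.tau v hx]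
      exact (h.bil.orth 1 hc1).2 _ (JBil.dp2 ha hv _)⟩)
  rw [← h.lin.tau b (h.lin.mem u hx), e2, h.lin.add _ (mul_mem hφv (h.WB hw')) _ hcB,
    h.lin.add _ hφv _ (h.WB hw'), h.psiW w hw', h.lin.tau v hx, h.lin.triv v hvP, sub_self]
  simpa using hc1

end JC

end Cfsg.Agent.Max
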