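import Mathlib
import Cfsg.Agent.Max.JB5
import Cfsg.Agent.Glaub.Transfer5
import Cfsg.Agent.Transfer.Yoshida

/-! If `J(S)` is not contained in `O_p(G)` then some element outside `O_p(G)` has degree at most
six on every chief factor in `O_p(G)`; control of transfer by `N(J(S))` for `p ≥ 7`. -/

set_option autoImplicit false

namespace Cfsg.Agent.Max

open Subgroup
open scoped commutatorElement

universe u

variable {X : Type u} [Group X] [Finite X] {p : ℕ} [hp : Fact p.Prime]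

theorem JMin.iter_four (hp2 : p ≠ 2) {T A P B : Subgroup X} [P.Normal] [hBn : B.Normal]
    (h : JMin p T A P) (hBP : B ≤ P) (hPB : ⁅P, B⁆ ≤ B ⊓ centralizer (B : Set X)) :
    iterCommutator B A 4 ≤ B ⊓ centralizer (B : Set X) := by
  classical
  set Z := B ⊓ centralizer (B : Set X) with hZdef
  have hZE : Z ≤ centralizer (B : Set X) := inf_le_right
  have hEE : ⁅B, B⁆ ≤ Z := (commutator_mono hBP le_rfl).trans hPB
  obtain ⟨U, _, ψ, ρ, hadd, hz, hs, hc⟩ := ja_exists_lin B Z hEE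
  have hlin : JLin B P ψ ρ := ⟨hadd, hc, hBn, fun y hy => (ja_rho_one hadd hz hs hc y).2
    fun x hx => hPB (commutator_comm P B ▸ commutator_mem_commutator hx hy)⟩
  set W := B ⊓ centralizer (P : Set X) with hWdef
  have hWZ : W ≤ Z := inf_le_inf_left _ (centralizer_le hBP)
  obtain ⟨U', _, ψ', ρ', hadd', hz', hs', hc'⟩ := ja_exists_lin W ⊥
    (LocalEven.commutator_eq_bot_iff.2
      (inf_le_right.trans (centralizer_le (show W ≤ P from inf_le_left.trans hBP)))).le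
  have hlin' : JLin W P ψ' ρ' := ⟨hadd', hc', inferInstance, fun y hy =>
    (ja_rho_one hadd' hz' hs' hc' y).2 fun x hx => by
      rw [mem_bot, commutatorElement_eq_one_iff_mul_comm]
      exact (hx.2 y hy).symm⟩
  have hψeq : ∀ x ∈ B, ∀ y ∈ B, ψ x = ψ y → x⁻¹ * y ∈ Z := by
    intro x hx y hy h
    rw [← hz _ (mul_mem (inv_mem hx) hy), hadd _ (inv_mem hx) _ hy, hlin.inv hx, h, neg_add_cancel]
  have hcW : ∀ x ∈ B, ∀ y ∈ B, ⁅x, y⁆ ∈ W := by
    intro x hx y hy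
    refine ⟨inf_le_left (a := B) (hEE (commutator_mem_commutator hx hy)), fun q hq => ?_⟩
    have h1 : ∀ x ∈ B, x⁻¹ * (q * x * q⁻¹) ∈ Z := fun x hx =>
      hψeq _ hx _ (hBn.conj_mem x hx q) (by rw [hc q x hx, hlin.triv q hq]; rfl)
    have h2 := ja_comm_congr hZE inf_le_left hx hy (h1 x hx) (h1 y hy)
    rw [← conjugate_commutatorElement] at h2
    exact mul_inv_eq_iff_eq_mul.1 h2
  have hsqrt : ∀ y ∈ W, ∃ k : ℕ, y ^ k * y ^ k = y := by
    intro y hy
    obtain ⟨n, hn⟩ := h.pg ⟨y, h.le (hBP hy.1)⟩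
    replace hn : y ^ p ^ n = 1 := congrArg Subtype.val hn
    obtain ⟨k, hk⟩ := (hp.out.odd_of_ne_two hp2).pow (n := n)
    refine ⟨k + 1, ?_⟩
    rw [← pow_add, show k + 1 + (k + 1) = p ^ n + 1 by omega, pow_succ, hn, one_mul]
  choose sec hsec1 hsec2 using id hs
  have hβ0 : ∀ x ∈ B, ∀ y ∈ B, ψ' ⁅sec (ψ x), sec (ψ y)⁆ = ψ' ⁅x, y⁆ := by
    intro x hx y hy
    rw [ja_comm_congr hZE inf_le_left hx hy (hψeq _ hx _ (hsec1 _) (hsec2 _).symm)
      (hψeq _ hy _ (hsec1 _) (hsec2 _).symm)]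
  have hneg : ∀ x ∈ B, ∀ y ∈ B, ψ' ⁅x, y⁆ = - ψ' ⁅y, x⁆ := by
    intro x hx y hy
    rw [← hlin'.inv (hcW y hy x hx), commutatorElement_inv]
  have hl : ∀ u u' v : U, ψ' ⁅sec (u + u'), sec v⁆ = ψ' ⁅sec u, sec v⁆ + ψ' ⁅sec u', sec v⁆ := by
    intro u u' v
    have := hβ0 _ (mul_mem (hsec1 u) (hsec1 u')) _ (hsec1 v)
    rw [hadd _ (hsec1 u) _ (hsec1 u'), hsec2, hsec2, hsec2] at this
    rw [this, ja_comm_mul hZE hEE (hsec1 u) (hsec1 u') (hsec1 v),
      hadd' _ (hcW _ (hsec1 _) _ (hsec1 _)) _ (hcW _ (hsec1 _) _ (hsec1 _))]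
  let β : U →+ U →+ U' := AddMonoidHom.mk'
    (fun u => AddMonoidHom.mk' (fun v => ψ' ⁅sec u, sec v⁆) (fun v v' => by
      rw [hneg _ (hsec1 u) _ (hsec1 _), hl, hneg _ (hsec1 u) _ (hsec1 v),
        hneg _ (hsec1 u) _ (hsec1 v'), neg_add]))
    (fun u u' => AddMonoidHom.ext fun v => hl u u' v)
  have hβ : ∀ x ∈ B, ∀ y ∈ B, β (ψ x) (ψ y) = ψ' ⁅x, y⁆ := hβ0
  have hbil : JBil A β ρ ρ' := by
    refine ⟨fun g u v => ?_, fun u => ?_, fun a ha b hb z => ?_, fun z hz2 => ?_, h.comm⟩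
    · rw [← hsec2 u, ← hsec2 v, ← hc g _ (hsec1 u), ← hc g _ (hsec1 v),
        hβ _ (hBn.conj_mem _ (hsec1 u) g) _ (hBn.conj_mem _ (hsec1 v) g),
        hβ _ (hsec1 u) _ (hsec1 v), ← hc' g _ (hcW _ (hsec1 u) _ (hsec1 v)),
        conjugate_commutatorElement]
    · rw [← hsec2 u, hβ _ (hsec1 u) _ (hsec1 u), commutatorElement_self, hlin'.one]
    · obtain ⟨y, hy, rfl⟩ := hs' z
      have := hlin'.jK 2 hy (h.quad (inf_le_left.trans hBP) inf_le_right hy)
      exact mem_jU_zero.1 (mem_jU_succ.1 (mem_jU_succ.1 this b hb) a ha)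
    · obtain ⟨y, hy, rfl⟩ := hs' z
      obtain ⟨k, hk⟩ := hsqrt y hy
      rw [← hk, hadd' _ (pow_mem hy k) _ (pow_mem hy k), ja_psi_pow hadd' hy, ← nsmul_add, hz2,
        nsmul_zero]
  have hC : JC p T A P B W ψ ρ ψ' ρ' β :=
    ⟨h, hBP, hlin, hlin', hbil, inf_le_left, inf_le_right, fun y hy h0 => (hz' y hy).1 h0, hs',
      hcW, hβ, fun y hy => (hz y hy.1).2 (hWZ hy), hsqrt⟩
  have key : ∀ k, jU ρ A (k + 5) ≤ jU ρ A (k + 4) := by
    intro k
    induction k with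
    | zero =>
      intro w hw
      refine mem_jU_succ.2 fun e he => ?_
      rw [← hsec2 ((ρ e - 1) w)]
      exact hC.quartic (hsec1 _) hw he (hsec2 _)
    | succ k ih => exact fun w hw => mem_jU_succ.2 fun e he => ih (mem_jU_succ.1 hw e he)
  have key2 : ∀ k, jU ρ A (k + 4) ≤ jU ρ A 4 := by
    intro k
    induction k with
    | zero => exact le_rfl
    | succ k ih => exact (key k).trans ih
  obtain ⟨n, hn⟩ := h.nil (hBP.trans h.le) fun a _ y hy => hlin.mem a hy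
  exact hlin.iter (fun y hy h0 => (hz y hy).1 h0) fun y hy =>
    key2 n (hlin.jK _ hy (hn _ (by omega) y hy))

theorem JMin.good_three {T A P Z : Subgroup X} [P.Normal] (h : JMin p T A P) (hZP : Z ≤ P)
    (hZ : IsMulCommutative Z) : Glaub.Good A 3 Z := by
  intro U V hc hU
  haveI hUn := Glaub.chief_normal hc
  haveI := Glaub.chief_normal' hc
  have hUc := ja_comm_le hZ hU
  obtain ⟨M, _, ψ, ρ, hadd, hz, hs, hcj⟩ := ja_exists_lin U V
    ((LocalEven.commutator_eq_bot_iff.2 (le_centralizer_iff_isMulCommutative.2 hUc)).le.trans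
      bot_le)
  have hlin : JLin U P ψ ρ := ⟨hadd, hcj, hUn, fun y hy => (ja_rho_one hadd hz hs hcj y).2
    fun x hx => Glaub.chief_commutator_le (h.pg.to_le h.le) hc (hU.trans hZP)
      (commutator_mem_commutator hx hy)⟩
  exact hlin.iter (fun y hy h0 => (hz y hy).1 h0) fun y hy =>
    h.cubic hlin (hU.trans hZP) le_rfl hUc (fun a _ y hy => hlin.mem a hy) hy
      (h.le (hZP (hU hy))) fun a _ => hlin.mem a hy

theorem exists_good_six (hp2 : p ≠ 2) (S : Sylow p X)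
    (hJ : ¬ PLocal.jn 0 (S : Subgroup X) ≤ pCore p X) :
    ∃ g, g ∈ (S : Subgroup X) ∧ g ∉ pCore p X ∧ Glaub.Good (zpowers g) 6 (pCore p X) := by
  rw [PLocal.jn_le_iff] at hJ
  push Not at hJ
  obtain ⟨A0, hA0, hA0P⟩ := hJ
  obtain ⟨_, ⟨A, hA, hAP, rfl⟩, hmin⟩ := exists_minimal_of_wellFoundedLT
    (fun D : Subgroup X => ∃ A ∈ PLocal.abFam 0 (S : Subgroup X), ¬ A ≤ pCore p X ∧
      D = A ⊔ pCore p X) ⟨_, A0, hA0, hA0P, rfl⟩
  have h : JMin p S A (pCore p X) :=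
    ⟨S.2, Glaub.pCore_le_of_isSylowIn (LocalEven.isSylowIn_top S), hA, hAP, fun A' h1 h2 => by
      by_cases h3 : A' ≤ pCore p X
      · exact Or.inl h3
      · exact Or.inr (le_sup_left.trans (hmin ⟨A', h1, h3, rfl⟩ (sup_le h2 le_sup_right)))⟩
  obtain ⟨B, _, h1, h2, h3⟩ := Glaub.exists_critical_normal (pCore p X) (Core.pCore_isPGroup p)
  have hZ := h.good_three (Z := B ⊓ centralizer (B : Set X)) (inf_le_left.trans h1)
    (Transfer.inf_centralizer_comm B)
  obtain ⟨g, hg, hgP⟩ := SetLike.not_le_iff_exists.1 hAP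
  exact ⟨g, PLocal.abFam.le hA hg, hgP, (Glaub.good_of_critical (i := 4) (j := 3)
    (Core.pCore_isPGroup p) h1 h2 h3 (by omega)
    ((hZ.mono le_rfl (by omega) le_rfl).step (h.iter_four hp2 h1 h2)) hZ).mono
    (zpowers_le.2 hg) le_rfl le_rfl⟩

theorem ctf_jn0 (hp7 : 7 ≤ p) (G : Type u) [Group G] [Finite G] :
    ControlsTransferIn p (inducedFunctor (G := G)
      (fun (Q : Type u) [Group Q] => PLocal.jn 0 (⊤ : Subgroup Q))) ⊤ := by
  refine Glaub.tfc_of_good isCharPFunctor_jn0 (fun K R _ _ T hn => ?_) G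
    (Transfer.isSectionOf_self G)
  rw [inducedFunctor_jn0] at hn
  obtain ⟨g, g1, g2, g3⟩ := exists_good_six (by omega) T fun h1 => hn (by
    rw [← PLocal.jn_eq_of_le h1 (Glaub.pCore_le_of_isSylowIn (LocalEven.isSylowIn_top T))]
    exact Core.normal_of_le_normalizer
      (le_normalizer_of_normal.trans (PLocal.normalizer_le_normalizer_jn 0 _)))
  exact ⟨g, g1, g2, g3.mono le_rfl (by omega) le_rfl⟩

theorem pResidual_normalizer_jn0 (hp7 : 7 ≤ p) (S : Sylow p X) :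
    (pResidual p (normalizer (PLocal.jn 0 (S : Subgroup X) : Set X))).map
      (normalizer (PLocal.jn 0 (S : Subgroup X) : Set X)).subtype =
      pResidual p X ⊓ normalizer (PLocal.jn 0 (S : Subgroup X) : Set X) := by
  have h := Glaub.inf_commutator_eq_of_ctf (Glaub.conjFunctor_ind isCharPFunctor_jn0)
    (ctf_jn0 hp7 X) (LocalEven.isSylowIn_top S)
  rw [inducedFunctor_jn0] at h
  exact Transfer.tate_of_commutator S
    (le_normalizer.trans (PLocal.normalizer_le_normalizer_jn 0 _)) (h.le.trans inf_le_right)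

theorem nonempty_quot_equiv (S : Sylow p X) {H : Subgroup X} (hS : (S : Subgroup X) ≤ H)
    (h : (pResidual p H).map H.subtype = pResidual p X ⊓ H) :
    Nonempty (X ⧸ pResidual p X ≃* H ⧸ pResidual p H) := by
  let f : H →* X ⧸ pResidual p X := (QuotientGroup.mk' _).comp H.subtype
  have hf : Function.Surjective f := by
    intro q
    obtain ⟨g, rfl⟩ := QuotientGroup.mk_surjective q
    obtain ⟨k, hk, x, hx, rfl⟩ := Transfer.exists_mul_eq_of_sylow S g
    refine ⟨⟨x, hS hx⟩, ?_⟩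
    change ((x : X) : X ⧸ pResidual p X) = _
    rw [QuotientGroup.mk_mul, (QuotientGroup.eq_one_iff k).2 hk, one_mul]
  have hk : f.ker = pResidual p H := by
    ext y
    rw [← mem_map_iff_mem H.subtype_injective (K := pResidual p H), h]
    exact (QuotientGroup.eq_one_iff (y : X)).trans ⟨fun h1 => ⟨h1, y.2⟩, fun h1 => h1.1⟩
  exact ⟨(QuotientGroup.quotientKerEquivOfSurjective f hf).symm.trans
    (QuotientGroup.quotientMulEquivOfEq hk)⟩

end Cfsg.Agent.Max
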