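import Mathlib

set_option autoImplicit false

namespace Cfsg.Agent.Max.KC

variable {α : Type*} [Fintype α] [DecidableEq α] (S : Subgroup (Equiv.Perm α))

/-- orbit relation of the pointwise stabiliser of `A` in `S`. -/
def st (A : Finset α) : Setoid α where
  r x y := ∃ g : Equiv.Perm α, g ∈ S ∧ (∀ a ∈ A, g a = a) ∧ g x = y
  iseqv :=
    { refl := fun x => ⟨1, S.one_mem, fun _ _ => rfl, rfl⟩
      symm := by
        rintro x y ⟨g, hg, hA, rfl⟩
        refine ⟨g⁻¹, S.inv_mem hg, fun a ha => ?_, by simp⟩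
        rw [Equiv.Perm.inv_eq_iff_eq]; exact (hA a ha).symm
      trans := by
        rintro x y z ⟨g, hg, hA, rfl⟩ ⟨h, hh, hB, rfl⟩
        exact ⟨h * g, S.mul_mem hh hg, fun a ha => by simp [hA a ha, hB a ha], by simp⟩ }

theorem st_iff (A : Finset α) (x y : α) :
    (st S A) x y ↔ ∃ g : Equiv.Perm α, g ∈ S ∧ (∀ a ∈ A, g a = a) ∧ g x = y := Iff.rfl

/-- number of orbits of the pointwise stabiliser. -/
noncomputable def orb (A : Finset α) : ℕ := Nat.card (Quotient (st S A))

theorem orb_le (A : Finset α) : orb S A ≤ Fintype.card α := by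
  rw [orb, ← Nat.card_eq_fintype_card]
  exact Nat.card_le_card_of_surjective (Quotient.mk (st S A)) Quotient.mk_surjective

theorem orb_image (A : Finset α) {g : Equiv.Perm α} (hg : g ∈ S) :
    orb S (A.image g) = orb S A := by
  symm
  refine Nat.card_congr (Quotient.congr (ra := st S A) (rb := st S (A.image g)) g ?_)
  intro x y
  rw [st_iff, st_iff]
  constructor
  · rintro ⟨h, hh, hA, rfl⟩
    refine ⟨g * h * g⁻¹, S.mul_mem (S.mul_mem hg hh) (S.inv_mem hg), ?_, by simp⟩
    intro a ha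
    obtain ⟨b, hb, rfl⟩ := Finset.mem_image.1 ha
    simp [hA b hb]
  · rintro ⟨h, hh, hA, hxy⟩
    refine ⟨g⁻¹ * h * g, S.mul_mem (S.mul_mem (S.inv_mem hg) hh) hg, ?_, by simp [hxy]⟩
    intro a ha
    have := hA (g a) (Finset.mem_image_of_mem _ ha)
    simp [this]

theorem card_fiber {X Y : Type*} [Finite X] (f : X → Y) (hf : Function.Surjective f) (y : Y) :
    Nat.card Y + (f ⁻¹' {y}).ncard ≤ Nat.card X + 1 := by
  classical
  haveI : Finite Y := Finite.of_surjective f hf
  have h1 : (f ⁻¹' {y}).ncard + (f ⁻¹' {y})ᶜ.ncard = Nat.card X := Set.ncard_add_ncard_compl _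
  have h2 : ({y} : Set Y).ncard + ({y} : Set Y)ᶜ.ncard = Nat.card Y := Set.ncard_add_ncard_compl _
  have h3 : ({y} : Set Y)ᶜ.ncard ≤ (f ⁻¹' {y})ᶜ.ncard := by
    have : ({y} : Set Y)ᶜ = f '' (f ⁻¹' {y})ᶜ := by
      rw [← Set.preimage_compl, Set.image_preimage_eq _ hf]
    rw [this]
    exact Set.ncard_image_le (Set.toFinite _)
  rw [Set.ncard_singleton] at h2
  omega

/-- refinement map between orbit spaces. -/
def res {A B : Finset α} (h : A ⊆ B) : Quotient (st S B) → Quotient (st S A) :=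
  Quotient.map' id (by
    rintro x y ⟨g, hg, hB, hxy⟩
    exact ⟨g, hg, fun a ha => hB a (h ha), hxy⟩)

theorem res_mk {A B : Finset α} (h : A ⊆ B) (x : α) :
    res S h (Quotient.mk (st S B) x) = Quotient.mk (st S A) x := rfl

theorem res_surj {A B : Finset α} (h : A ⊆ B) : Function.Surjective (res S h) := by
  intro q
  obtain ⟨x, rfl⟩ := Quotient.mk_surjective q
  exact ⟨Quotient.mk _ x, rfl⟩

/-- the classes meeting the coset of elements agreeing with `g₀` on `A`. -/
def cl (A : Finset α) (g₀ : S) : Set (ConjClasses S) :=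
  {c | ∃ g : S, (∀ a ∈ A, (g : Equiv.Perm α) a = (g₀ : Equiv.Perm α) a) ∧ ConjClasses.mk g = c}

theorem le_two_pow_pred (r : ℕ) : r ≤ 2 ^ (r - 1) := by
  rcases r with _ | r
  · simp
  · simpa using Nat.lt_two_pow_self

theorem cl_le (m : ℕ) : ∀ (A : Finset α) (g₀ : S), Aᶜ.card = m →
    (∃ a, ∀ x ∈ A, (g₀ : Equiv.Perm α) x ∈ insert a A) →
    (cl S A g₀).ncard ≤ 2 ^ (Fintype.card α - orb S A) := by
  classical
  induction m with
  | zero =>
    intro A g₀ hA _
    have hA' : ∀ x, x ∈ A := by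
      intro x
      by_contra hx
      have : x ∈ Aᶜ := Finset.mem_compl.2 hx
      rw [Finset.card_eq_zero.1 hA] at this
      simp at this
    have : cl S A g₀ ⊆ {ConjClasses.mk g₀} := by
      rintro c ⟨g, hg, rfl⟩
      have : g = g₀ := Subtype.ext (Equiv.ext fun x => hg x (hA' x))
      simp [this]
    calc (cl S A g₀).ncard ≤ ({ConjClasses.mk g₀} : Set _).ncard :=
          Set.ncard_le_ncard this (Set.finite_singleton _)
      _ = 1 := Set.ncard_singleton _
      _ ≤ _ := Nat.one_le_two_pow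
  | succ m ih =>
    intro A g₀ hA ⟨a₀, ha₀⟩
    obtain ⟨a, haA, ha⟩ : ∃ a, a ∉ A ∧ ∀ x ∈ A, (g₀ : Equiv.Perm α) x ∈ insert a A := by
      by_cases h : a₀ ∈ A
      · obtain ⟨b, hb⟩ : Aᶜ.Nonempty := Finset.card_pos.1 (by omega)
        refine ⟨b, Finset.mem_compl.1 hb, fun x hx => ?_⟩
        have := ha₀ x hx
        rw [Finset.insert_eq_of_mem h] at this
        exact Finset.mem_insert_of_mem this
      · exact ⟨a₀, h, ha₀⟩
    set B := insert a A with hB
    have hBc : Bᶜ.card = m := by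
      have h1 := Finset.card_compl A
      have h2 := Finset.card_compl B
      have h3 : B.card = A.card + 1 := Finset.card_insert_of_notMem haA
      have h4 := Finset.card_le_univ B
      omega
    have hsub : A.image (g₀ : Equiv.Perm α) ⊆ B := by
      intro y hy
      obtain ⟨x, hx, rfl⟩ := Finset.mem_image.1 hy
      exact ha x hx
    set R : Set (Quotient (st S B)) :=
      res S hsub ⁻¹' {Quotient.mk (st S (A.image (g₀ : Equiv.Perm α))) ((g₀ : Equiv.Perm α) a)} with hR
    have hcount : orb S A + R.ncard ≤ orb S B + 1 := by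
      rw [← orb_image S A g₀.2]
      exact card_fiber _ (res_surj S hsub) _
    -- the classes attached to an orbit
    let T : Quotient (st S B) → Set (ConjClasses S) := fun ω =>
      {c | ∃ g : S, (∀ x ∈ A, (g : Equiv.Perm α) x = (g₀ : Equiv.Perm α) x) ∧
        Quotient.mk (st S B) ((g : Equiv.Perm α) a) = ω ∧ ConjClasses.mk g = c}
    have hT : ∀ ω, (T ω).ncard ≤ 2 ^ (Fintype.card α - orb S B) := by
      intro ω
      rcases (T ω).eq_empty_or_nonempty with h | ⟨c, g₁, hg₁, hω, -⟩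
      · rw [h]; simp
      · have h1 : T ω ⊆ cl S B g₁ := by
          rintro c ⟨g, hg, hgω, rfl⟩
          obtain ⟨h, hh, hhB, hha⟩ := (st_iff S B _ _).1 (Quotient.exact (hgω.trans hω.symm))
          have hinv : ∀ x ∈ B, h⁻¹ x = x := by
            intro x hx
            rw [Equiv.Perm.inv_eq_iff_eq]; exact (hhB x hx).symm
          refine ⟨⟨h, hh⟩ * g * ⟨h, hh⟩⁻¹, ?_, ?_⟩
          · intro x hx
            have e : ((⟨h, hh⟩ * g * ⟨h, hh⟩⁻¹ : S) : Equiv.Perm α) x = h ((g : Equiv.Perm α) (h⁻¹ x)) := rfl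
            rw [e, hinv x hx]
            rcases Finset.mem_insert.1 hx with rfl | hx'
            · exact hha
            · rw [hg x hx', hg₁ x hx']
              exact hhB _ (ha x hx')
          · rw [ConjClasses.mk_eq_mk_iff_isConj]
            exact (isConj_iff.2 ⟨(⟨h, hh⟩ : S), rfl⟩ : IsConj g _).symm
        refine le_trans (Set.ncard_le_ncard h1 (Set.toFinite _)) (ih B g₁ hBc ⟨(g₁ : Equiv.Perm α) a, ?_⟩)
        intro x hx
        rcases Finset.mem_insert.1 hx with rfl | hx'
        · exact Finset.mem_insert_self _ _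
        · rw [hg₁ x hx']
          exact Finset.mem_insert_of_mem (ha x hx')
    have hcov : cl S A g₀ ⊆ ⋃ ω ∈ R.toFinite.toFinset, T ω := by
      rintro c ⟨g, hg, rfl⟩
      simp only [Set.mem_iUnion, Set.Finite.mem_toFinset]
      refine ⟨Quotient.mk (st S B) ((g : Equiv.Perm α) a), ?_, g, hg, rfl, rfl⟩
      rw [hR, Set.mem_preimage, res_mk, Set.mem_singleton_iff]
      refine Quotient.sound ⟨(g₀ : Equiv.Perm α) * (g : Equiv.Perm α)⁻¹, S.mul_mem g₀.2 (S.inv_mem g.2), ?_, by simp⟩
      intro y hy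
      obtain ⟨x, hx, rfl⟩ := Finset.mem_image.1 hy
      have e : (g : Equiv.Perm α)⁻¹ ((g₀ : Equiv.Perm α) x) = x := by
        rw [Equiv.Perm.inv_eq_iff_eq]; exact (hg x hx).symm
      rw [Equiv.Perm.mul_apply, e]
    have h2 : (cl S A g₀).ncard ≤ R.ncard * 2 ^ (Fintype.card α - orb S B) := by
      refine le_trans (Set.ncard_le_ncard hcov (Set.toFinite _)) ?_
      refine le_trans (Finset.set_ncard_biUnion_le _ _) ?_
      refine le_trans (Finset.sum_le_card_nsmul _ _ _ fun ω _ => hT ω) ?_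
      rw [smul_eq_mul, Set.ncard_eq_toFinset_card R R.toFinite]
    have h3 := orb_le S B
    calc (cl S A g₀).ncard ≤ 2 ^ (R.ncard - 1) * 2 ^ (Fintype.card α - orb S B) :=
          le_trans h2 (Nat.mul_le_mul_right _ (le_two_pow_pred _))
      _ = 2 ^ (R.ncard - 1 + (Fintype.card α - orb S B)) := (pow_add _ _ _).symm
      _ ≤ _ := by
        rcases Nat.eq_zero_or_pos R.ncard with h0 | h0
        · exfalso
          have : (Quotient.mk (st S B) ((g₀ : Equiv.Perm α) a)) ∈ R := by
            rw [hR, Set.mem_preimage, res_mk]; rfl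
          have := (Set.ncard_pos R.toFinite).2 ⟨_, this⟩
          omega
        · exact Nat.pow_le_pow_right (by norm_num) (by omega)

/-- `k(S) ≤ 2^(n - number of orbits)`. -/
theorem card_le_orb : Nat.card (ConjClasses S) ≤ 2 ^ (Fintype.card α - orb S ∅) := by
  have h : cl S ∅ 1 = Set.univ := by
    ext c
    simp only [Set.mem_univ, iff_true]
    obtain ⟨g, rfl⟩ := ConjClasses.mk_surjective c
    exact ⟨g, by simp, rfl⟩
  rcases isEmpty_or_nonempty α with hα | ⟨⟨a⟩⟩
  · haveI : Subsingleton (ConjClasses S) := by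
      refine ⟨fun c d => ?_⟩
      obtain ⟨g, rfl⟩ := ConjClasses.mk_surjective c
      obtain ⟨g', rfl⟩ := ConjClasses.mk_surjective d
      rw [Subsingleton.elim g g']
    exact le_trans (Finite.card_le_one_iff_subsingleton.2 this) Nat.one_le_two_pow
  · rw [← Set.ncard_univ, ← h]
    exact cl_le S _ ∅ 1 rfl ⟨a, by simp⟩

theorem card_le : Nat.card (ConjClasses S) ≤ 2 ^ (Fintype.card α - 1) := by
  refine le_trans (card_le_orb S) (Nat.pow_le_pow_right (by norm_num) ?_)
  rcases isEmpty_or_nonempty α with hα | ⟨⟨a⟩⟩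
  · simp
  · haveI : Nonempty (Quotient (st S ∅)) := ⟨Quotient.mk _ a⟩
    have : 0 < orb S ∅ := Nat.card_pos
    omega

end Cfsg.Agent.Max.KC
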