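import Mathlib
import Cfsg.Agent.Max.L2g

/-! Solubilizers in `PSL₂(q)`. -/

set_option autoImplicit false
set_option backward.isDefEq.respectTransparency false

namespace Cfsg.Agent.Max.L2

open Matrix MulAction Cfsg.Agent.Classical.P1 Cfsg.Agent.Classical.P1Class
  Cfsg.Agent.Classical.SLBasic Cfsg.Agent.Classical.P1Ident Cfsg.Agent.Classical.Dickson
  Cfsg.Agent.Classical.DihRecog Cfsg.Agent.Classical.SmallRecog Cfsg.Agent.Classical.P1Inst
  Cfsg.Agent.Classical.Borel2 Cfsg.Agent.Classical.PSL2Basic Cfsg.Agent.Classical.AltHom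
  Cfsg.Agent.Classical.DicksonSL Cfsg.Agent.Classical.Congr
open scoped MatrixGroups Pointwise

theorem ncard_isConj {G : Type*} [Group G] (x : G) :
    {y | IsConj x y}.ncard = (Subgroup.centralizer {x}).index := by
  have h1 : (stabilizer (ConjAct G) x).index = (Subgroup.centralizer {x}).index := by
    rw [← Subgroup.index_comap_of_surjective _ (f := ConjAct.toConjAct.toMonoidHom)
      ConjAct.toConjAct.surjective]
    refine congrArg _ (Subgroup.ext fun g : G => ?_)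
    change g * x * g⁻¹ = x ↔ _
    rw [Subgroup.mem_centralizer_singleton_iff, mul_inv_eq_iff_eq_mul]
  rw [← h1, index_stabilizer]
  congr 1
  ext y
  rw [ConjAct.mem_orbit_conjAct, Set.mem_setOf_eq, isConj_comm]

theorem ncard_coe {G : Type*} [Group G] (H : Subgroup G) : (H : Set G).ncard = Nat.card H := rfl

theorem sub_cases {F : Type*} [Field F] [Finite F] {l p : ℕ} (hl : l.Prime) (hp : p.Prime)
    (hF : Nat.card F = l ^ p) (K : Subfield F) : Nat.card K = l ∨ K = ⊤ := by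
  have h1 := card_eq_finrank K
  have h0 : Module.finrank K F ≠ 0 := Module.finrank_pos.ne'
  obtain ⟨a, -, ha⟩ := (Nat.dvd_prime_pow hl).1 (hF ▸ h1 ▸ dvd_pow_self (Nat.card K) h0)
  rw [hF, ha, ← pow_mul, Nat.pow_right_inj hl.two_le] at h1
  rcases (Nat.dvd_prime hp).1 ⟨_, h1⟩ with rfl | rfl
  · exact Or.inl (by rw [ha, pow_one])
  · exact Or.inr (subfield_eq_top (by rw [ha, hF]))

variable {F : Type*} [Field F]

/-- The solubilizer of `x` in `PSL₂(F)`. -/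
def Sol (x : PGL(2, F)) : Set PGL(2, F) :=
  {y | y ∈ LL F ∧ Group.IsSolvable (Subgroup.closure {x, y})}

theorem card_Sol (x : PSL(2, F)) :
    Nat.card {y // Group.IsSolvable (Subgroup.closure ({x, y} : Set PSL(2, F)))} =
      (Sol (toP x)).ncard := by
  have h : ∀ y, Group.IsSolvable (Subgroup.closure ({x, y} : Set PSL(2, F))) ↔
      Group.IsSolvable (Subgroup.closure ({toP x, toP y} : Set PGL(2, F))) := fun y => by
    rw [solvable_congr ⟨eqvP _⟩, MonoidHom.map_closure, Set.image_pair]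
  rw [show Sol (toP x) = toP '' {y | Group.IsSolvable (Subgroup.closure ({x, y} : Set PSL(2, F)))}
    from ?_, Set.ncard_image_of_injective _ toP_injective]
  · rfl
  · ext y
    exact ⟨fun ⟨⟨z, e⟩, h1⟩ => ⟨z, (h z).2 (e ▸ h1), e⟩, by
      rintro ⟨z, h1, rfl⟩; exact ⟨⟨z, rfl⟩, (h z).1 h1⟩⟩

theorem mem_Sol_of {H : Subgroup PGL(2, F)} (hH : Group.IsSolvable H) {x y : PGL(2, F)}
    (hx : x ∈ H) (hy : y ∈ H) (hL : y ∈ LL F) : y ∈ Sol x :=
  ⟨hL, solvable_of_le (by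
    rw [Subgroup.closure_le]
    rintro _ (rfl | rfl)
    exacts [hx, hy]) hH⟩

theorem closure_le_LL {x y : PGL(2, F)} (hx : x ∈ LL F) (hy : y ∈ LL F) :
    Subgroup.closure {x, y} ≤ LL F := by
  rw [Subgroup.closure_le]
  rintro _ (rfl | rfl)
  exacts [hx, hy]

variable [Finite F]

theorem two_inv {a b : PGL(2, F)} (ha : a * a = 1) (hb : b * b = 1) :
    ∃ H : Subgroup PGL(2, F), Group.IsSolvable H ∧ a ∈ H ∧ b ∈ H := by
  obtain ⟨p, hp⟩ := CharP.exists F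
  haveI : Fact p.Prime := ⟨CharP.char_is_prime F p⟩
  have h1 : a * (a * b) * a⁻¹ = (a * b)⁻¹ := by
    rw [← mul_assoc, ha, one_mul, _root_.mul_inv_rev, inv_eq_of_mul_eq_one_right hb]
  have h2 : b = a * (a * b) := by rw [← mul_assoc, ha, one_mul]
  by_cases h3 : a * b = 1
  · rw [h3, mul_one] at h2
    subst h2
    exact ⟨Subgroup.zpowers b, Group.isSolvable_of_comm (mul_comm' (M := Subgroup.zpowers b)),
      Subgroup.mem_zpowers b, Subgroup.mem_zpowers b⟩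
  by_cases h4 : (a * b) ^ p = 1
  · obtain ⟨z, hz⟩ := pfix_of_finite (p := p) (a * b) 1 (by rwa [pow_one])
    have h5 : a • z = z := by
      by_contra h
      refine h3 (unip_fix _ h4 _ _ ?_ hz h)
      rw [eq_comm, ← inv_smul_eq_iff, ← h1, mul_smul, mul_smul, inv_smul_smul, hz]
    exact ⟨_, solvable_stab z, h5, by rw [h2]; exact mul_mem h5 hz⟩
  · obtain ⟨T, D, k, hT, h5⟩ := exists_tor h4
    have h6 := hT.norm _ h5 h3 a (h1 ▸ inv_mem h5)
    exact ⟨D, solvable_D hT, h6, by rw [h2]; exact mul_mem h6 (hT.le h5)⟩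

theorem mem_Sol_inv {x y : PGL(2, F)} (hx : x * x = 1) (hL : y ∈ LL F)
    (h : y * y = 1 ∨ x * y * (x * y) = 1) : y ∈ Sol x := by
  rcases h with h | h <;> obtain ⟨H, h1, h2, h3⟩ := two_inv hx h
  · exact mem_Sol_of h1 h2 h3 hL
  · exact mem_Sol_of h1 h2 ((H.mul_mem_cancel_left h2).1 h3) hL

theorem card_inv {x : PGL(2, F)} (hL : x ∈ LL F) (h1 : x ≠ 1) (hx : x * x = 1) :
    {y | y ∈ LL F ∧ y * y = 1}.ncard = (Subgroup.centralizer {x}).index + 1 := by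
  rw [← ncard_isConj, ← Set.ncard_insert_of_notMem (a := 1) (by simpa using h1)]
  congr 1
  ext y
  constructor
  · rintro ⟨h2, h3⟩
    by_cases h4 : y = 1
    · exact Or.inl h4
    obtain ⟨A, hA, rfl⟩ := exists_SL hL
    obtain ⟨B, hB, rfl⟩ := exists_SL h2
    exact Or.inr (isConj_iff.2 (conj_of_trace h1 h4
      (by rw [(mk_sq_iff h1).1 hx, (mk_sq_iff h4).1 h3])
      (Units.ext (by simp [Matrix.det_fin_two, hA, hB]))))
  · rintro (rfl | h)
    · exact ⟨one_mem _, one_mul _⟩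
    · obtain ⟨c, rfl⟩ := isConj_iff.1 h
      exact ⟨normal_LL.conj_mem _ hL c, by rw [conj_mul, hx]; simp⟩

theorem card_inv' {x : PGL(2, F)} (hL : x ∈ LL F) :
    {y | y ∈ LL F ∧ x * y * (x * y) = 1}.ncard = {y | y ∈ LL F ∧ y * y = 1}.ncard := by
  rw [← Set.ncard_image_of_injective _ (mul_right_injective x)]
  congr 1
  ext y
  exact ⟨by rintro ⟨z, h, rfl⟩; exact ⟨mul_mem hL h.1, h.2⟩,
    fun h => ⟨x⁻¹ * y, ⟨mul_mem (inv_mem hL) h.1, by simpa using h.2⟩, by simp⟩⟩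

theorem tor_of_dvd {p : ℕ} [Fact p.Prime] [CharP F p] {a : PGL(2, F)} (h : a ^ p ≠ 1)
    (h2 : a * a ≠ 1) {k : ℕ} (hk : k = Nat.card F - 1 ∨ k = Nat.card F + 1) (h3 : orderOf a ∣ k) :
    ∃ T D, Tor T D k ∧ a ∈ T := by
  obtain ⟨T, D, k', hT, hx⟩ := exists_tor h
  have h8 := hT.orderOf_dvd hx
  have h9 := Finite.one_lt_card (α := F)
  have h4 : Nat.card F + 1 - (Nat.card F - 1) = 2 := by omega
  replace h2 : ¬ orderOf a ∣ Nat.card F + 1 - (Nat.card F - 1) := by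
    rwa [h4, orderOf_dvd_iff_pow_eq_one, sq]
  refine ⟨T, D, ?_, hx⟩
  rcases hk with rfl | rfl <;> rcases hT.k_eq with rfl | rfl
  exacts [hT, absurd (Nat.dvd_sub h8 h3) h2, absurd (Nat.dvd_sub h3 h8) h2, hT]

/-- Every soluble subgroup generated by `x` and another element is reducible or dihedral. -/
def Gen (x : PGL(2, F)) : Prop := ∀ y ∈ Sol x, (∃ z : PL F, x • z = z ∧ y • z = z) ∨
  ∃ (T D : Subgroup PGL(2, F)) (k : ℕ), Tor T D k ∧ x ∈ D ∧ y ∈ D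

theorem sol_ss {T D : Subgroup PGL(2, F)} {k : ℕ} (hT : Tor T D k) {x : PGL(2, F)} (hx : x ∈ T)
    (h2 : x * x ≠ 1) (h : Gen x) (y : PGL(2, F)) :
    y ∈ Sol x ↔ y ∈ LL F ∧ ((∃ z : PL F, x • z = z ∧ y • z = z) ∨ y ∈ D) := by
  constructor
  · refine fun hy => ⟨hy.1, (h y hy).imp_right ?_⟩
    rintro ⟨T', D', k', hT', h3, h4⟩
    rwa [(hT.uniq hT' hx (hT'.mem_of_sq h3 h2) (by rintro rfl; simp at h2)).2.1]
  · rintro ⟨hL, ⟨z, h3, h4⟩ | h3⟩
    exacts [mem_Sol_of (solvable_stab z) h3 h4 hL, mem_Sol_of (solvable_D hT) (hT.le hx) h3 hL]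

theorem card_sol_plus {T D : Subgroup PGL(2, F)} (hT : Tor T D (Nat.card F + 1)) {x : PGL(2, F)}
    (hx : x ∈ T) (h2 : x * x ≠ 1) (h : Gen x) :
    dd F * (Sol x).ncard = 2 * (Nat.card F + 1) := by
  rw [show Sol x = (D ⊓ LL F : Subgroup _) from ?_, ncard_coe, hT.DL.2, mul_left_comm,
    Nat.mul_div_cancel' hT.dd_dvd]
  ext y
  rw [sol_ss hT hx h2 h]
  refine ⟨fun ⟨h3, h4⟩ => ⟨h4.resolve_left ?_, h3⟩, fun h3 => ⟨h3.2, Or.inr h3.1⟩⟩
  rintro ⟨z, h5, -⟩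
  rw [hT.free hx h5] at h2
  simp at h2

theorem card_sol_minus {T D : Subgroup PGL(2, F)} (hT : Tor T D (Nat.card F - 1)) {x : PGL(2, F)}
    (hx : x ∈ T) (h2 : x * x ≠ 1) (h : Gen x) :
    dd F * (Sol x).ncard = 2 * (Nat.card F * (Nat.card F - 1)) := by
  obtain ⟨a, b, hab, hm⟩ := hT.split
  have h1 : x ≠ 1 := by rintro rfl; simp at h2
  obtain ⟨ha, hb⟩ := (hm x).1 hx
  let A : Set PGL(2, F) := (stabilizer PGL(2, F) a ⊓ LL F : Subgroup _)
  let B : Set PGL(2, F) := (stabilizer PGL(2, F) b ⊓ LL F : Subgroup _)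
  let C : Set PGL(2, F) := (D ⊓ LL F : Subgroup _)
  have e1 : Sol x = A ∪ B ∪ C := by
    ext y
    rw [sol_ss hT hx h2 h]
    constructor
    · rintro ⟨h3, ⟨z, h4, h5⟩ | h4⟩
      · by_cases e : z = a
        · exact Or.inl (Or.inl ⟨e ▸ h5, h3⟩)
        by_cases e' : z = b
        · exact Or.inl (Or.inr ⟨e' ▸ h5, h3⟩)
        exact absurd (fix_three x a b z ha hb h4 hab (Ne.symm e) (Ne.symm e')) h1
      · exact Or.inr ⟨h4, h3⟩
    · rintro ((h3 | h3) | h3)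
      exacts [⟨h3.2, Or.inl ⟨a, ha, h3.1⟩⟩, ⟨h3.2, Or.inl ⟨b, hb, h3.1⟩⟩, ⟨h3.2, Or.inr h3.1⟩]
  have e2 : A ∩ B = (T ⊓ LL F : Subgroup _) := by
    ext y
    exact ⟨fun h => ⟨(hm y).2 ⟨h.1.1, h.2.1⟩, h.1.2⟩,
      fun h => ⟨⟨((hm y).1 h.1).1, h.2⟩, ((hm y).1 h.1).2, h.2⟩⟩
  have e3 : (A ∪ B) ∩ C = (T ⊓ LL F : Subgroup _) := by
    ext y
    refine ⟨fun h => ⟨?_, h.2.2⟩, fun h => ⟨Or.inl ⟨((hm y).1 h.1).1, h.2⟩, hT.le h.1, h.2⟩⟩
    by_contra h3
    rcases h.1 with h4 | h4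
    exacts [hT.move hx h1 h.2.1 h3 ha h4.1, hT.move hx h1 h.2.1 h3 hb h4.1]
  have c1 := Set.ncard_union_add_ncard_inter A B
  have c2 := Set.ncard_union_add_ncard_inter (A ∪ B) C
  rw [e3, ← e1, ncard_coe, ncard_coe, hT.DL.2, hT.card_T_inf'] at c2
  rw [e2, ncard_coe, ncard_coe, ncard_coe, hT.card_T_inf'] at c1
  have c3 := card_stab_inf a
  have c4 := card_stab_inf b
  rw [show (Sol x).ncard = _ + _ from (by omega : _ = _).trans c1, mul_add, c3, c4, two_mul]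

end Cfsg.Agent.Max.L2
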