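import Mathlib

/-!
# Singer cycles
-/

set_option autoImplicit false

namespace Cfsg.Agent.Max

open Module

variable {F K : Type*} [Field F] [Field K] [Algebra F K]

variable (F K) in
/-- Multiplications by non-zero elements of `K`. -/
abbrev sgr : Kˣ →* (End F K)ˣ :=
  Units.map ((Algebra.lmul F K : K →ₐ[F] End F K) : K →* End F K)

@[simp] theorem sgr_apply (k : Kˣ) (x : K) : (sgr F K k).1 x = k * x := rfl

theorem sgr_injective : Function.Injective (sgr F K) := fun a b e =>
  Units.ext (by simpa using congrArg (fun g : (End F K)ˣ => g.1 1) e)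

theorem unit_ne_zero (g : (End F K)ˣ) {x : K} (hx : x ≠ 0) : g.1 x ≠ 0 := fun e =>
  hx (by
    have := LinearMap.congr_fun g.inv_mul x
    rw [Module.End.mul_apply, e, map_zero] at this
    exact this.symm)

theorem mem_sgr_of {g : (End F K)ˣ} (h : ∀ k, g.1 k = k * g.1 1) : g ∈ (sgr F K).range :=
  ⟨Units.mk0 _ (unit_ne_zero g one_ne_zero), Units.ext (LinearMap.ext fun x => by
    rw [h x, sgr_apply, mul_comm]
    rfl)⟩

theorem centralizer_sgr :
    Subgroup.centralizer ((sgr F K).range : Set (End F K)ˣ) = (sgr F K).range := by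
  refine le_antisymm (fun g hg => mem_sgr_of fun k => ?_) ?_
  · by_cases hk : k = 0
    · simp [hk]
    simpa using (congrArg (fun g : (End F K)ˣ => g.1 1) (hg _ ⟨Units.mk0 k hk, rfl⟩)).symm
  · rintro _ ⟨a, rfl⟩ _ ⟨b, rfl⟩
    rw [← map_mul, ← map_mul, mul_comm]

/-- Field automorphisms as linear maps. -/
def galU : (K ≃ₐ[F] K) →* (End F K)ˣ where
  toFun σ := ⟨σ.toLinearMap, σ.symm.toLinearMap, by ext; simp, by ext; simp⟩
  map_one' := rfl
  map_mul' _ _ := rfl

theorem galU_mem (σ : K ≃ₐ[F] K) :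
    galU σ ∈ Subgroup.normalizer ((sgr F K).range : Set (End F K)ˣ) := by
  have key : ∀ (σ : K ≃ₐ[F] K) (k : Kˣ), galU σ * sgr F K k * (galU σ)⁻¹ ∈ (sgr F K).range :=
    fun σ k => ⟨Units.map (σ : K →* K) k, Units.ext (LinearMap.ext fun x => by
      change σ k * x = σ (k * σ.symm x)
      simp)⟩
  refine fun g => ⟨by rintro ⟨k, rfl⟩; exact key σ k, fun ⟨k, hk⟩ => ?_⟩
  simpa [hk, mul_assoc] using key σ⁻¹ k

theorem card_normalizer_sgr [Finite K] :
    Nat.card (Subgroup.normalizer ((sgr F K).range : Set (End F K)ˣ)) =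
      finrank F K * (Nat.card K - 1) := by
  rw [← IsGalois.card_aut_eq_finrank, ← Nat.card_units, ← Nat.card_prod]
  refine (Nat.card_eq_of_bijective (fun p : (K ≃ₐ[F] K) × Kˣ => ⟨sgr F K p.2 * galU p.1,
    mul_mem (Subgroup.le_normalizer ⟨_, rfl⟩) (galU_mem _)⟩) ⟨fun p p' e => ?_, fun g => ?_⟩).symm
  · have h : ∀ x, p.2.1 * p.1 x = p'.2.1 * p'.1 x := fun x =>
      congrArg (fun g : Subgroup.normalizer _ => g.1.1 x) e
    have h1 : p.2 = p'.2 := Units.ext (by simpa using h 1)
    exact Prod.ext (AlgEquiv.ext fun x => by simpa [h1] using h x) h1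
  · have h0 := unit_ne_zero g.1 one_ne_zero
    have key : ∀ k x, g.1.1 (k * x) * g.1.1 1 = g.1.1 k * g.1.1 x := fun k x => by
      by_cases hk : k = 0
      · simp [hk]
      obtain ⟨l, hl⟩ := (g.2 _).mp ⟨Units.mk0 k hk, rfl⟩
      have h1 : ∀ x, l.1 * g.1.1 x = g.1.1 (k * x) := fun x => by
        simpa using congrArg (fun g : (End F K)ˣ => g.1 x) (eq_mul_inv_iff_mul_eq.mp hl)
      have h2 := h1 1
      rw [mul_one] at h2
      rw [← h1, ← h2]
      ring
    let σ : K ≃ₗ[F] K := LinearMap.GeneralLinearGroup.toLinearEquiv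
      ((sgr F K (Units.mk0 _ h0))⁻¹ * g.1)
    have hσ : ∀ x, σ x = (g.1.1 1)⁻¹ * g.1.1 x := fun x => rfl
    refine ⟨(AlgEquiv.ofLinearEquiv σ (by simp [hσ, h0]) fun x y => ?_, Units.mk0 _ h0),
      Subtype.ext (Units.ext (LinearMap.ext fun x => ?_))⟩
    · simp only [hσ]
      field_simp
      rw [mul_comm, key]
    · change g.1.1 1 * σ x = _
      rw [hσ, mul_inv_cancel_left₀ h0]

theorem card_inf_sgr [Finite K] {g : (End F K)ˣ}
    (hg : (sgr F K).range.map (MulAut.conj g).toMonoidHom ≠ (sgr F K).range) :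
    ∃ r : ℕ, 1 ≤ r ∧ r ∣ finrank F K ∧ r < finrank F K ∧
      Nat.card ↥((sgr F K).range.map (MulAut.conj g).toMonoidHom ⊓ (sgr F K).range) ∣
        Nat.card F ^ r - 1 := by
  have : Finite (End F K) := Finite.of_injective _ DFunLike.coe_injective
  have : IsCyclic (sgr F K).range := isCyclic_of_surjective _ (sgr F K).rangeRestrict_surjective
  generalize hD : (sgr F K).range.map (MulAut.conj g).toMonoidHom = D at hg
  have hc : IsCyclic ↥(D ⊓ (sgr F K).range) := Subgroup.isCyclic_of_le inf_le_right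
  obtain ⟨⟨_, h1, a, rfl⟩, h2⟩ := hc.exists_ofOrder_eq_natCard
  have h3 := finrank_mul_finrank F (IntermediateField.adjoin F {a.1}) K
  refine ⟨finrank F (IntermediateField.adjoin F {a.1}), finrank_pos, ⟨_, h3.symm⟩,
    lt_of_le_of_ne (Nat.le_of_dvd finrank_pos ⟨_, h3.symm⟩) fun e => hg ?_, ?_⟩
  · have h4 : IntermediateField.adjoin F {a.1} = ⊤ :=
      IntermediateField.eq_of_le_of_finrank_eq le_top (by simpa using e)
    refine Subgroup.eq_of_le_of_card_ge (fun x hx => mem_sgr_of fun k => ?_) (by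
      rw [← hD, Subgroup.card_map_of_injective (MulAut.conj g).injective])
    have h5 : x * sgr F K a = sgr F K a * x := by
      subst hD
      obtain ⟨_, ⟨b, rfl⟩, rfl⟩ := hx
      obtain ⟨_, ⟨c, rfl⟩, e⟩ := h1
      rw [← e, ← map_mul, ← map_mul, ← map_mul, ← map_mul, mul_comm]
    have h6 : k ∈ Algebra.adjoin F {a.1} := by
      rw [← IntermediateField.adjoin_simple_toSubalgebra_of_isAlgebraic
        (Algebra.IsAlgebraic.isAlgebraic _), h4]
      trivial
    suffices ∀ y, x.1 (k * y) = k * x.1 y by simpa using this 1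
    induction h6 using Algebra.adjoin_induction with
    | mem k hk =>
      exact hk ▸ fun y => congrArg (fun g : (End F K)ˣ => g.1 y) h5
    | algebraMap c => simp [← Algebra.smul_def]
    | add k l _ _ hk hl => simp [add_mul, hk, hl]
    | mul k l _ _ hk hl => simp [mul_assoc, hk, hl]
  · rw [← h2, ← Module.natCard_eq_pow_finrank, ← Nat.card_units, ← Subgroup.orderOf_coe,
      orderOf_injective _ sgr_injective]
    have := orderOf_dvd_natCard (Units.mk0 (IntermediateField.AdjoinSimple.gen F a.1)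
      fun e => a.ne_zero (congrArg Subtype.val e))
    rw [← orderOf_units, ← orderOf_injective (IntermediateField.adjoin F {a.1}).val.toMonoidHom
      Subtype.val_injective] at this
    rwa [← orderOf_units]

end Cfsg.Agent.Max
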