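import Mathlib
import Cfsg.Agent.Max.Dk
import Cfsg.Agent.Asch.Subfield

/-!
# Rational structures; subfield subgroups of the special linear group
-/

set_option autoImplicit false

namespace Cfsg.Agent.Max

open Module

variable {F V : Type*} [Field F] [AddCommGroup V] [Module F V] {ι : Type} {K : Subfield F}
  {e : Basis ι F V}

/-- The vectors with coordinates in `K`. -/
def Rt (K : Subfield F) (e : Basis ι F V) : Submodule K V := Submodule.span K (Set.range e)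

theorem mem_Rt {v : V} : v ∈ Rt K e ↔ ∀ i, e.repr v i ∈ K :=
  (e.mem_span_iff_repr_mem K v).trans (forall_congr' fun _ =>
    ⟨fun ⟨k, h⟩ => h ▸ k.2, fun h => ⟨⟨_, h⟩, rfl⟩⟩)

theorem basis_mem_Rt (i : ι) : e i ∈ Rt K e := Submodule.subset_span ⟨i, rfl⟩

theorem smul_mem_Rt {v : V} {c : F} (hc : c ∈ K) (hv : v ∈ Rt K e) : c • v ∈ Rt K e :=
  (Rt K e).smul_mem (⟨c, hc⟩ : K) hv

theorem finrank_Rt [Fintype ι] : finrank K (Rt K e) = Fintype.card ι :=
  finrank_eq_card_basis (e.restrictScalars K)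

theorem ext_Rt {W : Type*} [AddCommGroup W] [Module F W] {f g : V →ₗ[F] W}
    (h : ∀ v ∈ Rt K e, f v = g v) : f = g := e.ext fun i => h _ (basis_mem_Rt i)

/-- The linear forms with values in `K` on rational vectors. -/
def RD (K : Subfield F) (e : Basis ι F V) : Submodule K (Dual F V) where
  carrier := {φ | ∀ v ∈ Rt K e, φ v ∈ K}
  zero_mem' _ _ := zero_mem K
  add_mem' h h' v hv := add_mem (h v hv) (h' v hv)
  smul_mem' c _ h v hv := mul_mem c.2 (h v hv)

theorem coord_mem_RD (i : ι) : e.coord i ∈ RD K e := fun _ hv => mem_Rt.mp hv i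

theorem smul_mem_RD {φ : Dual F V} {c : F} (hc : c ∈ K) (h : φ ∈ RD K e) : c • φ ∈ RD K e :=
  (RD K e).smul_mem (⟨c, hc⟩ : K) h

theorem mem_RD_of {φ : Dual F V} (h : ∀ i, φ (e i) ∈ K) : φ ∈ RD K e := fun v hv => by
  induction hv using Submodule.span_induction with
  | mem x hx => obtain ⟨i, rfl⟩ := hx; exact h i
  | zero => simp
  | add x y _ _ h1 h2 => simpa using add_mem h1 h2
  | smul a x _ h1 => rw [LinearMap.map_smul_of_tower]; exact mul_mem a.2 h1

theorem mem_Rt_of {v : V} (h : ∀ φ ∈ RD K e, φ v ∈ K) : v ∈ Rt K e :=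
  mem_Rt.mpr fun i => h _ (coord_mem_RD i)

theorem exists_RD {U : Submodule K V} (hU : U ≤ Rt K e) {x : V} (hx : x ∈ Rt K e) (h : x ∉ U) :
    ∃ φ ∈ RD K e, (∀ u ∈ U, φ u = 0) ∧ φ x = 1 := by
  obtain ⟨ψ, h1, h2⟩ := exists_dual U h
  have key : ∀ v ∈ Rt K e, e.constr F (fun i => (ψ (e i) : F)) v = ψ v := fun v hv => by
    induction hv using Submodule.span_induction with
    | mem x hx => obtain ⟨i, rfl⟩ := hx; simp
    | zero => simp
    | add x y _ _ h1 h2 => rw [map_add, map_add, h1, h2]; simp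
    | smul a x _ h1 => rw [LinearMap.map_smul_of_tower, map_smul, h1]; rfl
  exact ⟨_, fun v hv => key v hv ▸ (ψ v).2, fun u hu => by rw [key u (hU hu), h1 u hu]; rfl,
    by rw [key x hx, h2]; rfl⟩

theorem exists_RD_two {a x : V} (ha : a ∈ Rt K e) (hx : x ∈ Rt K e) (h : x ∉ K ∙ a) :
    ∃ φ ∈ RD K e, φ a = 0 ∧ φ x = 1 := by
  obtain ⟨φ, h1, h2, h3⟩ := exists_RD ((Submodule.span_singleton_le_iff_mem _ _).mpr ha) hx h
  exact ⟨φ, h1, h2 a (Submodule.mem_span_singleton_self a), h3⟩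

theorem exists_RD_one {x : V} (hx : x ∈ Rt K e) (h : x ≠ 0) : ∃ φ ∈ RD K e, φ x = 1 := by
  obtain ⟨φ, h1, -, h3⟩ := exists_RD_two (zero_mem _) hx (by simpa using h)
  exact ⟨φ, h1, h3⟩

theorem mem_of_smul_mem {x : V} {c : F} (hx : x ∈ Rt K e) (h0 : x ≠ 0) (h : c • x ∈ Rt K e) :
    c ∈ K := by
  obtain ⟨φ, h1, h2⟩ := exists_RD_one hx h0
  simpa [h2] using h1 _ h

theorem exists_Rt_one {φ : Dual F V} (hφ : φ ∈ RD K e) (h : φ ≠ 0) : ∃ c ∈ Rt K e, φ c = 1 := by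
  obtain ⟨i, hi⟩ : ∃ i, φ (e i) ≠ 0 := by
    by_contra hc
    push Not at hc
    exact h (e.ext hc)
  exact ⟨(φ (e i))⁻¹ • e i, smul_mem_Rt (inv_mem (hφ _ (basis_mem_Rt i))) (basis_mem_Rt i),
    by simp [hi]⟩

theorem not_mem_span_swap {K V : Type*} [Field K] [AddCommGroup V] [Module K V] {a b : V}
    (ha : a ≠ 0) (h : b ∉ K ∙ a) : a ∉ K ∙ b := fun e => by
  obtain ⟨k, rfl⟩ := Submodule.mem_span_singleton.mp e
  have hk : k ≠ 0 := by
    rintro rfl
    simp at ha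
  exact h (Submodule.mem_span_singleton.mpr ⟨k⁻¹, by simp [hk]⟩)

theorem finrank_le_inf_add {K V W : Type*} [Field K] [AddCommGroup V] [Module K V]
    [AddCommGroup W] [Module K W] (U : Submodule K V) [FiniteDimensional K U] (f : V →ₗ[K] W)
    (Y : Submodule K W) [FiniteDimensional K Y] (h : ∀ u ∈ U, f u ∈ Y) :
    finrank K U ≤ finrank K ↥(U ⊓ LinearMap.ker f) + finrank K Y := by
  have h1 := (f.domRestrict U).finrank_range_add_finrank_ker
  have h2 : finrank K (LinearMap.range (f.domRestrict U)) ≤ finrank K Y :=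
    Submodule.finrank_mono (by rintro _ ⟨x, rfl⟩; exact h _ x.2)
  have h3 := Submodule.finrank_map_subtype_eq U (LinearMap.ker (f.domRestrict U))
  rw [LinearMap.ker_domRestrict, Submodule.map_comap_subtype] at h3
  rw [LinearMap.ker_domRestrict] at h1
  omega

/-- The kernel of a linear form as a `K`-subspace. -/
def kr (K : Subfield F) (φ : Dual F V) : Submodule K V := LinearMap.ker (φ.restrictScalars K)

@[simp] theorem mem_kr {φ : Dual F V} {v : V} : v ∈ kr K φ ↔ φ v = 0 := Iff.rfl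

variable [Finite F] [Fintype ι]

omit [Fintype ι] in
theorem finrank_le_kr (U : Submodule K V) [FiniteDimensional K U] {φ : Dual F V} {c : F}
    (h : ∀ u ∈ U, ∃ k ∈ K, φ u = k * c) : finrank K U ≤ finrank K ↥(U ⊓ kr K φ) + 1 :=
  (finrank_le_inf_add U (φ.restrictScalars K) (K ∙ c) fun u hu => by
    obtain ⟨k, hk, e⟩ := h u hu
    exact Submodule.mem_span_singleton.mpr ⟨⟨k, hk⟩, e.symm⟩).trans
    (Nat.add_le_add_left (finrank_span_one_le c) _)

omit [Fintype ι] in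
theorem finrank_le_kr2 (U : Submodule K V) [FiniteDimensional K U] {φ : Dual F V}
    (h : ∀ u ∈ U, φ u ∈ K2 K) : finrank K U ≤ finrank K ↥(U ⊓ kr K φ) + 2 :=
  (finrank_le_inf_add U (φ.restrictScalars K) (Subalgebra.toSubmodule (K2 K)) h).trans
    (Nat.add_le_add_left (finrank_K2 K) _)

instance fd_pair {K V : Type*} [Field K] [AddCommGroup V] [Module K V] (a b : V) :
    FiniteDimensional K (Submodule.span K {a, b} : Submodule K V) :=
  Module.Finite.span_of_finite K (Set.toFinite _)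

instance : FiniteDimensional K (Rt K e) := Module.Finite.span_of_finite K (Set.finite_range e)

theorem finrank_le_kr' {U : Submodule K V} (hU : U ≤ Rt K e) {φ : Dual F V} (h : φ ∈ RD K e) :
    finrank K U ≤ finrank K ↥(U ⊓ kr K φ) + 1 :=
  have := Submodule.finiteDimensional_of_le hU
  finrank_le_kr U (c := 1) fun u hu => ⟨_, h u (hU hu), (mul_one _).symm⟩

/-- The normaliser of a rational structure. -/
def NR (K : Subfield F) (e : Basis ι F V) : Subgroup (V ≃ₗ[F] V) where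
  carrier := {g | ∃ c : F, c ≠ 0 ∧ ∀ v, v ∈ Rt K e ↔ c • g v ∈ Rt K e}
  one_mem' := ⟨1, one_ne_zero, by simp⟩
  mul_mem' := fun ⟨c, hc, h⟩ ⟨d, hd, h'⟩ => ⟨c * d, mul_ne_zero hc hd, fun v => by
    rw [h', h, map_smul, smul_smul]
    rfl⟩
  inv_mem' := fun {g} ⟨c, hc, h⟩ => ⟨c⁻¹, inv_ne_zero hc, fun v => by
    rw [h (c⁻¹ • _), map_smul, smul_smul, mul_inv_cancel₀ hc, one_smul]
    exact iff_of_eq (congrArg (· ∈ _) (g.apply_symm_apply v).symm)⟩

omit [Finite F] in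
theorem nr_of {g : V ≃ₗ[F] V} {c : F} (hc : c ≠ 0) (h : ∀ v ∈ Rt K e, c • g v ∈ Rt K e) :
    g ∈ NR K e := by
  refine ⟨c, hc, fun v => ⟨h v, fun hv => ?_⟩⟩
  let f : Rt K e →ₗ[K] Rt K e := ((c • (g : V →ₗ[F] V)).restrictScalars K).restrict h
  have : Function.Injective f := fun x y e => Subtype.ext (g.injective
    (smul_right_injective V hc (congrArg Subtype.val e)))
  obtain ⟨w, hw⟩ := LinearMap.surjective_of_injective this ⟨_, hv⟩
  exact g.injective (smul_right_injective V hc (congrArg Subtype.val hw)) ▸ w.2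

omit [Finite F] in
theorem nr_of' {g : V ≃ₗ[F] V} (h : ∀ v ∈ Rt K e, g v ∈ Rt K e) : g ∈ NR K e :=
  nr_of one_ne_zero fun v hv => by simpa using h v hv

omit [Fintype ι] in
theorem nr_invol (h2 : (2 : F) = 0) {z : V ≃ₗ[F] V} (hz : z ∈ NR K e) (h : z * z = 1) {v : V}
    (hv : v ∈ Rt K e) : z v ∈ Rt K e := by
  obtain ⟨c, hc, hz⟩ := hz
  by_cases h0 : v = 0
  · simp [h0]
  have h1 := (hz _).mp ((hz v).mp hv)
  rw [map_smul, smul_smul, show z (z v) = v from LinearEquiv.congr_fun h v, ← pow_two] at h1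
  simpa [smul_smul, hc] using smul_mem_Rt (inv_mem (mem_of_sq_mem h2 (mem_of_smul_mem hv h0 h1)))
    ((hz v).mp hv)

omit [Finite F] [Fintype ι] in
theorem exists_moved {z : V ≃ₗ[F] V} (h : z ≠ 1) : ∃ v ∈ Rt K e, z v - v ≠ 0 := by
  by_contra hc
  push Not at hc
  exact h (LinearEquiv.toLinearMap_injective (ext_Rt (K := K) (e := e) fun v hv =>
    sub_eq_zero.mp (hc v hv)))

omit [Finite F] [Fintype ι] in
theorem invol_fix (h2 : (2 : F) = 0) {z : V ≃ₗ[F] V} (h : z * z = 1) (v : V) :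
    z (z v - v) = z v - v := by
  rw [map_sub, show z (z v) = v from LinearEquiv.congr_fun h v]
  linear_combination (norm := module) h2 • (v - z v)

omit [Finite F] in
theorem mem_subfield_iff [DecidableEq ι] (P g : GL ι F) : g ∈ Geo.subfieldSubgroup K P ↔
    Orth.glEquiv ι F g ∈ NR K ((Pi.basisFun F ι).map (Orth.glEquiv ι F P)) := by
  have h0 : ∀ v, v ∈ Rt K ((Pi.basisFun F ι).map (Orth.glEquiv ι F P)) ↔
      ∀ i, (Orth.glEquiv ι F P⁻¹ v) i ∈ K := fun v => by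
    rw [mem_Rt, map_inv]
    rfl
  have h1 : ∀ (g : GL ι F) v, Orth.glEquiv ι F P⁻¹ (Orth.glEquiv ι F g v) =
      (P⁻¹ * g * P).1.mulVec (Orth.glEquiv ι F P⁻¹ v) := fun g v => by
    change (Orth.glEquiv ι F P⁻¹ * Orth.glEquiv ι F g) v =
      (Orth.glEquiv ι F (P⁻¹ * g * P) * Orth.glEquiv ι F P⁻¹) v
    rw [← map_mul, ← map_mul, mul_inv_cancel_right]
  rw [Asch.mem_subfieldSubgroup]
  constructor
  · rintro ⟨k, a, rfl⟩
    refine nr_of (c := (a⁻¹ : Fˣ)) (Units.ne_zero _) fun v hv => (h0 _).mpr fun i => ?_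
    rw [map_smul, h1]
    simp only [mul_assoc, inv_mul_cancel_left, inv_mul_cancel, mul_one, Units.val_mul,
      Asch.sc_coe, Matrix.mul_smul, Matrix.smul_mulVec, smul_smul, Units.inv_mul, one_smul]
    exact sum_mem fun j _ => mul_mem (k.1 i j).2 ((h0 v).mp hv j)
  · rintro ⟨c, hc, h⟩
    have h2 : ∀ i j, c * (P⁻¹ * g * P).1 i j ∈ K := fun i j => by
      have := (h0 _).mp ((h _).mp (basis_mem_Rt j)) i
      rw [map_smul, h1, Basis.map_apply, map_inv, LinearEquiv.coe_inv,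
        LinearEquiv.symm_apply_apply] at this
      simpa using this
    let k : Matrix ι ι K := Matrix.of fun i j => ⟨_, h2 i j⟩
    have h3 : k.map K.subtype = c • (P⁻¹ * g * P).1 := rfl
    have h4 : k.det ≠ 0 := fun h => by
      have := K.subtype.map_det k
      rw [h, map_zero, RingHom.mapMatrix_apply, h3, Matrix.det_smul] at this
      exact mul_ne_zero (pow_ne_zero _ hc) (Matrix.GeneralLinearGroup.det_ne_zero _) this.symm
    refine ⟨Matrix.GeneralLinearGroup.mkOfDetNeZero k h4, (Units.mk0 c hc)⁻¹, ?_⟩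
    rw [eq_mul_inv_iff_mul_eq, ← inv_mul_eq_iff_eq_mul, ← mul_assoc]
    refine Units.ext ?_
    rw [Units.val_mul (Matrix.GeneralLinearGroup.map _ _), Asch.sc_coe]
    change _ = k.map K.subtype * _
    rw [h3]
    simp [smul_smul, hc]

/-! ### The special linear group -/

section SL
variable {M : Subgroup (V ≃ₗ[F] V)}

omit [Finite F] in
theorem exists_RD_ne (hn : 3 ≤ Fintype.card ι) {a b : V} (ha : a ∈ Rt K e) (hb : b ∈ Rt K e) :
    ∃ φ ∈ RD K e, φ ≠ 0 ∧ φ a = 0 ∧ φ b = 0 := by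
  obtain ⟨x, hx, hx'⟩ := exists_not_mem_of_finrank_lt (W := Submodule.span K {a, b}) (U := Rt K e)
    (by have := finrank_span_pair_le (F := K) a b; rw [finrank_Rt]; omega)
  obtain ⟨φ, h1, h2, h3⟩ := exists_RD (Submodule.span_le.mpr (by
    rintro _ (rfl | rfl); exacts [ha, hb])) hx hx'
  exact ⟨φ, h1, by rintro rfl; simp at h3, h2 a (Submodule.subset_span (by simp)),
    h2 b (Submodule.subset_span (by simp))⟩

theorem exists_Rt_ne (hn : 3 ≤ Fintype.card ι) {φ ψ : Dual F V} (hφ : φ ∈ RD K e)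
    (hψ : ψ ∈ RD K e) : ∃ a ∈ Rt K e, a ≠ 0 ∧ φ a = 0 ∧ ψ a = 0 := by
  obtain ⟨x, ⟨⟨h1, h2⟩, h3⟩, h4⟩ := exists_not_mem_of_finrank_lt (W := ⊥)
    (U := Rt K e ⊓ kr K φ ⊓ kr K ψ) (by
      have := finrank_le_kr' le_rfl hφ
      have := finrank_le_kr' (U := Rt K e ⊓ kr K φ) inf_le_left hψ
      rw [finrank_Rt] at *
      simp only [finrank_bot]
      omega)
  exact ⟨x, h1, by simpa using h4, h2, h3⟩

/-- The hypotheses of the subfield argument for `SL`. -/
structure SubSL (K : Subfield F) (e : Basis ι F V) (M : Subgroup (V ≃ₗ[F] V)) : Prop where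
  hn : 4 ≤ Fintype.card ι
  rat : ∀ a ∈ Rt K e, ∀ φ ∈ RD K e, φ a = 0 → T M a φ
  lev : ∀ a ∈ Rt K e, ∀ φ ∈ RD K e, a ≠ 0 → φ ≠ 0 → ∀ s : F, T M (s • a) φ → s ∈ K

theorem sl_lev (hn : 3 ≤ Fintype.card ι) {r : ℕ} (hr : r.Prime) (hc : Nat.card F = Nat.card K ^ r)
    (rat : ∀ a ∈ Rt K e, ∀ φ ∈ RD K e, φ a = 0 → T M a φ) {a : V} (ha : a ∈ Rt K e)
    {φ : Dual F V} (hφ : φ ∈ RD K e) (ha0 : a ≠ 0) (hφ0 : φ ≠ 0) {s : F} (h : T M (s • a) φ)
    (hs : s ∉ K) : SLle M := by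
  classical
  have h3 : ∀ i j : ι, ∃ k, k ≠ i ∧ k ≠ j := fun i j => by
    obtain ⟨k, hk⟩ := Finset.exists_mem_notMem_of_card_lt_card (s := {i, j}) (t := Finset.univ)
      (Finset.card_le_two.trans_lt hn)
    exact ⟨k, by simpa using hk.2⟩
  have hs0 : s ≠ 0 := fun e => hs (e ▸ zero_mem K)
  have step : ∀ a ∈ Rt K e, ∀ φ ∈ RD K e, a ≠ 0 → T M (s • a) φ → ∀ b ∈ Rt K e, φ b = 0 →
      T M (s • b) φ := fun a ha φ hφ ha0 h b hb hb' => by
    obtain ⟨x, hx, hx'⟩ := exists_not_mem_of_finrank_lt (W := K ∙ a) (U := Rt K e ⊓ kr K φ) (by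
      have := finrank_le_kr' le_rfl hφ
      have := finrank_span_one_le (F := K) a
      rw [finrank_Rt] at *
      omega)
    refine forall_of_add (P := fun b => T M (s • b) φ) (fun x y h h' => by
      simpa only [smul_sub] using h.sub_left h') hx hx' (fun y hy hy' => ?_) ⟨hb, hb'⟩
    obtain ⟨ρ, h1, h2, h3⟩ := exists_RD_two hy.1 ha (not_mem_span_swap ha0 hy')
    simpa [h3] using (rat y hy.1 ρ h1 h2).comm h hy.2
  let L : Subalgebra K F :=
    { carrier := {s | ∀ i j, i ≠ j → T M (s • e i) (e.coord j)}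
      mul_mem' := fun {x y} hx hy i j hij => by
        obtain ⟨k, h1, h2⟩ := h3 i j
        simpa [smul_smul] using (hy i k h1.symm).comm (hx k j h2) (by simp [hij])
      add_mem' := fun hx hy i j hij => by
        simpa only [add_smul] using (hx i j hij).add_left (hy i j hij)
      algebraMap_mem' := fun k i j hij => rat _ (smul_mem_Rt k.2 (basis_mem_Rt i)) _
        (coord_mem_RD j) (by simp [hij]) }
  have hL : s ∈ L := fun i j hij => by
    obtain ⟨b, hb, hb0, h1, h2⟩ := exists_Rt_ne hn hφ (coord_mem_RD j)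
    refine step b hb _ (coord_mem_RD j) hb0 ?_ _ (basis_mem_Rt i) (by simp [hij])
    by_cases h4 : ∃ k, k ≠ j ∧ φ (e k) ≠ 0
    · obtain ⟨k, hk, h4⟩ := h4
      have := (step a ha φ hφ ha0 h b hb h1).comm (rat _ (smul_mem_Rt (inv_mem (hφ _
        (basis_mem_Rt k))) (basis_mem_Rt k)) _ (coord_mem_RD j) (by simp [hk])) (by simpa using .inr h2)
      simpa [h4] using this
    · push Not at h4
      have h5 : φ = φ (e j) • e.coord j := e.ext fun k => by
        by_cases hk : k = j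
        · simp [hk]
        · simp [hk, h4 k hk]
      have h6 : φ (e j) ≠ 0 := fun h => hφ0 (by rw [h5, h, zero_smul])
      have := step a ha φ hφ ha0 h _ (smul_mem_Rt (inv_mem (hφ _ (basis_mem_Rt j))) hb) (by simp [h1])
      rw [h5] at this
      simpa [smul_smul, mul_left_comm _ s, h6] using this.smul_left
  exact sl_of_basis e fun i j hij c => (subalgebra_eq_top hr hc L hL hs).ge trivial i j hij

namespace SubSL
variable (h : SubSL K e M) {a b : V} {φ ψ : Dual F V}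
include h

omit [Finite F] in
theorem dual (ha : a ∈ Rt K e) (ha0 : a ≠ 0) (h1 : T M a ψ) : ψ ∈ RD K e := fun c hc => by
  obtain ⟨ρ, h2, h3, h4, h5⟩ := exists_RD_ne (by have := h.hn; omega) ha hc
  exact h.lev a ha ρ h2 ha0 h3 _ (h1.comm (h.rat c hc ρ h2 h5) h4)

theorem vec (hφ : φ ∈ RD K e) (hφ0 : φ ≠ 0) (h1 : T M b φ) : b ∈ Rt K e := mem_Rt_of fun ρ hρ => by
  obtain ⟨c, h2, h3, h4, h5⟩ := exists_Rt_ne (by have := h.hn; omega) hφ hρ
  exact h.lev c h2 φ hφ h3 hφ0 _ ((h.rat c h2 ρ hρ h5).comm h1 h4)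

theorem of_dual (h1 : T M b ψ) (hψ : ψ ≠ 0) (hφ : φ ∈ RD K e) (hφ0 : φ ≠ 0) (h2 : φ b = 0) :
    ∃ c : F, c ≠ 0 ∧ c • b ∈ Rt K e := by
  by_cases h3 : ∃ c ∈ Rt K e, φ c = 0 ∧ ψ c ≠ 0
  · obtain ⟨c, h3, h4, h5⟩ := h3
    exact ⟨_, h5, h.vec hφ hφ0 (h1.comm (h.rat c h3 φ hφ h4) h2)⟩
  · push Not at h3
    obtain ⟨c, h4, h5⟩ := exists_Rt_one hφ hφ0
    have h6 : ψ = ψ c • φ := ext_Rt (K := K) (e := e) fun v hv => by
      have := h3 _ (sub_mem hv (smul_mem_Rt (hφ v hv) h4)) (by simp [h5])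
      simpa [sub_eq_zero, mul_comm] using this
    exact ⟨ψ c, fun e => hψ (by rw [h6, e, zero_smul]), h.vec hφ hφ0 (h6 ▸ h1 :).smul_left⟩

theorem of_vec (h1 : T M b ψ) (hψ : ψ ≠ 0) (hb : b ≠ 0) (ha : a ∈ Rt K e) (ha0 : a ≠ 0)
    (h2 : ψ a = 0) : ∃ c : F, c ≠ 0 ∧ c • b ∈ Rt K e := by
  obtain ⟨φ, h3, h4, h5, -⟩ := exists_RD_ne (by have := h.hn; omega) ha ha
  by_cases h6 : φ b = 0
  · exact h.of_dual h1 hψ h3 h4 h6
  · exact h.of_dual h1 hψ (h.dual ha ha0 ((h.rat a ha φ h3 h5).comm h1 h2).smul_right)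
      (smul_ne_zero h6 hψ) (by simp [h1.1])

theorem nr {g : V ≃ₗ[F] V} (hg : g ∈ M) (ha : a ∈ Rt K e) (ha0 : a ≠ 0) {c : F} (hc : c ≠ 0)
    (h1 : c • g a ∈ Rt K e) : g ∈ NR K e := nr_of hc fun b hb => by
  obtain ⟨φ, h2, h3, h4, h5⟩ := exists_RD_ne (by have := h.hn; omega) ha hb
  have key : ∀ x ∈ Rt K e, φ x = 0 → T M (c • g x) (c⁻¹ • φ ∘ₗ (g.symm : V →ₗ[F] V)) :=
    fun x hx e => T.smul_left (by simpa [smul_smul, hc] using (h.rat x hx φ h2 e).conj hg)
  refine h.vec (h.dual h1 (by simp [hc, ha0]) (key a ha h4)) (smul_ne_zero (inv_ne_zero hc)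
    fun e => h3 (LinearMap.ext fun x => ?_)) (key b hb h5)
  simpa using LinearMap.congr_fun e (g x)

omit [Finite F] in
theorem conj {g : V ≃ₗ[F] V} (hg : g ∈ M) (ha : a ∈ Rt K e) :
    ∃ ψ, ψ ≠ 0 ∧ T M (g a) ψ := by
  obtain ⟨φ, h2, h3, h4, -⟩ := exists_RD_ne (by have := h.hn; omega) ha ha
  refine ⟨_, fun e => h3 (LinearMap.ext fun x => ?_), (h.rat a ha φ h2 h4).conj hg⟩
  simpa using LinearMap.congr_fun e (g x)

theorem odd (h2 : (2 : F) ≠ 0) : M ≤ NR K e := fun g hg => by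
  have hn := h.hn
  obtain ⟨i⟩ : Nonempty ι := Fintype.card_pos_iff.mp (by omega)
  have ha := basis_mem_Rt (K := K) (e := e) i
  obtain ⟨ψ, h3, h4⟩ := h.conj hg ha
  by_contra hg'
  have hb : ¬ ∃ c : F, c ≠ 0 ∧ c • g (e i) ∈ Rt K e := fun ⟨c, hc, h1⟩ =>
    hg' (h.nr hg ha (e.ne_zero i) hc h1)
  obtain ⟨φ, h5, h6, h7, -⟩ := exists_RD_ne (by omega) ha ha
  have h8 : φ (g (e i)) ≠ 0 := fun e => hb (h.of_dual h4 h3 h5 h6 e)
  obtain ⟨x, ⟨⟨h9, h10⟩, h11⟩, h12⟩ := exists_not_mem_of_finrank_lt (W := ⊥)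
    (U := Rt K e ⊓ kr K φ ⊓ kr K (φ (g (e i)) • ψ)) (by
      have := finrank_le_kr' le_rfl h5
      have := finrank_le_kr2 (Rt K e ⊓ kr K φ) (φ := φ (g (e i)) • ψ) fun u hu => by
          by_cases h0 : u = 0
          · simp [h0]
          have hu2 : φ u = 0 := hu.2
          refine dk (M := M) h2 (N := φ.smulRight u) (N' := ψ.smulRight (g (e i)))
            (by simp [hu2]) (by simp [h4.1]) (by simp [smul_smul, mul_assoc, mul_comm, mul_left_comm])
            (by simp [smul_smul, mul_assoc, mul_comm, mul_left_comm]) (fun s hs => ?_)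
            (h.rat u hu.1 φ h5 hu2).2 h4.2
          exact h.lev u hu.1 φ h5 h0 h6 s (T.of_R hs (by simp [hu2]) (by simp [smul_smul, mul_comm]))
      rw [finrank_Rt] at *
      simp only [finrank_bot]
      omega)
  exact hb (h.of_vec h4 h3 (by simp [e.ne_zero]) h9 (by simpa using h12) (by simpa [h8] using h11))

theorem even (h2 : (2 : F) = 0) : M ≤ NR K e := by
  classical
  have := Module.Finite.of_basis e
  have : Finite V := Module.finite_of_finite F
  have : Finite (V ≃ₗ[F] V) := Finite.of_injective _ DFunLike.coe_injective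
  obtain ⟨f⟩ : Nonempty (Fin 4 ↪ ι) := Function.Embedding.nonempty_of_card_le (by simpa using h.hn)
  have key : ∀ i j, i ≠ j → T M (e (f i)) (e.coord (f j)) := fun i j hij =>
    h.rat _ (basis_mem_Rt _) _ (coord_mem_RD _) (by simp [hij])
  have hr : ∀ i j hij, tv _ _ (key i j hij).1 ∈ NR K e := fun i j _ => nr_of' fun v hv =>
    add_mem hv (smul_mem_Rt (coord_mem_RD _ v hv) (basis_mem_Rt _))
  have h0 : ∀ x : V, x + x = 0 := fun x => by rw [← two_smul F, h2, zero_smul]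
  refine se2 (fun g hg z hz hz' hz1 hz2 h3 => ?_) (key 0 1 (by simp)).tv_mem
    (mul_mem (key 0 1 (by simp)).tv_mem (key 2 3 (by simp)).tv_mem) (hr _ _ (by simp))
    (mul_mem (hr _ _ (by simp)) (hr _ _ (by simp))) (fun e1 => ?_) (fun e1 => ?_) ?_ ?_ fun g _ e1 => ?_
  · have h4 : g⁻¹ * z * g * (g⁻¹ * z * g) = 1 := by
      rw [show g⁻¹ * z * g * (g⁻¹ * z * g) = g⁻¹ * (z * z) * g by group, hz2]
      simp
    obtain ⟨v, hv, h5⟩ := exists_moved (K := K) (e := e) (z := g⁻¹ * z * g)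
      fun e => hz1 (by simpa [mul_eq_one_iff_eq_inv', inv_mul_eq_iff_eq_mul] using e)
    have ha := sub_mem (nr_invol h2 h3 h4 hv) hv
    obtain ⟨ψ, h6, h7⟩ := h.conj hg ha
    obtain ⟨w, hw, h8⟩ := exists_moved (K := K) (e := e) hz1
    obtain ⟨χ, h9, h10⟩ := exists_RD_one (sub_mem (nr_invol h2 hz' hz2 hw) hw) h8
    obtain ⟨c, hc, h11⟩ := h.of_dual (φ := χ ∘ₗ ((z : V →ₗ[F] V) - 1)) h7 h6
      (fun x hx => h9 _ (sub_mem (nr_invol h2 hz' hz2 hx) hx))
      (fun e => by simpa [h10] using (LinearMap.congr_fun e w).symm.trans h10) (by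
        have : z (g ((g⁻¹ * z * g) v - v)) = g ((g⁻¹ * z * g) v - v) := by
          simpa using invol_fix h2 hz2 (g v)
        change χ (z _ - _) = 0
        rw [this, Module.End.one_apply, sub_self, map_zero])
    exact h.nr hg ha h5 hc h11
  · simpa [e.ne_zero] using LinearEquiv.congr_fun e1 (e (f 1))
  · simpa [e.ne_zero] using LinearEquiv.congr_fun e1 (e (f 1))
  · ext x
    simp [add_assoc, h0]
  · ext x
    simp only [LinearEquiv.mul_apply, tv_apply, map_add, map_smul, Basis.coord_apply, Basis.repr_self]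
    simp
    linear_combination (norm := module) h0 ((e.repr x) (f 1) • e (f 0)) + h0 ((e.repr x) (f 3) • e (f 2))
  · have h3 := LinearEquiv.congr_fun e1 (e (f 1))
    have h4 := LinearEquiv.congr_fun e1 (e (f 3))
    simp at h3 h4
    have h5 := congrArg (e.repr · (f 0)) h4
    have h6 := congrArg (e.repr · (f 0)) h3
    have h7 := congrArg (e.repr · (f 2)) h4
    simp at h5 h6 h7
    rcases h5 with h5 | h5 <;> simp [h5] at h6 h7

end SubSL

theorem sl_subfield (hn : 4 ≤ Fintype.card ι) {r : ℕ} (hr : r.Prime)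
    (hc : Nat.card F = Nat.card K ^ r) (hH : ∀ g, LinearEquiv.det g = 1 → g ∈ NR K e → g ∈ M)
    (hg : ∃ g ∈ M, g ∉ NR K e) : SLle M := by
  have := Module.Finite.of_basis e
  by_contra hc'
  have rat : ∀ a ∈ Rt K e, ∀ φ ∈ RD K e, φ a = 0 → T M a φ := fun a ha φ hφ h =>
    T.of_tv (h := h) (hH _ (det_tv _ _ _) (nr_of' fun v hv =>
      add_mem hv (smul_mem_Rt (hφ v hv) ha)))
  have h : SubSL K e M := ⟨hn, rat, fun a ha φ hφ ha0 hφ0 s hs => by_contra fun h =>
    hc' (sl_lev (by omega) hr hc rat ha hφ ha0 hφ0 hs h)⟩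
  obtain ⟨g, hg, hg'⟩ := hg
  by_cases h2 : (2 : F) = 0
  exacts [hg' (h.even h2 hg), hg' (h.odd h2 hg)]

omit [Fintype ι] in
theorem exists_not_mem_subfield {r : ℕ} (hr : r.Prime) (hc : Nat.card F = Nat.card K ^ r) :
    ∃ s : F, s ∉ K := by
  by_contra h
  push Not at h
  have h1 : Nat.card K = Nat.card F := Nat.card_congr (Equiv.subtypeUnivEquiv h)
  have := Nat.pow_lt_pow_right (Finite.one_lt_card (α := K)) hr.one_lt
  rw [pow_one] at this
  omega

theorem max_subfield [DecidableEq ι] (hn : 4 ≤ Fintype.card ι) {r : ℕ} (hr : r.Prime)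
    (hc : Nat.card F = Nat.card K ^ r) (P : GL ι F) : Geo.IsMaximalIn (Geo.specialLinear ι F)
      (Geo.subfieldSubgroup K P ⊓ Geo.specialLinear ι F) := by
  refine isMaximalIn_SL' _ (mem_subfield_iff P) ?_ fun M hH _ hg => sl_subfield hn hr hc hH hg
  generalize (Pi.basisFun F ι).map (Orth.glEquiv ι F P) = e
  obtain ⟨s, hs⟩ := exists_not_mem_subfield hr hc
  obtain ⟨i, j, hij⟩ := Fintype.exists_pair_of_one_lt_card (α := ι) (by omega)
  refine ⟨tv (s • e i) (e.coord j) (by simp [hij]), det_tv _ _ _, fun ⟨c, hc, h⟩ => hs ?_⟩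
  have h1 := mem_Rt.mp ((h _).mp (basis_mem_Rt j))
  simpa [hc, hij, hij.symm] using div_mem (h1 i) (h1 j)

end SL

end Cfsg.Agent.Max
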