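import Mathlib
import Cfsg.Agent.Max.Sub
import Cfsg.Agent.Max.Sp3

/-!
# Subfield subgroups of symplectic groups
-/

set_option autoImplicit false

namespace Cfsg.Agent.Max

open Module Classical.SpWitt Classical.SpMat

variable {F V : Type*} [Field F] [AddCommGroup V] [Module F V] {ι : Type} {K : Subfield F}
  {e : Basis ι F V}

theorem exists_Rt_dual [Finite F] [Fintype ι] {Θ : V → Dual F V} (h : Function.Injective Θ)
    (h' : ∀ v ∈ Rt K e, Θ v ∈ RD K e) {φ : Dual F V} (hφ : φ ∈ RD K e) :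
    ∃ y ∈ Rt K e, Θ y = φ := by
  let f : RD K e → ι → K := fun φ i => ⟨φ.1 (e i), φ.2 _ (basis_mem_Rt i)⟩
  have hf : Function.Injective f := fun φ ψ h => Subtype.ext (e.ext fun i =>
    congrArg Subtype.val (congrFun h i))
  have := Finite.of_injective f hf
  obtain ⟨y, hy⟩ := (Function.Injective.bijective_of_nat_card_le
    (f := fun v : Rt K e => (⟨Θ v, h' _ v.2⟩ : RD K e))
    (fun v w e => Subtype.ext (h (congrArg Subtype.val e)))
    ((Nat.card_le_card_of_injective f hf).trans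
      (Nat.card_congr (e.restrictScalars K).equivFun.toEquiv).ge)).2 ⟨φ, hφ⟩
  exact ⟨y, y.2, congrArg Subtype.val hy⟩

theorem mem_span_of_Rt {x y : V} (hx : x ∈ Rt K e) (hy : y ∈ Rt K e) (h : y ∈ F ∙ x) :
    y ∈ K ∙ x := by
  by_contra hc
  obtain ⟨φ, -, h1, h2⟩ := exists_RD_two hx hy hc
  obtain ⟨k, rfl⟩ := Submodule.mem_span_singleton.mp h
  simp [h1] at h2

theorem nr_step {g : V ≃ₗ[F] V} {x y : V} (hx : x ∈ Rt K e) (hy : y ∈ Rt K e) {a b c : F}
    (ha : a ≠ 0) (hb : b ≠ 0) (hc : c ≠ 0) (hx0 : x ≠ 0) (h1 : a • g x ∈ Rt K e)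
    (h2 : b • g y ∈ Rt K e) (h3 : c • g (x + y) ∈ Rt K e) : a • g y ∈ Rt K e := by
  by_cases h : y ∈ K ∙ x
  · obtain ⟨k, rfl⟩ := Submodule.mem_span_singleton.mp h
    rw [LinearMapClass.map_smul_of_tower, smul_comm]
    exact (Rt K e).smul_mem k h1
  have h4 : b • g y ∉ K ∙ (a • g x) := fun e => h (mem_span_of_Rt hx hy (by
    obtain ⟨k, hk⟩ := Submodule.mem_span_singleton.mp e
    refine Submodule.mem_span_singleton.mpr ⟨b⁻¹ * k * a, g.injective ?_⟩
    rw [map_smul, mul_smul, mul_smul, show (k : F) • a • g x = b • g y from hk, smul_smul,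
      inv_mul_cancel₀ hb, one_smul]))
  obtain ⟨φ, h5, h6, h7⟩ := exists_RD_two h1 h2 h4
  obtain ⟨ψ, h8, h9, h10⟩ := exists_RD_two h2 h1 (not_mem_span_swap (by simp [ha, hx0]) h4)
  have h11 := div_mem (h5 _ h3) (h8 _ h3)
  simp only [map_smul, smul_eq_mul, mul_eq_zero, ha, hb, false_or] at h6 h7 h9 h10
  rw [show a • g y = (a / b) • b • g y by simp [smul_smul, hb]]
  refine smul_mem_Rt ?_ h2
  convert h11 using 1
  simp only [map_smul, map_add, h6, h9, eq_inv_of_mul_eq_one_right h7,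
    eq_inv_of_mul_eq_one_right h10, smul_eq_mul]
  field_simp
  simp

theorem nr_of_prop [Fintype ι] {g : V ≃ₗ[F] V}
    (h : ∀ a ∈ Rt K e, ∃ c : F, c ≠ 0 ∧ c • g a ∈ Rt K e) : g ∈ NR K e := by
  by_cases h0 : ∃ a ∈ Rt K e, a ≠ 0
  · obtain ⟨a, ha, ha0⟩ := h0
    obtain ⟨c, hc, h1⟩ := h a ha
    refine nr_of hc fun v hv => ?_
    obtain ⟨b, hb, h2⟩ := h v hv
    obtain ⟨d, hd, h3⟩ := h _ (add_mem ha hv)
    exact nr_step ha hv hc hb hd ha0 h1 h2 h3
  · push Not at h0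
    exact nr_of' fun v hv => by simp [h0 v hv]

theorem exists_sq_sub_sq [Finite F] (s : F) : ∃ x y : F, s = x ^ 2 - y ^ 2 := by
  by_cases h2 : (2 : F) = 0
  · obtain ⟨x, hx⟩ := FiniteField.isSquare_of_char_two (F := F) (by
      have : CharP F 2 := (CharP.charP_iff_prime_eq_zero Nat.prime_two).mpr h2
      exact ringChar.eq F 2) s
    exact ⟨x, 0, by rw [hx]; ring⟩
  · exact ⟨(s + 1) / 2, (s - 1) / 2, by field_simp; ring⟩

variable {M : Subgroup (V ≃ₗ[F] V)} {B : LinearMap.BilinForm F V}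

/-- Elements of the unipotent radical of a point stabiliser. -/
def SQ (B : LinearMap.BilinForm F V) (M : Subgroup (V ≃ₗ[F] V)) (a w : V) (t : F) : Prop :=
  R M (sS B a w + t • (B a).smulRight a)

theorem SQ.map {a w : V} {t : F} (h : SQ B M a w t) {g : V ≃ₗ[F] V} (hg : g ∈ M)
    (hg' : g ∈ SG B) : SQ B M (g a) (g w) t := h.conj' hg fun x => by simp [hg' a x, hg' w x]

theorem SQ.sub (hA : B.IsAlt) {a w w' : V} {t t' : F} (h : SQ B M a w t) (h' : SQ B M a w' t')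
    (e : B a w = 0) (e' : B a w' = 0) : SQ B M a (w - w') (t - t' - B w w') :=
  (h.mul (h'.neg fun x => by simp [hA.self_eq_zero, e', hA.isRefl _ _ e'])).congr fun x => by
    simp [hA.self_eq_zero, e', hA.isRefl _ _ e]
    module

theorem SQ.of_T {a : V} {t : F} (h : T M a (t • B a)) : SQ B M a 0 t :=
  h.2.congr fun x => by simp [smul_smul]

theorem SQ.to_T (hA : B.IsAlt) {a : V} {t : F} (h : SQ B M a 0 t) : T M a (t • B a) :=
  T.of_R h (by simp [hA.self_eq_zero]) fun x => by simp [smul_smul]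

theorem SQ.of_add (hA : B.IsAlt) {a b : V} {s : F} (e : B a b = 0)
    (h : T M (b + a) (s • B (b + a))) (h' : T M b (s • B b)) : SQ B M a (s • b) s :=
  (h.2.sub h'.2 h'.sq fun x => by simp [hA.self_eq_zero, e]).congr fun x => by
    simp
    module

theorem SQ.swap {a b : V} {s : F} (h : SQ B M a (s • b) 0) : SQ B M b (s • a) 0 :=
  h.congr fun x => by
    simp
    module

variable [Finite F] [Fintype ι]

/-- The basic hypotheses of the subfield argument for `Sp`. -/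
structure SubSp (B : LinearMap.BilinForm F V) (K : Subfield F) (e : Basis ι F V)
    (M : Subgroup (V ≃ₗ[F] V)) : Prop where
  hn : 5 ≤ Fintype.card ι
  nd : B.Nondegenerate
  alt : B.IsAlt
  rat : ∀ u ∈ Rt K e, B u ∈ RD K e
  le : ∀ g ∈ M, g ∈ SG B
  mem : ∀ g ∈ SG B, g ∈ NR K e → g ∈ M

namespace SubSp
variable (h : SubSp B K e M) {a b c d : V} {s t : F}
include h

theorem dual {U : Submodule K V} (hU : U ≤ Rt K e) (ha : a ∈ Rt K e) (h1 : a ∉ U) :
    ∃ c ∈ Rt K e, (∀ u ∈ U, B c u = 0) ∧ B c a = 1 := by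
  obtain ⟨φ, h2, h3⟩ := exists_RD hU ha h1
  obtain ⟨c, h4, rfl⟩ := exists_Rt_dual (Θ := B) (fun x y e => sub_eq_zero.mp
    (h.nd.1 _ fun z => by rw [map_sub, e, sub_self, LinearMap.zero_apply])) h.rat h2
  exact ⟨c, h4, h3⟩

theorem dual3 (ha : a ∈ Rt K e) (hb : b ∈ Rt K e) (hc : c ∈ Rt K e)
    (h1 : c ∉ Submodule.span K {a, b}) : ∃ d ∈ Rt K e, B d a = 0 ∧ B d b = 0 ∧ B d c = 1 := by
  obtain ⟨d, h2, h3, h4⟩ := h.dual (Submodule.span_le.mpr (by
    rintro _ (rfl | rfl); exacts [ha, hb])) hc h1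
  exact ⟨d, h2, h3 a (Submodule.subset_span (by simp)), h3 b (Submodule.subset_span (by simp)), h4⟩

theorem third (ha : a ∈ Rt K e) (hb : b ∈ Rt K e) :
    ∃ c ∈ Rt K e, B a c = 0 ∧ B b c = 0 ∧ c ∉ Submodule.span K {a, b} := by
  obtain ⟨x, ⟨⟨h1, h2⟩, h3⟩, h4⟩ := exists_not_mem_of_finrank_lt (W := Submodule.span K {a, b})
    (U := Rt K e ⊓ kr K (B a) ⊓ kr K (B b)) (by
      have := finrank_le_kr' le_rfl (h.rat a ha)
      have := finrank_le_kr' (U := Rt K e ⊓ kr K (B a)) inf_le_left (h.rat b hb)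
      have := finrank_span_pair_le (F := K) a b
      have := h.hn
      rw [finrank_Rt] at *
      omega)
  exact ⟨x, h1, h2, h3, h4⟩

omit [Finite F] in
theorem tv (ha : a ∈ Rt K e) (hs : s ∈ K) : T M a (s • B a) :=
  T.of_tv (h := by simp [h.alt.self_eq_zero]) (h.mem _ (tv_mem_SG h.alt _ _ _) (nr_of' fun v hv =>
    add_mem hv (smul_mem_Rt (mul_mem hs (h.rat a ha v hv)) ha)))

omit [Finite F] in
theorem sh (ha : a ∈ Rt K e) (hb : b ∈ Rt K e) (e : B a b = 0) : uni _ (sS_sq h.alt e) ∈ M :=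
  h.mem _ (uni_sS_mem h.alt e _) (nr_of' fun v hv => add_mem hv (add_mem
    (smul_mem_Rt (h.rat b hb v hv) ha) (smul_mem_Rt (h.rat a ha v hv) hb)))

/-- Moving rational vectors by rational transvections fixing `a`. -/
theorem move (ha : a ∈ Rt K e) (hb : b ∈ Rt K e) (hc : c ∈ Rt K e) (h1 : B a b = 0)
    (h2 : B a c = 0) (h3 : b ∉ K ∙ a) (h4 : c ∉ K ∙ a) : ∃ g ∈ M, g a = a ∧ g b = c := by
  have key : ∀ b ∈ Rt K e, ∀ c ∈ Rt K e, B a b = 0 → B a c = 0 → B c b ≠ 0 →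
      ∃ g ∈ M, g a = a ∧ g b = c := fun b hb c hc h1 h2 h3 =>
    ⟨_, (h.tv (sub_mem hc hb) (inv_mem (h.rat c hc b hb))).tv_mem,
      by simp [h.alt.isRefl _ _ h1, h.alt.isRefl _ _ h2], by simp [h.alt.self_eq_zero, h3]⟩
  obtain ⟨x, hx, h5, h6⟩ := h.dual ((Submodule.span_singleton_le_iff_mem _ _).mpr ha) hb h3
  obtain ⟨y, hy, h7, h8⟩ := h.dual ((Submodule.span_singleton_le_iff_mem _ _).mpr ha) hc h4
  replace h5 := h.alt.isRefl _ _ (h5 a (Submodule.mem_span_singleton_self a))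
  replace h7 := h.alt.isRefl _ _ (h7 a (Submodule.mem_span_singleton_self a))
  obtain ⟨z, hz, h9, h10, h11⟩ : ∃ z ∈ Rt K e, B a z = 0 ∧ B z b ≠ 0 ∧ B z c ≠ 0 := by
    by_cases h9 : B x c = 0
    · by_cases h10 : B y b = 0
      · exact ⟨x + y, add_mem hx hy, by simp [h5, h7], by simp [h6, h10], by simp [h8, h9]⟩
      · exact ⟨y, hy, h7, h10, by simp [h8]⟩
    · exact ⟨x, hx, h5, by simp [h6], h9⟩
  obtain ⟨g, hg, e1, e2⟩ := key b hb z hz h1 h9 h10
  obtain ⟨g', hg', e3, e4⟩ := key z hz c hc h9 h2 fun e => h11 (h.alt.isRefl _ _ e)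
  exact ⟨g' * g, mul_mem hg' hg, by simp [e1, e3], by simp [e2, e4]⟩

theorem grow (ha : a ∈ Rt K e) (hb : b ∈ Rt K e) (h1 : B a b = 0) (h2 : b ∉ K ∙ a)
    (h3 : SQ B M a (s • b) t) (hc : c ∈ Rt K e) (h4 : B a c = 0) (h5 : c ∉ K ∙ a) :
    SQ B M a (s • c) 0 := by
  have key : ∀ c ∈ Rt K e, B a c = 0 → c ∉ K ∙ a → SQ B M a (s • c) t := fun c hc h4 h5 => by
    obtain ⟨g, hg, e1, e2⟩ := h.move ha hb hc h1 h4 h2 h5
    simpa [e1, e2] using h3.map hg (h.le g hg)
  obtain ⟨d, hd, h6, h7, h8⟩ := h.third ha hc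
  have h9 : ∀ x ∈ K ∙ a, x ∈ Submodule.span K {a, c} := fun x hx =>
    Submodule.span_mono (by simp) hx
  have := (key _ (add_mem hd hc) (by simp [h6, h4]) fun e => h8 ((Submodule.add_mem_iff_left _
    (Submodule.subset_span (by simp))).mp (h9 _ e))).sub h.alt (key d hd h6 fun e => h8 (h9 _ e))
    (by simp [h6, h4]) (by simp [h6])
  simpa [h7, h.alt.self_eq_zero] using this

theorem lev2 {r : ℕ} (hr : r.Prime) (hq : Nat.card F = Nat.card K ^ r) (ha : a ∈ Rt K e)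
    (hb : b ∈ Rt K e) (ha0 : a ≠ 0) (h1 : B a b = 0) (h2 : b ∉ K ∙ a) (h3 : SQ B M a (s • b) t)
    (hs : s ∉ K) : SG B ≤ M := by
  have hA := h.alt
  have sub1 : ∀ {a c x : V}, x ∉ Submodule.span K {a, c} → x ∉ K ∙ a := fun h e =>
    h (Submodule.span_mono (by simp) e)
  have sub2 : ∀ {a c x : V}, x ∉ Submodule.span K {a, c} → x ∉ K ∙ c := fun h e =>
    h (Submodule.span_mono (by simp) e)
  let L : Subalgebra K F :=
    { carrier := {s | ∀ a ∈ Rt K e, ∀ b ∈ Rt K e, a ≠ 0 → B a b = 0 → b ∉ K ∙ a →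
        SQ B M a (s • b) 0}
      mul_mem' := fun {x y} hx hy a ha b hb ha0 h1 h2 => by
        obtain ⟨d, hd, h3, h4, h5⟩ := h.third ha hb
        obtain ⟨c, hc, h6, h7, h8⟩ := h.dual3 ha hb hd h5
        have hc0 : c ≠ 0 := by
          rintro rfl
          simp at h8
        have h9 : R M (sS B c (y • b)) := (hy c hc b hb hc0 h7 fun e => by
          obtain ⟨k, rfl⟩ := Submodule.mem_span_singleton.mp e
          have : (k : F) * B c d = 0 := by simpa using h4
          rw [h8, mul_one] at this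
          exact h2 (by simp [show k = 0 from Subtype.ext this])).congr (by simp)
        have h10 : B c (y • b) = 0 := by simp [h7]
        have := ((hx a ha d hd ha0 h3 (sub1 h5)).map (h9.uni_mem (sS_sq hA h10))
          (uni_sS_mem hA h10 _))
        simp only [uni_apply, sS_apply, map_smul, LinearMap.smul_apply, hA.isRefl _ _ h1, h6, h4,
          h8, smul_zero, zero_smul, add_zero, zero_add, one_smul] at this
        simpa [smul_smul, h4, hA.self_eq_zero] using this.sub hA (hx a ha d hd ha0 h3 (sub1 h5))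
          (by simp [h1, h3]) (by simp [h3])
      add_mem' := fun {x y} hx hy a ha b hb ha0 h1 h2 => by
        have := (SQ.of_T (t := 0) (by simpa using T.zero_right a)).sub hA (hy a ha b hb ha0 h1 h2)
          (by simp) (by simp [h1])
        simpa [add_smul, hA.self_eq_zero] using (hx a ha b hb ha0 h1 h2).sub hA this (by simp [h1])
          (by simp [h1])
      algebraMap_mem' := fun k a ha b hb _ h1 _ => (R.of_uni (h.sh ha (smul_mem_Rt k.2 hb)
        (by simp [h1]))).congr fun x => by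
          change _ = (sS B a ((k : F) • b) + _) x
          simp }
  have hL : s ∈ L := fun x hx y hy hx0 h4 h5 => by
    obtain ⟨d, hd, h6, h7, h8⟩ := h.third ha hx
    have hd0 : d ≠ 0 := by
      rintro rfl
      exact h8 (zero_mem _)
    exact h.grow hx hd h7 (sub2 h8) (h.grow hd ha (hA.isRefl _ _ h6)
      (not_mem_span_swap ha0 (sub1 h8)) (h.grow ha hb h1 h2 h3 hd h6 (sub1 h8)).swap hx
      (hA.isRefl _ _ h7) (not_mem_span_swap hx0 (sub2 h8))).swap hy h4 h5
  replace hL : ∀ s, s ∈ L := fun s => (subalgebra_eq_top hr hq L hL hs).ge trivial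
  have hP : ∀ x ∈ Rt K e, SpP B M x := fun x hx u => by
    by_cases hx0 : x = 0
    · exact hx0 ▸ SpP.zero u
    obtain ⟨c, hc, h4, -, h5⟩ := h.third hx hx
    obtain ⟨d, hd, h6, -, h7⟩ := h.dual3 hx hx hc h5
    have key : ∀ l : F, SQ B M x 0 (l ^ 2) := fun l => by
      have h8 : B x (l • d) = 0 := by simp [hA.isRefl _ _ h6]
      have h9 : R M (sS B x (l • d)) := (hL l x hx d hd hx0 (hA.isRefl _ _ h6) fun e => by
        obtain ⟨k, rfl⟩ := Submodule.mem_span_singleton.mp e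
        have : k • B x c = 1 := by simpa using h7
        simp [h4] at this).congr (by simp)
      have h10 := ((SQ.of_T (h.tv hc (one_mem K))).map (h9.uni_mem (sS_sq hA h8))
        (uni_sS_mem hA h8 _))
      simp only [uni_apply, sS_apply, map_smul, LinearMap.smul_apply, h4, h7, map_zero,
        zero_smul, add_zero, smul_eq_mul, mul_one] at h10
      have h11 : SQ B M x (l • c) (l ^ 2) := (SQ.of_add hA (by simp [h4]) (h10.to_T hA)
        (h.tv hc (one_mem K))).congr fun y => by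
          simp
          module
      simpa [hA.self_eq_zero] using h11.sub hA (hL l x hx c hc hx0 h4 (sub1 h5)) (by simp [h4])
        (by simp [h4])
    obtain ⟨y, z, rfl⟩ := exists_sq_sub_sq u
    exact SQ.to_T hA (by simpa using (key y).sub hA (key z) (by simp) (by simp))
  have := Module.Finite.of_basis e
  obtain ⟨y, hy, -, h4⟩ := h.dual bot_le ha (by simpa using ha0)
  have h5 : B a y ≠ 0 := fun e => by simp [hA.isRefl _ _ e] at h4
  have hay : a ∈ (F ∙ a) ⊔ F ∙ y := Submodule.mem_sup_left (Submodule.mem_span_singleton_self a)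
  have hya : y ∈ (F ∙ a) ⊔ F ∙ y := Submodule.mem_sup_right (Submodule.mem_span_singleton_self y)
  have hG : SpGood B ((F ∙ a) ⊔ F ∙ y) := spGood_of_card hA ⟨s, fun e => hs (e ▸ zero_mem K),
    fun e => hs (e ▸ neg_mem (one_mem K))⟩ hya hay h5
  obtain ⟨U, h6, h7, h8⟩ := sp_max (M := M) hA (U₀ := (F ∙ a) ⊔ F ∙ y) (fun u _ => sp_rad hA hG
    (fun x hx hx' => sp_grow hA (fun u hu => by
      obtain ⟨k, rfl⟩ := Submodule.mem_span_singleton.mp hu
      exact (hP a ha).smul k) (hP y hy) (Submodule.mem_span_singleton_self a) h5 hx hx') ‹_›)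
    (Or.inl hG)
  have h9 : ∀ w ∈ Rt K e, w ∈ U := fun w hw => by
    by_contra h9
    have h10 := (h8 w (hP w hw)).resolve_left h9
    have h11 := (h8 _ (hP _ (add_mem ha hw))).resolve_left (fun e =>
      h9 ((U.add_mem_iff_right (h6 hay)).mp e)) y (h6 hya)
    simp [h4, h10 y (h6 hya)] at h11
  exact sp_le h.nd hA fun x => h7 x (e.sum_repr x ▸ U.sum_mem fun i _ =>
    U.smul_mem _ (h9 _ (basis_mem_Rt i)))

variable {r : ℕ} (hr : r.Prime) (hq : Nat.card F = Nat.card K ^ r) (hc : ¬ SG B ≤ M)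
include hr hq hc

theorem lev1 (ha : a ∈ Rt K e) (ha0 : a ≠ 0) (h1 : T M a (s • B a)) : s ∈ K := by
  by_contra hs
  have hA := h.alt
  obtain ⟨c, h2, h3, -, h4⟩ := h.third ha ha
  replace h4 : c ∉ K ∙ a := by simpa using h4
  have h5 := not_mem_span_swap ha0 h4
  obtain ⟨g, hg, -, e2⟩ := h.move h2 ha (add_mem ha h2) (hA.isRefl _ _ h3)
    (by simp [hA.isRefl _ _ h3, hA.self_eq_zero]) h5 fun e => h5 ((Submodule.add_mem_iff_left _
      (Submodule.mem_span_singleton_self c)).mp e)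
  have h6 : T M (a + c) (s • B (a + c)) := e2 ▸ h1.conj' hg fun x => by simp [h.le g hg a x]
  exact hc (h.lev2 hr hq h2 ha (by rintro rfl; simp at h4) (hA.isRefl _ _ h3) h5
    (SQ.of_add hA (hA.isRefl _ _ h3) h6 h1) hs)

theorem prod_mem (h1 : T M b (B b)) (ha : a ∈ Rt K e) (ha0 : a ≠ 0) (h2 : B a b = 0)
    (hc₁ : c ∈ Rt K e) (hd : d ∈ Rt K e) (h3 : B a c = 0) (h4 : B a d = 0) :
    B c b * B d b ∈ K := by
  have hA := h.alt
  by_cases h5 : d ∈ K ∙ a
  · obtain ⟨k, rfl⟩ := Submodule.mem_span_singleton.mp h5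
    simp [h2]
  have h6 : T M (b + B c b • a) ((1 : F) • B (b + B c b • a)) := by
    simpa [h2] using h1.conj' (h.sh ha hc₁ h3) (ψ := (1 : F) • B (b + B c b • a)) fun x => by
      simpa [h2] using uni_sS_mem hA h3 (sS_sq hA h3) b x
  have h7 : SQ B M a (B c b • b) (B c b ^ 2) :=
    (SQ.of_add hA (by simp [h2]) h6 (by simpa using h1)).congr fun x => by
      simp
      module
  have h8 := (h7.map (h.tv hd (one_mem K)).tv_mem (tv_mem_SG hA _ _ _))
  simp only [tv_apply, map_smul, LinearMap.smul_apply, hA.isRefl _ _ h4, one_smul, zero_smul,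
    add_zero] at h8
  have h9 := h8.sub hA h7 (by simp [h2, h4]) (by simp [h2])
  rw [← smul_sub, add_sub_cancel_left, smul_smul] at h9
  by_contra h10
  exact hc (h.lev2 hr hq ha hd ha0 h4 h5 h9 h10)

theorem rat_of_perp (h1 : T M b (B b)) (ha : a ∈ Rt K e) (ha0 : a ≠ 0) (h2 : B a b = 0) :
    ∃ c : F, c ≠ 0 ∧ c • b ∈ Rt K e := by
  have hA := h.alt
  have hn := h.hn
  have h3 : 3 ≤ finrank K ↥(Rt K e ⊓ kr K (B a) ⊓ kr K (B b)) := by
    have h3 := finrank_le_kr' le_rfl (h.rat a ha)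
    rw [finrank_Rt] at h3
    by_cases h4 : ∃ c ∈ Rt K e ⊓ kr K (B a), B c b ≠ 0
    · obtain ⟨c, h4, h5⟩ := h4
      have := finrank_le_kr (Rt K e ⊓ kr K (B a)) (φ := B b) (c := (B c b)⁻¹) fun u hu =>
        ⟨_, neg_mem (h.prod_mem hr hq hc h1 ha ha0 h2 hu.1 h4.1 hu.2 h4.2), by
          rw [← hA.neg_eq u b]
          field_simp⟩
      omega
    · push Not at h4
      have := finrank_le_kr (Rt K e ⊓ kr K (B a)) (φ := B b) (c := 0) fun u hu =>
        ⟨0, zero_mem K, by simp [hA.isRefl _ _ (h4 u hu)]⟩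
      omega
  have key : ∀ c ∈ Rt K e, ∀ d ∈ Rt K e, B c b * B d b ∈ K := fun c h4 d h5 => by
    obtain ⟨x, ⟨⟨⟨⟨h6, -⟩, h7⟩, h8⟩, h9⟩, h10⟩ := exists_not_mem_of_finrank_lt (W := ⊥)
      (U := Rt K e ⊓ kr K (B a) ⊓ kr K (B b) ⊓ kr K (B c) ⊓ kr K (B d)) (by
        have := finrank_le_kr' (U := Rt K e ⊓ kr K (B a) ⊓ kr K (B b))
          (inf_le_left.trans inf_le_left) (h.rat c h4)
        have := finrank_le_kr' (U := Rt K e ⊓ kr K (B a) ⊓ kr K (B b) ⊓ kr K (B c))
          (inf_le_left.trans (inf_le_left.trans inf_le_left)) (h.rat d h5)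
        simp only [finrank_bot]
        omega)
    exact h.prod_mem hr hq hc h1 h6 (by simpa using h10) (hA.isRefl _ _ h7) h4 h5
      (hA.isRefl _ _ h8) (hA.isRefl _ _ h9)
  by_cases h4 : ∃ c ∈ Rt K e, B c b ≠ 0
  · obtain ⟨c, h4, h5⟩ := h4
    refine ⟨B c b, h5, mem_Rt_of fun φ hφ => ?_⟩
    obtain ⟨d, h6, rfl⟩ := exists_Rt_dual (Θ := B) (fun x y e => sub_eq_zero.mp
      (h.nd.1 _ fun z => by rw [map_sub, e, sub_self, LinearMap.zero_apply])) h.rat hφ
    simpa using key c h4 d h6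
  · push Not at h4
    refine ⟨1, one_ne_zero, ?_⟩
    rw [h.nd.2 b fun x => LinearMap.congr_fun (ext_Rt (f := B.flip b) (g := 0) h4) x, smul_zero]
    exact zero_mem _

theorem nr {g : V ≃ₗ[F] V} (hg : g ∈ M) (ha : a ∈ Rt K e) (ha0 : a ≠ 0) (hb : b ∈ Rt K e)
    (hb0 : b ≠ 0) (h1 : B b (g a) = 0) : g ∈ NR K e := by
  have hT : ∀ x ∈ Rt K e, T M (g x) (B (g x)) := fun x hx =>
    (h.tv hx (one_mem K)).conj' hg fun y => by simp [h.le g hg x y]
  have key : ∀ x ∈ Rt K e, ∀ y : V, y ≠ 0 → (∃ c : F, c ≠ 0 ∧ c • g y ∈ Rt K e) → B y x = 0 →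
      ∃ c : F, c ≠ 0 ∧ c • g x ∈ Rt K e := fun x hx y hy ⟨c, h2, h3⟩ h4 =>
    h.rat_of_perp hr hq hc (hT x hx) h3 (by simp [h2, hy]) (by simp [h.le g hg y x, h4])
  refine nr_of_prop fun x hx => ?_
  obtain ⟨d, hd, h2, h3, h4⟩ := h.third ha hx
  exact key x hx d (by rintro rfl; simp at h4)
    (key d hd a ha0 (h.rat_of_perp hr hq hc (hT a ha) hb hb0 h1) h2) (h.alt.isRefl _ _ h3)

theorem odd (h2 : (2 : F) ≠ 0) : M ≤ NR K e := fun g hg => by
  have hn := h.hn
  have hA := h.alt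
  obtain ⟨i⟩ : Nonempty ι := Fintype.card_pos_iff.mp (by omega)
  have ha := basis_mem_Rt (K := K) (e := e) i
  have h4 : T M (g (e i)) (B (g (e i))) :=
    (h.tv ha (one_mem K)).conj' hg fun y => by simp [h.le g hg _ y]
  have key : ∀ u ∈ Rt K e, B (g (e i)) u ^ 2 ∈ K2 K := fun u hu => by
    by_cases h0 : u = 0
    · simp [h0]
    rw [← neg_mem_iff]
    refine dk (M := M) h2 (N := (B u).smulRight u) (N' := (B (g (e i))).smulRight (g (e i)))
      (by simp [hA.self_eq_zero]) (by simp [hA.self_eq_zero]) (fun x => ?_) (fun x => ?_)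
      (fun s hs => ?_) (by simpa using (h.tv hu (one_mem K)).2) h4.2
    · simp [← hA.neg_eq (g (e i)) u]
      module
    · simp [← hA.neg_eq (g (e i)) u]
      module
    · exact h.lev1 hr hq hc hu h0 (T.of_R hs (by simp [hA.self_eq_zero]) (by simp [smul_smul]))
  obtain ⟨x, ⟨h9, h10⟩, h12⟩ := exists_not_mem_of_finrank_lt (W := ⊥)
    (U := Rt K e ⊓ kr K (B (g (e i)) (e i) • B (g (e i)))) (by
      have := finrank_le_kr2 (Rt K e) (φ := B (g (e i)) (e i) • B (g (e i))) fun u hu => by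
        have := mul_mem (sub_mem (sub_mem (key _ (add_mem ha hu)) (key _ ha)) (key _ hu))
          (K2_inv (natCast_mem (K2 K) 2))
        convert this using 1
        simp
        field_simp
        ring
      rw [finrank_Rt] at *
      simp only [finrank_bot]
      omega)
  rcases mul_eq_zero.mp (show B (g (e i)) (e i) * B (g (e i)) x = 0 from h10) with h11 | h11
  · exact h.nr hr hq hc hg ha (e.ne_zero i) ha (e.ne_zero i) (hA.isRefl _ _ h11)
  · exact h.nr hr hq hc hg ha (e.ne_zero i) h9 (by simpa using h12) (hA.isRefl _ _ h11)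

theorem even (h2 : (2 : F) = 0) : M ≤ NR K e := by
  have := Module.Finite.of_basis e
  have : Finite V := Module.finite_of_finite F
  have : Finite (V ≃ₗ[F] V) := Finite.of_injective _ DFunLike.coe_injective
  have hA := h.alt
  have hn := h.hn
  obtain ⟨i⟩ : Nonempty ι := Fintype.card_pos_iff.mp (by omega)
  have ha := basis_mem_Rt (K := K) (e := e) i
  have ha0 := e.ne_zero i
  generalize e i = a at ha ha0
  obtain ⟨c, hc₁, h3, -, h4⟩ := h.third ha ha
  replace h4 : c ∉ K ∙ a := by simpa using h4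
  obtain ⟨x, -, h5, h6⟩ := h.dual ((Submodule.span_singleton_le_iff_mem _ _).mpr ha) hc₁ h4
  obtain ⟨y, -, h7, h8⟩ := h.dual ((Submodule.span_singleton_le_iff_mem _ _).mpr hc₁) ha
    (not_mem_span_swap ha0 h4)
  replace h5 := h5 a (Submodule.mem_span_singleton_self a)
  replace h7 := h7 c (Submodule.mem_span_singleton_self c)
  have h0 : ∀ x : V, x + x = 0 := fun x => by rw [← two_smul F, h2, zero_smul]
  refine se2 (fun g hg z hz hz' hz1 hz2 h3 => ?_) (h.tv ha (one_mem K)).tv_mem (h.sh ha hc₁ h3)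
    (nr_of' fun v hv => add_mem hv (smul_mem_Rt (by simpa using h.rat a ha v hv) ha))
    (nr_of' fun v hv => add_mem hv (add_mem
      (smul_mem_Rt (h.rat c hc₁ v hv) ha) (smul_mem_Rt (h.rat a ha v hv) hc₁)))
    (fun e1 => ?_) (fun e1 => ?_) ?_ ?_ fun g _ e1 => ?_
  · have h4 : g⁻¹ * z * g * (g⁻¹ * z * g) = 1 := by
      rw [show g⁻¹ * z * g * (g⁻¹ * z * g) = g⁻¹ * (z * z) * g by group, hz2]
      simp
    obtain ⟨v, hv, h5⟩ := exists_moved (K := K) (e := e) (z := g⁻¹ * z * g)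
      fun e => hz1 (by simpa [mul_eq_one_iff_eq_inv', inv_mul_eq_iff_eq_mul] using e)
    obtain ⟨w, hw, h8⟩ := exists_moved (K := K) (e := e) hz1
    refine h.nr hr hq hc hg (sub_mem (nr_invol h2 h3 h4 hv) hv) h5
      (sub_mem (nr_invol h2 hz' hz2 hw) hw) h8 ?_
    have : z (g ((g⁻¹ * z * g) v - v)) = g ((g⁻¹ * z * g) v - v) := by
      simpa using invol_fix h2 hz2 (g v)
    rw [map_sub, LinearMap.sub_apply, ← h.le z hz w, this, sub_self]
  · simpa [ha0, ← hA.neg_eq y a, h8] using LinearEquiv.congr_fun e1 y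
  · simpa [ha0, ← hA.neg_eq x a, ← hA.neg_eq x c, h5, h6] using LinearEquiv.congr_fun e1 x
  · ext x
    simp [add_assoc, h0, hA.self_eq_zero]
  · ext x
    simp [add_assoc, h0, hA.self_eq_zero, h3, hA.isRefl _ _ h3]
  · have h9 := LinearEquiv.congr_fun e1 x
    have h10 := LinearEquiv.congr_fun e1 y
    simp [← hA.neg_eq x a, ← hA.neg_eq x c, ← hA.neg_eq y a, ← hA.neg_eq y c, h5, h6, h7,
      h8] at h9 h10
    have h11 := congrArg (B y) h9
    have h12 := congrArg (B y) h10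
    have h13 := congrArg (B x) h10
    simp [h6, h7, h8] at h11 h12 h13
    rcases h12 with h12 | h12 <;> simp [h12] at h11 h13

end SubSp

theorem max_sp_subfield {m : ℕ} (hm : 3 ≤ m) {r : ℕ} (hr : r.Prime)
    (hq : Nat.card F = Nat.card K ^ r) (P : GL (Fin m ⊕ Fin m) F) {ζ : F} (hζ : ζ ≠ 0)
    (hP : Geo.IsFormRationalStructure (sympForm m F) K ζ P) :
    Geo.IsMaximalIn (spGL m F) (Geo.subfieldSubgroup K P ⊓ spGL m F) := by
  have hS : ∀ g, g ∈ SG (ζ • sB (Fin m) F) ↔ g ∈ SG (sB (Fin m) F) := fun g =>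
    forall₂_congr fun u v => by simp [hζ]
  have hh : ∀ M, (∀ g ∈ M, g ∈ SG (sB (Fin m) F)) → (∀ g, g ∈ SG (sB (Fin m) F) →
      g ∈ NR K ((Pi.basisFun F _).map (Orth.glEquiv _ F P)) → g ∈ M) →
      SubSp (ζ • sB (Fin m) F) K ((Pi.basisFun F _).map (Orth.glEquiv _ F P)) M := fun M h1 h2 =>
    ⟨by simp; omega, ⟨fun x hx => sB_nondeg.1 x fun y => by simpa [hζ] using hx y,
      fun x hx => sB_nondeg.2 x fun y => by simpa [hζ] using hx y⟩,
      fun x => by simp [sB_alt x], fun u hu v hv => by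
        have := hP _ _ (mem_Rt.mp hu) (mem_Rt.mp hv)
        have key : ∀ w, (P : Matrix _ _ F).mulVec (fun i =>
            ((Pi.basisFun F _).map (Orth.glEquiv _ F P)).repr w i) = w :=
          (Orth.glEquiv _ F P).apply_symm_apply
        simp only [key, sympForm_eq'] at this
        exact this,
      fun g hg => (hS g).mpr (h1 g hg), fun g hg => h2 g ((hS g).mp hg)⟩
  refine isMaximalIn_Sp _ (mem_subfield_iff P) ?_ fun M h1 h2 ⟨g, hg, hg'⟩ => ?_
  · obtain ⟨s, hs⟩ := exists_not_mem_subfield hr hq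
    have h := hh (SG _ ⊓ NR K _) (fun g hg => hg.1) fun g h1 h2 => ⟨h1, h2⟩
    generalize (Pi.basisFun F _).map (Orth.glEquiv _ F P) = e at h
    have ha := basis_mem_Rt (K := K) (e := e) (Sum.inl ⟨0, by omega⟩)
    have ha0 := e.ne_zero (Sum.inl ⟨0, by omega⟩)
    generalize e (Sum.inl ⟨0, by omega⟩) = a at ha ha0
    obtain ⟨y, hy, -, h4⟩ := h.dual bot_le ha (by simpa using ha0)
    refine ⟨_, (hS _).mp (tv_mem_SG h.alt y s (by simp [sB_alt y])), fun ⟨c, hc, h1⟩ => hs ?_⟩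
    have hy0 : y ≠ 0 := by
      rintro rfl
      simp at h4
    have h2 : c ∈ K := mem_of_smul_mem hy hy0 (by simpa [sB_alt y] using (h1 y).mp hy)
    have h3 := sub_mem ((h1 a).mp ha) (smul_mem_Rt h2 ha)
    rw [tv_apply, LinearMap.smul_apply, h4, smul_add, add_sub_cancel_left, smul_smul] at h3
    simpa [hc] using div_mem (mem_of_smul_mem hy hy0 h3) h2
  · by_contra hc
    replace hc : ¬ SG (ζ • sB (Fin m) F) ≤ M := fun e => hc fun g hg => e ((hS g).mpr hg)
    by_cases h3 : (2 : F) = 0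
    exacts [hg' ((hh M h2 h1).even hr hq hc h3 hg), hg' ((hh M h2 h1).odd hr hq hc h3 hg)]

end Cfsg.Agent.Max
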