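import Mathlib
import Cfsg.Prelude.Def_Solvable
import Cfsg.Agent.Max.SubSp
import Cfsg.Agent.Orth.Inv2Mat
import Cfsg.Agent.Orth.Omega

/-!
# Irreducible subgroups of `Sp` in characteristic two containing long root quotient groups
-/

set_option autoImplicit false
set_option linter.unusedSectionVars false

namespace Cfsg.Agent.Max

open Module Classical.SpWitt

variable {F V : Type*} [Field F] [AddCommGroup V] [Module F V] {L : Subgroup (V ≃ₗ[F] V)}
  {B : LinearMap.BilinForm F V} [CharP F 2] [Finite F] [FiniteDimensional F V]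

/-- The standing hypotheses. -/
structure SU (B : LinearMap.BilinForm F V) (L : Subgroup (V ≃ₗ[F] V)) : Prop where
  nd : B.Nondegenerate
  alt : B.IsAlt
  le : ∀ g ∈ L, g ∈ SG B
  irr : ∀ U : Submodule F V, (∀ g ∈ L, ∀ w ∈ U, g w ∈ U) → U = ⊥ ∨ U = ⊤

/-- The group covers the quotient of the unipotent radical of the stabiliser of `x`. -/
def PUq (B : LinearMap.BilinForm F V) (L : Subgroup (V ≃ₗ[F] V)) (x : V) : Prop :=
  x ≠ 0 ∧ ∀ w, B x w = 0 → ∃ c, SQ B L x w c

theorem su_two : (2 : F) = 0 := CharTwo.two_eq_zero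

theorem su_add_self (F : Type*) [Field F] [CharP F 2] [Module F V] (v : V) : v + v = 0 := by
  rw [← two_smul F, (CharTwo.two_eq_zero : (2 : F) = 0), zero_smul]

theorem SQ.shift {x w : V} {c : F} (h : SQ B L x w c) (ν : F) : SQ B L x (w + ν • x) c :=
  h.congr fun z => by
    simp
    match_scalars <;> grind

theorem SQ.smul_left {x w : V} {c μ : F} (h : SQ B L x (μ • w) (μ ^ 2 * c)) :
    SQ B L (μ • x) w c :=
  h.congr fun z => by
    simp
    module

theorem SQ.ex {x w : V} {c : F} (h : SQ B L x w c) :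
    ∃ g ∈ L, ∀ z, g z = z + B w z • x + B x z • w + (c * B x z) • x := by
  obtain ⟨g, hg, e⟩ := h
  exact ⟨g, hg, fun z => by
    rw [e]
    simp
    module⟩

theorem SQ.zero (x : V) : SQ B L x 0 0 := R.zero.congr fun z => by simp

theorem PUq.smul {x : V} (h : PUq B L x) {μ : F} (hμ : μ ≠ 0) : PUq B L (μ • x) :=
  ⟨smul_ne_zero hμ h.1, fun w hw => by
    obtain ⟨c, hc⟩ := h.2 (μ • w) (by simpa [hμ] using hw)
    exact ⟨c / μ ^ 2, SQ.smul_left (by rwa [mul_div_cancel₀ _ (pow_ne_zero 2 hμ)])⟩⟩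

namespace SU
variable (h : SU B L) {x y z w w' : V} {c c' γ μ : F}
include h

theorem symm (u v : V) : B u v = B v u := by
  rw [← h.alt.neg_eq u v, CharTwo.neg_eq]

theorem self (u : V) : B u u = 0 := h.alt.self_eq_zero u

theorem add (h1 : SQ B L x w c) (h2 : SQ B L x w' c') (e : B x w = 0) (e' : B x w' = 0) :
    SQ B L x (w + w') (c + c' + B w w') := by
  have := h1.sub h.alt h2 e e'
  rwa [CharTwo.sub_eq_add, CharTwo.sub_eq_add, sub_eq_add_neg,
    neg_eq_of_add_eq_zero_left (su_add_self F w')] at this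

theorem map (hx : PUq B L x) {g : V ≃ₗ[F] V} (hg : g ∈ L) : PUq B L (g x) :=
  ⟨by simpa using hx.1, fun w hw => by
    obtain ⟨c, hc⟩ := hx.2 (g.symm w) (by rw [← h.le g hg]; simpa using hw)
    exact ⟨c, by simpa using hc.map hg (h.le g hg)⟩⟩

theorem act (h1 : SQ B L x w c) (hz : PUq B L z) :
    PUq B L (z + B w z • x + B x z • w + (c * B x z) • x) := by
  obtain ⟨g, hg, e⟩ := h1.ex
  exact e z ▸ h.map hz hg

theorem dual1 (hz : z ∉ F ∙ x) (s : F) : ∃ v, B x v = 0 ∧ B v z = s := by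
  obtain ⟨v, h1, h2⟩ := sp_exists_orth h.nd _ hz
  exact ⟨s • v, by simp [h.symm x v, h1 x (Submodule.mem_span_singleton_self x)], by simp [h2]⟩

theorem line_ex (hx : PUq B L x) (e : B x z = 0) (hz : z ∉ F ∙ x) (ν : F) :
    ∃ g ∈ L, g x = x ∧ g z = z + ν • x := by
  obtain ⟨v, h1, h2⟩ := h.dual1 hz ν
  obtain ⟨c, hc⟩ := hx.2 v h1
  obtain ⟨g, hg, e'⟩ := hc.ex
  exact ⟨g, hg, by simp [e', h.self, h.symm v x, h1], by simp [e', e, h2]⟩

theorem line (hx : PUq B L x) (hz : PUq B L z) (e : B x z = 0) (hz' : z ∉ F ∙ x) (ν : F) :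
    PUq B L (z + ν • x) := by
  obtain ⟨g, hg, -, e'⟩ := h.line_ex hx e hz' ν
  exact e' ▸ h.map hz hg

theorem exists_pair {S : V → Prop} (hS : ∀ g ∈ L, ∀ v, S v → S (g v)) (hx : S x) (h0 : x ≠ 0)
    {u : V} (hu : u ≠ 0) : ∃ y, S y ∧ B u y ≠ 0 := by
  by_contra hc
  push Not at hc
  let U : Submodule F V :=
    { carrier := {v | ∀ y, S y → B v y = 0}
      add_mem' := fun ha hb y hy => by simp [ha y hy, hb y hy]
      zero_mem' := fun y _ => by simp
      smul_mem' := fun k v hv y hy => by simp [hv y hy] }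
  rcases h.irr U (fun g hg v hv y hy => by
    have := hv _ (hS _ (inv_mem hg) y hy)
    rw [← h.le g hg] at this
    simpa using this) with e | e
  · exact hu (by simpa [e] using show u ∈ U from hc)
  · exact h0 (h.nd.2 x fun v => (show v ∈ U from e ▸ Submodule.mem_top) x hx)

theorem full (hx : PUq B L x) (hx' : SpP B L x) : SG B ≤ L := by
  have step : ∀ u y v, PUq B L u ∧ SpP B L u → PUq B L y ∧ SpP B L y → B u y ≠ 0 → B u v ≠ 0 →
      PUq B L v ∧ SpP B L v := fun u y v hu hy h1 h2 => by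
    have h3 : B u v / B u y ≠ 0 := div_ne_zero h2 h1
    have hy' : PUq B L ((B u v / B u y) • y) ∧ SpP B L ((B u v / B u y) • y) :=
      ⟨hy.1.smul h3, hy.2.smul _⟩
    have h4 : B u ((B u v / B u y) • y) = B u v := by simp [h1]
    generalize (B u v / B u y) • y = y at hy' h4
    have h5 : B u ((B u v)⁻¹ • (v - y)) = 0 := by simp [h4]
    obtain ⟨c, hc⟩ := hu.1.2 _ h5
    obtain ⟨g, hg, e⟩ := (h.add hc (SQ.of_T (hu.2 (c + B ((B u v)⁻¹ • (v - y)) y / B u v))) h5
      (by simp)).ex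
    have e' : g y = v := by
      rw [e, h4]
      simp only [add_zero, map_zero]
      generalize B ((B u v)⁻¹ • (v - y)) y = s
      match_scalars <;> grind
    exact e' ▸ ⟨h.map hy'.1 hg, hy'.2.map hg (h.le g hg)⟩
  obtain ⟨y, hy, h1⟩ := h.exists_pair (S := fun v => PUq B L v ∧ SpP B L v)
    (fun g hg v hv => ⟨h.map hv.1 hg, hv.2.map hg (h.le g hg)⟩) ⟨hx, hx'⟩ hx.1 hx.1
  refine sp_le h.nd h.alt fun v => ?_
  by_cases hv : v = 0
  · exact hv ▸ SpP.zero
  obtain ⟨a, ha⟩ := exists_one h.nd h.alt.isRefl hv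
  obtain ⟨u, h2, h3⟩ : ∃ u, B x u ≠ 0 ∧ B v u ≠ 0 := by
    by_cases h2 : B x a = 0
    · by_cases h3 : B v y = 0
      · exact ⟨a + y, by simpa [h2] using h1, by simp [ha, h3]⟩
      · exact ⟨y, h1, h3⟩
    · exact ⟨a, h2, by simp [ha]⟩
  exact (step u x v (step x y u ⟨hx, hx'⟩ hy h1 h2) ⟨hx, hx'⟩ (h.symm x u ▸ h2)
    (h.symm v u ▸ h3)).2

theorem star (h1 : SQ B L x (μ • z) c) (hz : PUq B L z) (e : B x z = 0) (hx : x ∉ F ∙ z) (s : F) :
    SQ B L z ((c * s) • x) (c * s ^ 2) := by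
  obtain ⟨v, h2, h3⟩ := h.dual1 hx s
  obtain ⟨d, hd⟩ := hz.2 v h2
  obtain ⟨g, hg, e'⟩ := h1.ex
  have h4 := hd.map hg (h.le g hg)
  have h5 : B x v = s := by rw [h.symm, h3]
  have h6 : g z = z := by simp [e', e, h.self]
  have h7 : g v = (v + (c * s) • x) + (s * μ) • z := by
    rw [e']
    simp [h2, h5]
    module
  rw [h6, h7] at h4
  have h8 := h.add (h4.shift (s * μ)) hd (by simp [h2, h.symm z x, e, h.self]) h2
  convert h8 using 1
  · match_scalars <;> grind
  · simp [h.self, h5, h2]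
    grind

end SU

/-- The key vanishing property. -/
def HK (B : LinearMap.BilinForm F V) (L : Subgroup (V ≃ₗ[F] V)) : Prop :=
  ∀ x z, PUq B L x → PUq B L z → B x z = 0 → z ∉ F ∙ x → ∀ μ c : F, SQ B L x (μ • z) c → c = 0

theorem su_sq_surj (a : F) : ∃ b : F, b ^ 2 = a := by
  obtain ⟨b, hb⟩ := FiniteField.isSquare_of_char_two (F := F) (ringChar.eq F 2) a
  exact ⟨b, by rw [hb, pow_two]⟩

namespace SU
variable (h : SU B L) {x y z w w' : V} {c c' γ μ : F}
include h

theorem star' (h1 : SQ B L x (μ • z) c) (hc : c ≠ 0) (hz : PUq B L z) (e : B x z = 0)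
    (hx : x ∉ F ∙ z) (ν : F) : SQ B L z (ν • x) (ν ^ 2 / c) := by
  convert h.star h1 hz e hx (ν / c) using 1
  · congr 1
    field_simp
  · field_simp

theorem hk (hT : ∀ x, PUq B L x → ¬ SpP B L x)
    (hq : (∃ a : F, a ≠ 0 ∧ a ≠ 1) ∨ 5 ≤ finrank F V) : HK B L := by
  intro x z hx hz e hzx μ c h1
  by_contra hc
  have hxz : x ∉ F ∙ z := not_mem_span_swap hx.1 hzx
  have e' : B z x = 0 := h.symm x z ▸ e
  have h2 := h.star' h1 hc hz e hxz
  rcases hq with ⟨a, ha0, ha1⟩ | hn
  · refine hT x hx fun t => SQ.to_T h.alt ?_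
    have h3 := h.star' (h2 1) (by simpa using hc) hx e' hzx
    have h4 := h.star' (h2 a) (div_ne_zero (pow_ne_zero 2 ha0) hc) hx e' hzx
    have h5 : 1 + a ^ 2 ≠ 0 := fun e => ha1 (by
      have : (a - 1) ^ 2 = 0 := by grind
      exact sub_eq_zero.mp (pow_eq_zero_iff two_ne_zero |>.mp this))
    obtain ⟨b, hb⟩ := su_sq_surj (t * a ^ 2 / (c * (1 + a ^ 2)))
    convert h.add (h3 b) (h4 b) (by simp [e]) (by simp [e]) using 1
    · exact (su_add_self F _).symm
    · rw [hb]
      simp [h.self]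
      field_simp
      ring
  · obtain ⟨v, ⟨⟨-, hv1⟩, hv2⟩, hv3⟩ := exists_not_mem_of_finrank_lt (W := Submodule.span F {x, z})
      (U := ⊤ ⊓ LinearMap.ker (B x) ⊓ LinearMap.ker (B z)) (by
        have := finrank_le_inf_ker ⊤ (B x)
        have := finrank_le_inf_ker (⊤ ⊓ LinearMap.ker (B x)) (B z)
        have := finrank_span_pair_le (F := F) x z
        rw [finrank_top] at *
        omega)
    replace hv1 : B x v = 0 := hv1
    replace hv2 : B z v = 0 := hv2
    obtain ⟨u, hu1, hu2⟩ := sp_exists_orth h.nd _ hv3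
    have hux : B u x = 0 := hu1 x (Submodule.subset_span (by simp))
    have huz : B u z = 0 := hu1 z (Submodule.subset_span (by simp))
    refine hT z hz fun t => SQ.to_T h.alt ?_
    obtain ⟨b, hb⟩ := su_sq_surj (t * c)
    obtain ⟨d, hd⟩ := hz.2 v hv2
    obtain ⟨d', hd'⟩ := hx.2 (b • u) (by simp [h.symm x u, hux])
    obtain ⟨g, hg, eg⟩ := hd'.ex
    have h4 := hd.map hg (h.le g hg)
    rw [show g z = z by simp [eg, huz, e], show g v = v + b • x by simp [eg, hu2, hv1]] at h4
    have h5 := h.add (h.add h4 hd (by simp [hv2, e']) hv2) (h2 b) (by simp [hv2, e'])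
      (by simp [e'])
    convert h5 using 1
    · match_scalars <;> grind
    · rw [hb]
      simp [h.self, hv1, h.symm v x, hc]
      grind

end SU

theorem su_hua {k l : F → F} (hk : ∀ s t, k (s + t) = k s + k t)
    (hl : ∀ s t, l (s + t) = l s + l t) (e : ∀ t, t ≠ 0 → k t = t * l t⁻¹) (u : F) :
    l (u ^ 2) = u * l 1 := by
  by_cases h0 : u = 0
  · have := hl 0 0
    rw [add_zero, CharTwo.add_self_eq_zero] at this
    simp [h0, this]
  by_cases h1 : u = 1
  · simp [h1]
  have h2 : 1 + u ≠ 0 := fun e => h1 (by grind)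
  have h3 := hk u⁻¹ (1 + u)⁻¹
  have h4 : u⁻¹ + (1 + u)⁻¹ = (u + u ^ 2)⁻¹ := by grind
  have h5 : u + u ^ 2 ≠ 0 := by
    rw [show u + u ^ 2 = u * (1 + u) by ring]
    exact mul_ne_zero h0 h2
  rw [h4, e _ (inv_ne_zero h5), e _ (inv_ne_zero h0), e _ (inv_ne_zero h2), inv_inv, inv_inv,
    inv_inv, hl, hl] at h3
  grind

/-- A hyperbolic pair of good vectors. -/
structure HP (B : LinearMap.BilinForm F V) (L : Subgroup (V ≃ₗ[F] V)) (x y : V) : Prop where
  hx : PUq B L x
  hy : PUq B L y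
  one : B x y = 1

/-- The conclusions needed for the construction of the quadratic form. -/
structure GP (B : LinearMap.BilinForm F V) (L : Subgroup (V ≃ₗ[F] V)) (x y : V) : Prop where
  t0 : ∀ c, SQ B L x 0 c → c = 0
  g0 : ∀ γ : F, PUq B L (y + γ • x) → γ = 0
  quad : ∀ w c μ, B x w = 0 → B y w = 0 → SQ B L x w c → SQ B L x (μ • w) (μ ^ 2 * c)

namespace SU
variable (h : SU B L) {x y z w w' : V} {c c' γ μ : F}
include h

theorem uniq (t0 : ∀ c, SQ B L x 0 c → c = 0) (h1 : SQ B L x w c) (h2 : SQ B L x w c')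
    (e : B x w = 0) : c = c' := by
  have := h.add h1 h2 e e
  rw [su_add_self F, h.self] at this
  have := t0 _ this
  grind

variable (H : HP B L x y)
include H

theorem swap : HP B L y x := ⟨H.hy, H.hx, h.symm x y ▸ H.one⟩

theorem a1 (h1 : SQ B L x w c) (e : B y w = 0) (e' : B x w = 0) (h2 : PUq B L (y + γ • x)) :
    PUq B L (y + w + (c + γ) • x) := by
  convert h.act h1 h2 using 1
  simp [H.one, h.self, h.symm w, e, e']
  module

theorem a2 (h1 : SQ B L x w c) (e : B y w = 0) (e' : B x w = 0) (h2 : PUq B L (y + w + γ • x)) :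
    PUq B L (y + (c + γ) • x) := by
  convert h.act h1 h2 using 1
  simp [H.one, h.self, h.symm w, e, e']
  match_scalars <;> grind

theorem nmem (e : B y w = 0) (h0 : w ≠ 0) : w ∉ F ∙ x := fun hw => by
  obtain ⟨k, rfl⟩ := Submodule.mem_span_singleton.mp hw
  have : k = 0 := by simpa [h.symm y x, H.one] using e
  exact h0 (by simp [this])

theorem yw (e : B x w = 0) (e' : B y w = 0) (h0 : w ≠ 0) : PUq B L (y + w) ↔ PUq B L w := by
  have h1 := h.nmem (h.swap H) e h0
  constructor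
  · intro h2
    convert h.line H.hy h2 (by simp [e', h.self]) (fun hw => h1
      ((Submodule.add_mem_iff_right _ (Submodule.mem_span_singleton_self y)).mp hw)) 1 using 1
    match_scalars <;> grind
  · intro h2
    convert h.line H.hy h2 e' h1 1 using 1
    module

theorem dualW (e : B x w = 0) (e' : B y w = 0) (h0 : w ≠ 0) :
    ∃ v, B x v = 0 ∧ B y v = 0 ∧ B w v = 1 := by
  obtain ⟨v, hv⟩ := exists_one h.nd h.alt.isRefl h0
  exact ⟨v + B x v • y + B y v • x, by simp [H.one, h.self]; grind,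
    by simp [H.one, h.self, h.symm y x]; grind, by simp [hv, h.symm w x, h.symm w y, e, e']⟩

theorem caseB (hK : HK B L) (hw : PUq B L w) (e : B x w = 0) (e' : B y w = 0) : GP B L x y := by
  have t0 : ∀ c, SQ B L x 0 c → c = 0 := fun c hc =>
    hK x w H.hx hw e (h.nmem H e' hw.1) 0 c (by simpa using hc)
  have Z : ∀ v, PUq B L v → B x v = 0 → B y v = 0 → ∀ μ : F, SQ B L x (μ • v) 0 :=
    fun v hv e e' μ => by
      obtain ⟨c, hc⟩ := H.hx.2 (μ • v) (by simp [e])
      exact hK x v H.hx hv e (h.nmem H e' hv.1) μ c hc ▸ hc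
  obtain ⟨v, hv1, hv2, hv3⟩ := h.dualW H e e' hw.1
  have Z' : ∀ v, B x v = 0 → B y v = 0 → SQ B L x v 0 → ∀ μ : F, SQ B L x (μ • v) 0 :=
    fun v e e' hv μ => by
      by_cases h0 : v = 0
      · simpa [h0] using SQ.zero x
      exact Z v ((h.yw H e e' h0).mp (by
        simpa using h.a1 H (γ := 0) hv e' e (by simpa using H.hy))) e e' μ
  refine ⟨t0, fun γ hγ => ?_, ?_⟩
  · obtain ⟨c, hc⟩ := H.hx.2 v hv1
    have h1 := h.add hc (Z w hw e e' (c + γ)) hv1 (by simp [e])
    rw [show c + 0 + B v ((c + γ) • w) = γ by simp [h.symm v w, hv3]; grind] at h1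
    have h2 : B x (v + (c + γ) • w) = 0 := by simp [e, hv1]
    have h3 : B y (v + (c + γ) • w) = 0 := by simp [e', hv2]
    have h4 : v + (c + γ) • w ≠ 0 := fun e => by simpa [h.self, hv3] using congrArg (B w) e
    generalize v + (c + γ) • w = u at h1 h2 h3 h4
    have h5 := h.a1 H h1 h3 h2 hγ
    rw [CharTwo.add_self_eq_zero, zero_smul, add_zero] at h5
    exact hK x u H.hx ((h.yw H h2 h3 h4).mp h5) h2 (h.nmem H h3 h4) 1 γ (by simpa using h1)
  have Dadd : ∀ u u', B x u = 0 → B x u' = 0 →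
      (∀ c μ, SQ B L x u c → SQ B L x (μ • u) (μ ^ 2 * c)) →
      (∀ c μ, SQ B L x u' c → SQ B L x (μ • u') (μ ^ 2 * c)) →
      ∀ c μ, SQ B L x (u + u') c → SQ B L x (μ • (u + u')) (μ ^ 2 * c) :=
    fun u u' e e' h1 h2 c μ h3 => by
      obtain ⟨d, hd⟩ := H.hx.2 u e
      obtain ⟨d', hd'⟩ := H.hx.2 u' e'
      rw [h.uniq t0 h3 (h.add hd hd' e e') (by simp [e, e']), smul_add]
      convert h.add (h1 d μ hd) (h2 d' μ hd') (by simp [e]) (by simp [e']) using 1
      simp
      ring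
  have D0 : ∀ u, B x u = 0 → B y u = 0 → SQ B L x u 0 →
      ∀ c μ, SQ B L x u c → SQ B L x (μ • u) (μ ^ 2 * c) := fun u e e' h1 c μ h2 => by
    simpa [h.uniq t0 h2 h1 e] using Z' u e e' h1 μ
  have D1 : ∀ u, B x u = 0 → B y u = 0 → B u w ≠ 0 →
      ∀ c μ, SQ B L x u c → SQ B L x (μ • u) (μ ^ 2 * c) := fun u h1 h2 h3 c μ h4 => by
    have h5 := Z w hw e e' (c / B u w)
    have h6 := h.add h4 h5 h1 (by simp [e])
    rw [show c + 0 + B u ((c / B u w) • w) = 0 by simp [h3]; grind] at h6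
    have := Dadd _ _ (by simp [e, h1]) (by simp [e])
      (D0 _ (by simp [e, h1]) (by simp [e', h2]) h6) (D0 _ (by simp [e]) (by simp [e']) h5) c μ
    rw [add_assoc, su_add_self F, add_zero] at this
    exact this h4
  intro u c μ h1 h2 h3
  by_cases h4 : B u w = 0
  · have := Dadd _ _ (by simp [hv1, h1]) hv1 (D1 (u + v) (by simp [hv1, h1]) (by simp [hv2, h2])
      (by simp [h4, h.symm v w, hv3])) (D1 v hv1 hv2 (by simp [h.symm v w, hv3])) c μ
    rw [add_assoc, su_add_self F, add_zero] at this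
    exact this h3
  · exact D1 u h1 h2 h4 c μ h3

variable (hA : ∀ w, B x w = 0 → B y w = 0 → ¬ PUq B L w)
include hA

theorem nz (h1 : SQ B L x w c) (e : B x w = 0) (e' : B y w = 0) (h2 : PUq B L (y + c • x)) :
    w = 0 := by
  by_contra h0
  have h5 := h.a1 H h1 e' e h2
  rw [CharTwo.add_self_eq_zero, zero_smul, add_zero] at h5
  exact hA w e e' ((h.yw H e e' h0).mp h5)

theorem inj (e : B x w = 0) (e' : B y w = 0) (h0 : w ≠ 0) {μ' : F} (h1 : SQ B L x (μ • w) c)
    (h2 : SQ B L x (μ' • w) c) : μ = μ' := by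
  have h3 := h.add h1 h2 (by simp [e]) (by simp [e])
  rw [← add_smul, show c + c + B (μ • w) (μ' • w) = 0 by simp [h.self]; grind] at h3
  have := (smul_eq_zero.mp (h.nz H hA h3 (by simp [e]) (by simp [e'])
    (by simpa using H.hy))).resolve_right h0
  grind

theorem surj (e : B x w = 0) (e' : B y w = 0) (h0 : w ≠ 0) :
    ∃ f : F → F, (∀ μ, SQ B L x (μ • w) (f μ)) ∧ Function.Surjective f := by
  choose f hf using fun μ : F => H.hx.2 (μ • w) (by simp [e])
  exact ⟨f, hf, Finite.surjective_of_injective fun μ μ' e'' =>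
    h.inj H hA e e' h0 (hf μ) (e'' ▸ hf μ')⟩

theorem tg (e : B x w = 0) (e' : B y w = 0) (h0 : w ≠ 0) :
    (∀ c, SQ B L x 0 c → c = 0) ∧ ∀ γ : F, PUq B L (y + γ • x) → γ = 0 := by
  obtain ⟨f, hf, hs⟩ := h.surj H hA e e' h0
  have key : ∀ γ : F, PUq B L (y + γ • x) → γ = f 0 := fun γ hγ => by
    obtain ⟨μ, rfl⟩ := hs γ
    rw [(smul_eq_zero.mp (h.nz H hA (hf μ) (by simp [e]) (by simp [e']) hγ)).resolve_right h0]
  have h1 : f 0 = 0 := (key 0 (by simpa using H.hy)).symm
  exact ⟨fun c hc => h1 ▸ key c (by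
    simpa using h.a1 H (γ := 0) hc (by simp) (by simp) (by simpa using H.hy)),
    fun γ hγ => h1 ▸ key γ hγ⟩

theorem caseA (hn : 3 ≤ finrank F V) : GP B L x y := by
  have hA' : ∀ w, B y w = 0 → B x w = 0 → ¬ PUq B L w := fun w e e' => hA w e' e
  have H' := h.swap H
  obtain ⟨v, ⟨⟨-, hv1⟩, hv2⟩, hv3⟩ := exists_not_mem_of_finrank_lt (W := ⊥)
    (U := ⊤ ⊓ LinearMap.ker (B x) ⊓ LinearMap.ker (B y)) (by
      have := finrank_le_inf_ker ⊤ (B x)
      have := finrank_le_inf_ker (⊤ ⊓ LinearMap.ker (B x)) (B y)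
      rw [finrank_top] at *
      rw [finrank_bot]
      omega)
  obtain ⟨t0, g0⟩ := h.tg H hA hv1 hv2 (by simpa using hv3)
  refine ⟨t0, g0, fun w c μ e e' h1 => ?_⟩
  by_cases h0 : w = 0
  · subst h0
    simpa [t0 c h1] using SQ.zero x
  obtain ⟨f, hf, hs⟩ := h.surj H hA e e' h0
  obtain ⟨f', hf', hs'⟩ := h.surj H' hA' e' e h0
  choose l hl using hs
  choose k hk using hs'
  replace hl : ∀ t, SQ B L x (l t • w) t := fun t => by simpa [hl] using hf (l t)
  replace hk : ∀ t, SQ B L y (k t • w) t := fun t => by simpa [hk] using hf' (k t)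
  have h2 := su_hua (k := k) (l := l) (fun s t => h.inj H' hA' e' e h0 (hk _) (by
      simpa [h.self, add_smul] using h.add (hk s) (hk t) (by simp [e']) (by simp [e'])))
    (fun s t => h.inj H hA e e' h0 (hl _) (by
      simpa [h.self, add_smul] using h.add (hl s) (hl t) (by simp [e]) (by simp [e])))
    fun t ht => by
      have h3 := (h.a1 H' (γ := 0) (hk t) (by simp [e]) (by simp [e'])
        (by simpa using H.hx)).smul (inv_ne_zero ht)
      obtain ⟨d, hd⟩ := H.hx.2 ((t⁻¹ * k t) • w) (by simp [e])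
      have h4 := g0 _ (h.a2 H (γ := t⁻¹) hd (by simp [e']) (by simp [e]) (by
        convert h3 using 1
        match_scalars <;> grind))
      rw [show d = t⁻¹ by grind] at hd
      rw [← h.inj H hA e e' h0 hd (hl _)]
      field_simp
  obtain ⟨u, rfl⟩ := su_sq_surj c
  have h3 : l (u ^ 2) = 1 := h.inj H hA e e' h0 (hl _) (by simpa using h1)
  have h4 := hl ((μ * u) ^ 2)
  rwa [h2, mul_assoc, ← h2, h3, mul_one, mul_pow] at h4

omit hA

theorem exQ (G : GP B L x y) : ∃ Q : QuadraticForm F V, (∀ u v, Q (u + v) = Q u + Q v + B u v) ∧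
    (∀ w, B x w = 0 → SQ B L x w (Q w)) ∧ Q y = 0 := by
  have hyx : B y x = 1 := (h.swap H).one
  have hq : ∀ w c μ, B x w = 0 → SQ B L x w c → SQ B L x (μ • w) (μ ^ 2 * c) :=
    fun w c μ e h1 => by
      convert (G.quad _ c μ (by simp [e, h.self]) (by simp [hyx]; grind)
        (h1.shift (B y w))).shift (μ * B y w) using 1
      match_scalars <;> grind
  have hp : ∀ v, B x (v + B x v • y) = 0 := fun v => by
    simp [H.one]
    grind
  choose f hf using fun v => H.hx.2 _ (hp v)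
  have h1 : ∀ u v, B y (u + v) * B x (u + v) + f (u + v) =
      (B y u * B x u + f u) + (B y v * B x v + f v) + B u v := fun u v => by
    have := h.uniq G.t0 (hf (u + v)) (by
      convert h.add (hf u) (hf v) (hp u) (hp v) using 1
      simp only [map_add]
      module) (hp _)
    rw [this]
    simp [h.self, h.symm u y]
    grind
  refine ⟨⟨fun v => B y v * B x v + f v, fun a v => ?_, B, h1⟩, h1, fun w e => ?_, ?_⟩
  · have := h.uniq G.t0 (hf (a • v)) (by
      convert hq _ _ a (hp v) (hf v) using 1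
      simp only [map_smul, smul_eq_mul]
      module) (hp _)
    simp only [this, map_smul, smul_eq_mul]
    ring
  · change SQ B L x w (B y w * B x w + f w)
    simpa [e] using hf w
  · change B y y * B x y + f y = 0
    have := hf y
    rw [H.one, one_smul, su_add_self F] at this
    simp [h.self, G.t0 _ this]

variable (G : GP B L x y) {Q : QuadraticForm F V} (hQ : ∀ u v, Q (u + v) = Q u + Q v + B u v)
  (hx : ∀ w, B x w = 0 → SQ B L x w (Q w)) (hy : Q y = 0)
include G hQ hx hy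

theorem pu_iff {v : V} (hv : v ≠ 0) : PUq B L v ↔ Q v = 0 := by
  have hyx : B y x = 1 := (h.swap H).one
  have hx0 : Q x = 0 := by
    have := (SQ.zero (B := B) (L := L) x).shift (1 : F)
    rw [zero_add, one_smul] at this
    exact h.uniq G.t0 (hx x (h.self x)) this (h.self x)
  have A : ∀ w (γ : F), B x w = 0 → B y w = 0 →
      (PUq B L (y + w + γ • x) ↔ Q (y + w + γ • x) = 0) := fun w γ e e' => by
    have h1 : Q (y + w + γ • x) = Q w + γ := by
      simp [hQ, QuadraticMap.map_smul, hy, hx0, e', hyx, h.symm w x, e]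
    rw [h1]
    refine ⟨fun h2 => G.g0 _ (h.a2 H (hx w e) e' e h2), fun h2 => ?_⟩
    rw [show γ = Q w + 0 by grind]
    exact h.a1 H (hx w e) e' e (by simpa using H.hy)
  have A' : ∀ v, B x v = 1 → (PUq B L v ↔ Q v = 0) := fun v e => by
    have := A (v + y + B y v • x) (B y v) (by simp [e, H.one, h.self]; grind)
      (by simp [hyx, h.self]; grind)
    rwa [show y + (v + y + B y v • x) + B y v • x = v by match_scalars <;> grind] at this
  by_cases e : B x v = 0
  · obtain ⟨w, hw⟩ : ∃ w, w = v + B y v • x := ⟨_, rfl⟩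
    have h1 : B x w = 0 := by simp [hw, e, h.self]
    have h2 : B y w = 0 := by simp [hw, hyx]; grind
    have h3 : v = w + B y v • x := by rw [hw]; match_scalars <;> grind
    generalize B y v = γ at h3 hw
    by_cases h0 : w = 0
    · rw [h0, zero_add] at h3
      subst h3
      simpa [QuadraticMap.map_smul, hx0] using H.hx.smul (fun e => hv (by simp [e]))
    have h4 : Q v = Q (y + w) := by
      simp [h3, hQ, QuadraticMap.map_smul, hx0, hy, h2, h.symm w x, h1]
    have h5 := h.nmem H h2 h0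
    rw [h4, ← A' _ (by simp [h1, H.one]), h.yw H h1 h2 h0]
    exact ⟨fun h6 => hw ▸ h.line H.hx h6 e (fun h7 => h5 (hw ▸ add_mem h7
      (Submodule.smul_mem _ _ (Submodule.mem_span_singleton_self x)))) γ,
      fun h6 => h3 ▸ h.line H.hx h6 h1 h5 γ⟩
  · have := A' ((B x v)⁻¹ • v) (by simp [e])
    rw [QuadraticMap.map_smul, smul_eq_mul, mul_eq_zero,
      or_iff_right (mul_ne_zero (inv_ne_zero e) (inv_ne_zero e))] at this
    exact ⟨fun h1 => this.mp (h1.smul (inv_ne_zero e)),
      fun h1 => by simpa [e] using (this.mpr h1).smul e⟩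

theorem le_OG : L ≤ Orth.OG Q := by
  let U : Submodule F V :=
    { carrier := {v | ∀ g ∈ L, Q (g v) = Q v}
      add_mem' := fun ha hb g hg => by simp [hQ, ha g hg, hb g hg, h.le g hg _ _]
      zero_mem' := fun g _ => by simp
      smul_mem' := fun k v hv g hg => by simp [QuadraticMap.map_smul, hv g hg] }
  rcases h.irr U (fun g hg v hv g' hg' => by
    have h1 : Q (g' (g v)) = Q v := hv (g' * g) (mul_mem hg' hg)
    rw [h1, hv g hg]) with e | e
  · refine absurd (show x ∈ U from fun g hg => ?_) (by simpa [e] using H.hx.1)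
    rw [(h.pu_iff H G hQ hx hy H.hx.1).mp H.hx,
      (h.pu_iff H G hQ hx hy (h.map H.hx hg).1).mp (h.map H.hx hg)]
  · exact fun g hg v => (show v ∈ U from e ▸ Submodule.mem_top) g hg

theorem eich_mem (u v : V) : (Orth.eich Q u v).1 ∈ L := by
  have hp : ∀ u v, QuadraticMap.polar Q u v = B u v := fun u v => by
    simp [QuadraticMap.polar, hQ]
    ring
  by_cases h1 : Q u = 0 ∧ QuadraticMap.polar Q u v = 0
  swap
  · rw [Orth.eich_of_not h1]
    exact one_mem L
  by_cases h0 : u = 0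
  · rw [h0, Orth.eich_zero_left]
    exact one_mem L
  obtain ⟨h1, h2⟩ := h1
  have h3 : B u v = 0 := hp u v ▸ h2
  obtain ⟨c, hc⟩ := ((h.pu_iff H G hQ hx hy h0).mpr h1).2 v h3
  obtain ⟨g, hg, e⟩ := hc.ex
  obtain ⟨z, hz⟩ := exists_one h.nd h.alt.isRefl h0
  have h4 : Q (g z) = Q z := h.le_OG H G hQ hx hy hg z
  have h5 : c = Q v := by
    rw [e] at h4
    simp [hQ, QuadraticMap.map_smul, h1, hz, h3, h.self, h.symm z, h.symm v u] at h4
    grind
  convert hg using 1
  ext z
  rw [Orth.eich_apply h1 h2, e, hp, hp, h5]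
  match_scalars <;> grind

end SU

open Orth in
theorem su_orth {Q : QuadraticForm F V} (hQ : ND Q) (hn : 4 ≤ finrank F V) (h1 : L ≤ OG Q)
    (h2 : ∀ u v, (eich Q u v).1 ∈ L) : L = OG Q ∨
      ∀ g, g ∈ L ↔ g ∈ OG Q ∧ Even (finrank F (LinearMap.range (mv g))) := by
  have : Nontrivial V := Module.nontrivial_of_finrank_pos (R := F) (by omega)
  obtain ⟨r, hr⟩ := hQ.exists_nonsingular
  have hN := eichGroup_normal (Q := Q)
  have hE : ∀ g ∈ eichGroup Q, g.1 ∈ L ∧ Even (rk g) := fun g hg => by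
    induction hg using Subgroup.closure_induction with
    | mem g hg =>
      obtain ⟨u, v, rfl⟩ := hg
      refine ⟨h2 u v, ?_⟩
      by_cases h3 : Q u = 0 ∧ QuadraticMap.polar Q u v = 0
      swap
      · rw [eich_of_not h3, rk_eq_zero.mpr rfl]
        exact Even.zero
      by_cases h4 : Q v = 0
      · refine hQ.even_rk_of_sing su_two (by
          rw [eich_mul h3.1 h3.2 h3.2, su_add_self F, eich_zero_right])
          ((sing_mov_iff su_two _).mpr fun z => ?_)
        rw [eich_apply h3.1 h3.2, QuadraticMap.polar_sub_right, QuadraticMap.polar_add_right,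
          p_smul_right, p_smul_right, p_self, h4, QuadraticMap.polar_comm Q z u,
          QuadraticMap.polar_comm Q z v]
        grind
      · rw [eich_eq_refl_mul_refl h3.1 h3.2 h4, hQ.even_rk_mul']
        simp [hQ.odd_rk_refl h4, hQ.odd_rk_refl (v := v - Q v • u) (by
          rwa [q_sub_smul_eich h3.1 h3.2])]
    | one => exact ⟨one_mem L, by rw [rk_eq_zero.mpr rfl]; exact Even.zero⟩
    | mul a b _ _ ha hb => exact ⟨mul_mem ha.1 hb.1, by simp [hQ.even_rk_mul', ha.2, hb.2]⟩
    | inv a _ ha =>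
      refine ⟨inv_mem ha.1, ?_⟩
      have := hQ.even_rk_mul' a a⁻¹
      rw [mul_inv_cancel, rk_eq_zero.mpr rfl] at this
      exact (this.mp Even.zero).mp ha.2
  let S : Subgroup (OG Q) :=
    { carrier := {g | g ∈ eichGroup Q ∨ g * refl Q r ∈ eichGroup Q}
      one_mem' := Or.inl (one_mem _)
      mul_mem' := by
        rintro a b (ha | ha) (hb | hb)
        · exact Or.inl (mul_mem ha hb)
        · exact Or.inr (by simpa [mul_assoc] using mul_mem ha hb)
        · refine Or.inr ?_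
          have := mul_mem ha (hN.conj_mem b hb (refl Q r))
          rwa [refl_inv, show a * refl Q r * (refl Q r * b * refl Q r) =
            a * (refl Q r * refl Q r) * b * refl Q r by group, refl_mul_self, mul_one] at this
        · refine Or.inl ?_
          have := mul_mem ha (hN.conj_mem _ hb (refl Q r))
          rwa [show a * refl Q r * (refl Q r * (b * refl Q r) * (refl Q r)⁻¹) =
            a * (refl Q r * refl Q r) * b by group, refl_mul_self, mul_one] at this
      inv_mem' := by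
        rintro a (ha | ha)
        · exact Or.inl (inv_mem ha)
        · refine Or.inr ?_
          have := hN.conj_mem _ (inv_mem ha) (refl Q r)
          rwa [show refl Q r * (a * refl Q r)⁻¹ * (refl Q r)⁻¹ = a⁻¹ * (refl Q r)⁻¹ by group,
            refl_inv] at this }
  have hS : S = ⊤ := eq_top_of_refl_eich hQ S (fun v => by
    by_cases hv : Q v = 0
    · rw [refl_of_Q_eq_zero hv]
      exact one_mem S
    obtain ⟨a, ha⟩ := su_sq_surj (Q r / Q v)
    have ha0 : a ≠ 0 := fun e => div_ne_zero hr hv (by rw [← ha, e]; simp)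
    obtain ⟨g, hg, e⟩ := hQ.eichGroup_trans hn hr (u' := a • v) (by rw [q_smul, ha]; field_simp)
    rw [← refl_smul ha0 v, ← e, ← refl_conj]
    refine Or.inr ?_
    have := mul_mem hg (hN.conj_mem _ (inv_mem hg) (refl Q r))
    rwa [refl_inv, ← mul_assoc, ← mul_assoc] at this) fun u v => Or.inl (eich_mem_eichGroup u v)
  have hS' : ∀ g : OG Q, g ∈ eichGroup Q ∨ g * refl Q r ∈ eichGroup Q := fun g =>
    (show g ∈ S from hS ▸ Subgroup.mem_top g)
  by_cases h3 : (refl Q r).1 ∈ L
  · refine Or.inl (le_antisymm h1 fun g hg => ?_)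
    rcases hS' ⟨g, hg⟩ with h4 | h4
    · exact (hE _ h4).1
    · exact (mul_mem_cancel_right h3).mp (hE _ h4).1
  · refine Or.inr fun g => ⟨fun hg => ⟨h1 hg, ?_⟩, fun ⟨hg, hg'⟩ => ?_⟩
    · rcases hS' ⟨g, h1 hg⟩ with h4 | h4
      · exact (hE _ h4).2
      · exact absurd ((mul_mem_cancel_left hg).mp (hE _ h4).1) h3
    · rcases hS' ⟨g, hg⟩ with h4 | h4
      · exact (hE _ h4).1
      · exact absurd (((hQ.even_rk_mul' _ _).mp (hE _ h4).2).mp hg') (hQ.odd_rk_refl hr)

namespace SU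
variable (h : SU B L) {x y z : V}
include h

theorem orth (hK : HK B L) (hn : 4 ≤ finrank F V) (hx : PUq B L x) :
    ∃ Q : QuadraticForm F V, (∀ u v, QuadraticMap.polar Q u v = B u v) ∧ (L = Orth.OG Q ∨
      ∀ g, g ∈ L ↔ g ∈ Orth.OG Q ∧ Even (finrank F (LinearMap.range (Orth.mv g)))) := by
  obtain ⟨y, hy, h1⟩ := h.exists_pair (S := PUq B L) (fun g hg v hv => h.map hv hg) hx hx.1 hx.1
  have H : HP B L x ((B x y)⁻¹ • y) := ⟨hx, hy.smul (inv_ne_zero h1), by simp [h1]⟩
  generalize (B x y)⁻¹ • y = y at H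
  have G : GP B L x y := by
    by_cases hA : ∀ w, B x w = 0 → B y w = 0 → ¬ PUq B L w
    · exact h.caseA H hA (by omega)
    · push Not at hA
      obtain ⟨w, e, e', hw⟩ := hA
      exact h.caseB H hK hw e e'
  obtain ⟨Q, hQ, h2, h3⟩ := h.exQ H G
  have hp : ∀ u v, QuadraticMap.polar Q u v = B u v := fun u v => by
    simp [QuadraticMap.polar, hQ]
    ring
  exact ⟨Q, hp, su_orth (fun v hv => h.nd.1 v fun w => hp v w ▸ hv w) hn (h.le_OG H G hQ h2 h3)
    (h.eich_mem H G hQ h2 h3)⟩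

/-- The exceptional configuration over the field with two elements. -/
theorem exc (hF : ∀ a : F, a = 0 ∨ a = 1) (hn : 3 ≤ finrank F V) (hx : PUq B L x) (hz : PUq B L z)
    (e : B x z = 0) (hzx : z ∉ F ∙ x) (h1 : SQ B L x z 1) (h2 : SQ B L z x 1) :
    ∃ a b, B a b = 1 ∧ ∀ u v, B u v = 1 → ∃ g ∈ L, g a = u ∧ g b = v := by
  have hxz : x ∉ F ∙ z := not_mem_span_swap hx.1 hzx
  have e' : B z x = 0 := h.symm x z ▸ e
  have all : ∀ v, v ≠ 0 → PUq B L v := by
    obtain ⟨y, hy, h3⟩ := h.exists_pair (S := PUq B L) (fun g hg v hv => h.map hv hg) hz hz.1 hz.1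
    have H : HP B L z y := ⟨hz, hy, (hF _).resolve_left h3⟩
    have hyz : B y z = 1 := (h.swap H).one
    have h4 := h.line hz hx e' hxz (B y x)
    have h5 : B z (x + B y x • z) = 0 := by simp [e', h.self]
    have h6 : B y (x + B y x • z) = 0 := by simp [hyz]; grind
    have h7 : ∀ γ : F, PUq B L (y + γ • z) := fun γ => by
      rcases hF γ with rfl | rfl
      · simpa using hy
      · simpa using h.a2 H (γ := 0) (h2.shift (B y x)) h6 h5
          (by simpa using (h.yw H h5 h6 h4.1).mpr h4)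
    have h8 : ∀ w, B z w = 0 → B y w = 0 → w ≠ 0 → PUq B L w := fun w e e' h0 => by
      obtain ⟨c, hc⟩ := hz.2 w e
      have := h.a1 H hc e' e (h7 c)
      rw [CharTwo.add_self_eq_zero, zero_smul, add_zero] at this
      exact (h.yw H e e' h0).mp this
    intro v hv
    rcases hF (B z v) with h9 | h9
    · have h10 : B y (v + B y v • z) = 0 := by simp [hyz]; grind
      by_cases h0 : v + B y v • z = 0
      · have : v = B y v • z := by
          rw [← add_left_inj (B y v • z), h0, su_add_self F]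
        rw [this] at hv ⊢
        exact hz.smul fun e => hv (by simp [e])
      · convert h.line hz (h8 _ (by simp [h9, h.self]) h10 h0) (by simp [h9, h.self])
          (h.nmem H h10 h0) (B y v) using 1
        rw [add_assoc, su_add_self F, add_zero]
    · have h10 : B z (v + y + B y v • z) = 0 := by simp [h9, H.one, h.self]; grind
      obtain ⟨c, hc⟩ := hz.2 _ h10
      convert h.a1 H hc (by simp [hyz, h.self]; grind) h10 (h7 (c + B y v)) using 1
      match_scalars <;> grind
  have tr1 : ∀ u v, u ≠ 0 → v ≠ 0 → B u v = 0 → ∃ g ∈ L, g u = v := fun u v hu hv e => by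
    by_cases h0 : u + v = 0
    · exact ⟨1, one_mem L, by rw [← add_left_inj v, su_add_self F]; exact h0⟩
    obtain ⟨g, hg, -, e'⟩ := h.line_ex (all _ h0) (z := u) (by simp [h.self, h.symm v u, e])
      (fun h3 => by
        obtain ⟨k, hk⟩ := Submodule.mem_span_singleton.mp h3
        rcases hF k with rfl | rfl
        · exact hu (by simpa using hk.symm)
        · exact hv (by simpa using hk)) 1
    exact ⟨g, hg, by rw [e', one_smul, ← add_assoc, su_add_self F, zero_add]⟩
  have tr : ∀ v, v ≠ 0 → ∃ g ∈ L, g z = v := fun v hv => by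
    obtain ⟨p, ⟨⟨-, hp1⟩, hp2⟩, hp3⟩ := exists_not_mem_of_finrank_lt (W := ⊥)
      (U := ⊤ ⊓ LinearMap.ker (B z) ⊓ LinearMap.ker (B v)) (by
        have := finrank_le_inf_ker ⊤ (B z)
        have := finrank_le_inf_ker (⊤ ⊓ LinearMap.ker (B z)) (B v)
        rw [finrank_top] at *
        rw [finrank_bot]
        omega)
    obtain ⟨g, hg, e1⟩ := tr1 z p hz.1 (by simpa using hp3) hp1
    obtain ⟨g', hg', e2⟩ := tr1 p v (by simpa using hp3) hv (h.symm v p ▸ hp2)
    exact ⟨g' * g, mul_mem hg' hg, by simp [e1, e2]⟩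
  obtain ⟨y, h3, h4⟩ := h.dual1 hzx 1
  have h5 : B z y = 1 := h.symm y z ▸ h4
  obtain ⟨k₁, hk₁, e1⟩ := h1.ex
  obtain ⟨k₂, hk₂, e2⟩ := h2.ex
  have h6 : (k₂ * k₁) z = z := by simp [e1, e2, h.self, e]
  have h7 : (k₂ * k₁) y = y + z := by
    rw [LinearEquiv.mul_apply, show k₁ y = y + x by simp [e1, h3, h5], e2]
    simp only [map_add, h.self, e', h3, h5, add_zero, zero_smul, one_smul, mul_one]
    rw [add_assoc y, su_add_self F, add_zero]
  have tr2 : ∀ v, B z v = 1 → ∃ g ∈ L, g z = z ∧ g y = v := fun v hv => by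
    have h8 : B z (v + y) = 0 := by simp [hv, h5]; grind
    obtain ⟨c, hc⟩ := hz.2 _ h8
    obtain ⟨g, hg, e3⟩ := hc.ex
    have h9 : g z = z := by rw [e3, h.symm _ z, h8]; simp [h.self]
    have h10 : g y = v + (B (v + y) y + c) • z := by
      rw [e3, h5]
      generalize B (v + y) y = s
      match_scalars <;> grind
    rcases hF (B (v + y) y + c) with h11 | h11
    · exact ⟨g, hg, h9, by rw [h10, h11, zero_smul, add_zero]⟩
    · refine ⟨g * (k₂ * k₁), mul_mem hg (mul_mem hk₂ hk₁), by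
        rw [LinearEquiv.mul_apply, h6, h9], ?_⟩
      rw [LinearEquiv.mul_apply, h7, map_add, h9, h10, h11, one_smul, add_assoc, su_add_self F,
        add_zero]
  refine ⟨z, y, h5, fun u v huv => ?_⟩
  obtain ⟨g, hg, rfl⟩ := tr u (by rintro rfl; simp at huv)
  obtain ⟨k, hk, e3, e4⟩ := tr2 (g.symm v) (by rw [← h.le g hg]; simpa using huv)
  exact ⟨g * k, mul_mem hg hk, by simp [e3], by simp [e4]⟩

theorem card_exc (hF : Nat.card F = 2) (hn : finrank F V = 4) {a b : V}
    (h1 : ∀ u v, B u v = 1 → ∃ g ∈ L, g a = u ∧ g b = v) : 120 ≤ Nat.card L := by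
  classical
  have : Finite V := Module.finite_of_finite F
  have : Finite (V ≃ₗ[F] V) := Finite.of_injective _ DFunLike.coe_injective
  have := Fintype.ofFinite V
  choose f hf e1 e2 using h1
  have h2 : Nat.card {p : V × V // B p.1 p.2 = 1} ≤ Nat.card L :=
    Nat.card_le_card_of_injective (fun p => ⟨f _ _ p.2, hf _ _ p.2⟩) fun p q e => by
      have : f _ _ p.2 = f _ _ q.2 := congrArg Subtype.val e
      exact Subtype.ext (Prod.ext (by rw [← e1 _ _ p.2, this, e1]) (by rw [← e2 _ _ p.2, this, e2]))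
  have h3 : ∀ u : V, Nat.card {v // B u v = 1} = if u = 0 then 0 else 8 := fun u => by
    split_ifs with hu
    · simp [hu]
    obtain ⟨y, hy⟩ := exists_one h.nd h.alt.isRefl hu
    have := ncard_affine h.nd (F ∙ u) y
    rw [finrank_span_singleton hu, hn, hF] at this
    refine Eq.trans ?_ this
    rw [← Nat.card_coe_set_eq]
    refine Nat.card_congr (Equiv.subtypeEquivRight fun v => ⟨fun hv x hx => ?_, fun hv => ?_⟩)
    · obtain ⟨k, rfl⟩ := Submodule.mem_span_singleton.mp hx
      simp [hy, hv]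
    · exact (hv u (Submodule.mem_span_singleton_self u)).symm.trans hy
  have h4 : Fintype.card V = 16 := by
    rw [← Nat.card_eq_fintype_card, Module.natCard_eq_pow_finrank (K := F), hF, hn]
    rfl
  rw [Nat.card_congr (Equiv.subtypeProdEquivSigmaSubtype fun u v => B u v = 1), Nat.card_sigma,
    Finset.sum_congr rfl fun u _ => h3 u] at h2
  simpa [Finset.sum_ite, Finset.filter_ne', h4] using h2

theorem main (hn : 4 ≤ finrank F V) (he : Even (finrank F V)) (hx : PUq B L x) : SG B ≤ L ∨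
    (∃ Q : QuadraticForm F V, (∀ u v, QuadraticMap.polar Q u v = B u v) ∧ (L = Orth.OG Q ∨
      ∀ g, g ∈ L ↔ g ∈ Orth.OG Q ∧ Even (finrank F (LinearMap.range (Orth.mv g))))) ∨
    (Nat.card F = 2 ∧ finrank F V = 4 ∧ 120 ≤ Nat.card L) := by
  by_cases hT : ∀ x, PUq B L x → ¬ SpP B L x
  swap
  · push Not at hT
    obtain ⟨x, h1, h2⟩ := hT
    exact Or.inl (h.full h1 h2)
  by_cases hK : HK B L
  · exact Or.inr (Or.inl (h.orth hK hn hx))
  have hq : ¬ _ := fun hq => hK (h.hk hT hq)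
  push Not at hq
  have hF : ∀ a : F, a = 0 ∨ a = 1 := fun a => (em (a = 0)).imp_right (hq.1 a)
  have h1 : Nat.card F = 2 := Nat.card_eq_two_iff' 0 |>.mpr ⟨1, one_ne_zero, hq.1⟩
  have h2 : finrank F V = 4 := by omega
  unfold HK at hK
  push Not at hK
  obtain ⟨x, z, hx, hz, e, hzx, μ, c, h3, hc⟩ := hK
  have hxz : x ∉ F ∙ z := not_mem_span_swap hx.1 hzx
  have h4 : SQ B L z x 1 := by
    have := h.star h3 hz e hxz 1
    rwa [hq.1 c hc, one_pow, mul_one, one_smul] at this
  have h5 : SQ B L x z 1 := by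
    have := h.star (x := z) (z := x) (μ := 1) (c := 1) (by rwa [one_smul]) hx (h.symm x z ▸ e) hzx 1
    rwa [one_pow, mul_one, one_smul] at this
  obtain ⟨a, b, -, h6⟩ := h.exc hF (by omega) hx hz e hzx h5 h4
  exact Or.inr (Or.inr ⟨h1, h2, h.card_exc h1 h2 h6⟩)

end SU

theorem su_core (hB : B.Nondegenerate) (hA : B.IsAlt) (hn : 2 ≤ finrank F V) {a : V} {Γ : Type*}
    [Group Γ] (ρ : Γ →* (V ≃ₗ[F] V)) (h1 : ∀ γ, ρ γ ∈ SG B) (h2 : ∀ γ, ρ γ a = a)
    (h3 : ∀ w, B a w = 0 → ∃ γ, ∀ v, ρ γ v = v + B w v • w) {γ : Γ} (hγ : γ ∈ pCore 2 Γ) :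
    ∀ w, B a w = 0 → ρ γ w - w ∈ F ∙ a := by
  have hp : ∀ γ w, B a w = 0 → B a (ρ γ w) = 0 := fun γ w e => by
    rw [← h2 γ, h1 γ, e]
  let K : Subgroup Γ :=
    { carrier := {γ | ∀ w, B a w = 0 → ρ γ w - w ∈ F ∙ a}
      one_mem' := fun w _ => by simp
      mul_mem' := fun {γ δ} hγ hδ w e => by
        simpa using add_mem (hγ _ (hp δ w e)) (hδ w e)
      inv_mem' := fun {γ} hγ w e => by
        have := neg_mem (hγ _ (hp γ⁻¹ w e))
        rwa [← LinearEquiv.mul_apply, ← map_mul, mul_inv_cancel, map_one, neg_sub] at this }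
  refine (show pCore 2 Γ ≤ K from sSup_le fun N ⟨hN, hN'⟩ => ?_) hγ
  have hle : ∀ γ, (F ∙ a) ≤ (F ∙ a).comap (ρ γ : V →ₗ[F] V) := fun γ =>
    (Submodule.span_singleton_le_iff_mem _ _).mpr (by simp [h2])
  let act : MulAction Γ (V ⧸ (F ∙ a)) :=
    { smul := fun γ q => (F ∙ a).mapQ (F ∙ a) (ρ γ : V →ₗ[F] V) (hle γ) q
      one_smul := fun q => by
        induction q using Submodule.Quotient.induction_on with
        | H v => exact congrArg Submodule.Quotient.mk (by simp)
      mul_smul := fun γ δ q => by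
        induction q using Submodule.Quotient.induction_on with
        | H v => exact congrArg Submodule.Quotient.mk (by simp) }
  have : Finite V := Module.finite_of_finite F
  have : Finite (V ⧸ (F ∙ a)) := Finite.of_surjective _ (Submodule.Quotient.mk_surjective _)
  obtain ⟨p, -, hp'⟩ := exists_not_mem_of_finrank_lt (W := F ∙ a) (U := ⊤) (by
    have := finrank_span_one_le (F := F) a
    rw [finrank_top]
    omega)
  obtain ⟨q, hq, hq0⟩ := hN'.exists_fixed_point_of_prime_dvd_card_of_fixed_point (V ⧸ (F ∙ a))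
    (by
      rw [← addOrderOf_eq_prime (p := 2) (x := (Submodule.Quotient.mk p : V ⧸ (F ∙ a)))
        (by rw [two_nsmul, su_add_self F]) (by simpa using hp')]
      exact addOrderOf_dvd_natCard _) (a := 0) (fun g => map_zero ((F ∙ a).mapQ _ _ (hle g)))
  obtain ⟨u, rfl⟩ := Submodule.Quotient.mk_surjective _ q
  let U : Submodule F V :=
    { carrier := {v | ∀ g ∈ N, ρ g v - v ∈ F ∙ a}
      add_mem' := fun {v w} hv hw g hg => by
        convert add_mem (hv g hg) (hw g hg) using 1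
        simp only [map_add]
        abel
      zero_mem' := fun g _ => by simp
      smul_mem' := fun k v hv g hg => by
        simpa [smul_sub] using Submodule.smul_mem _ k (hv g hg) }
  have hu : u ∈ U := fun g hg => (Submodule.Quotient.eq _).mp (hq ⟨g, hg⟩)
  have hU : ∀ δ, ρ δ u ∈ U := fun δ g hg => by
    have := hle δ (hu _ (hN.conj_mem' g hg δ))
    simpa using this
  have key : ∀ w, B a w = 0 → B w u ≠ 0 → w ∈ U := fun w e e' => by
    obtain ⟨δ, hδ⟩ := h3 w e
    have := U.smul_mem (B w u)⁻¹ (sub_mem (hU δ) hu)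
    simpa [hδ, e'] using this
  obtain ⟨y, h4, h5⟩ := sp_exists_orth hB (F ∙ a) (x := u) fun e => hq0 (by
    rw [eq_comm, Submodule.Quotient.mk_eq_zero]
    exact e)
  replace h4 := hA.isRefl _ _ (h4 a (Submodule.mem_span_singleton_self a))
  intro g hg w e
  refine (show w ∈ U from ?_) g hg
  by_cases h6 : B w u = 0
  · simpa using sub_mem (key (w + y) (by simp [e, h4]) (by simp [h6, h5]))
      (key y h4 (by simp [h5]))
  · exact key w e h6

theorem su_start (hB : B.Nondegenerate) (hA : B.IsAlt) {a : V} (ha : a ≠ 0)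
    {X : Subgroup (V ≃ₗ[F] V)} (h1 : ∀ g ∈ X, g ∈ SG B) (h2 : ∀ g ∈ X, g a = a)
    (h3 : ∀ g ∈ X, ∀ w, B a w = 0 → g w - w ∈ F ∙ a)
    (h4 : Nat.card X = Nat.card F ^ (finrank F V - 2))
    (h5 : ∀ g ∈ X, finrank F (LinearMap.range (Orth.mv g)) ≠ 1) (hL : X ≤ L) : PUq B L a := by
  have hs : ∀ u v, B u v = B v u := fun u v => by rw [← hA.neg_eq u v, CharTwo.neg_eq]
  have : Finite V := Module.finite_of_finite F
  obtain ⟨y, hy⟩ := exists_one hB hA.isRefl ha
  have key : ∀ g ∈ X, ∀ v, g v = v + B (g y - y) v • a + B a v • (g y - y) +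
      (B (g y - y) y * B a v) • a := fun g hg v => by
    obtain ⟨k, hk⟩ := Submodule.mem_span_singleton.mp (h3 g hg (v - B a v • y) (by simp [hy]))
    have h6 : g v = v + k • a + B a v • (g y - y) := by
      rw [hk]
      simp only [map_sub, map_smul]
      module
    have h7 := h1 g hg y v
    have h8 := h1 g hg y a
    rw [h2 g hg] at h8
    rw [h6] at h7
    simp [h8, hs y a, hy, hA.self_eq_zero] at h7
    rw [h6]
    simp [hA.self_eq_zero]
    match_scalars <;> grind
  have hp : ∀ g ∈ X, B a (g y - y) = 0 := fun g hg => by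
    have := h1 g hg a y
    rw [h2 g hg] at this
    simp [this]
  let W : Set V := {v | ∀ h ∈ Submodule.span F {a, y}, B h 0 = B h v}
  have hW : ∀ v, v ∈ W ↔ B a v = 0 ∧ B y v = 0 := fun v =>
    ⟨fun hv => ⟨by simpa using (hv a (Submodule.subset_span (by simp))).symm,
      by simpa using (hv y (Submodule.subset_span (by simp))).symm⟩, fun hv x hx => by
        obtain ⟨s, t, rfl⟩ := Submodule.mem_span_pair.mp hx
        simp [hv.1, hv.2]⟩
  have hc : Nat.card W = Nat.card F ^ (finrank F V - 2) := by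
    rw [Nat.card_coe_set_eq, ncard_affine hB, Orth.finrank_span_pair_eq
      (pair_linearIndependent hA (by simp [hy]))]
  let f : X → W := fun g => ⟨(g.1 y - y) + B y (g.1 y - y) • a, (hW _).mpr
    ⟨by rw [map_add, hp _ g.2]; simp [hA.self_eq_zero], by
      rw [map_add, map_smul, hs y a, hy, smul_eq_mul, mul_one, CharTwo.add_self_eq_zero]⟩⟩
  have hf : Function.Injective f := fun g g' e => by
    have h6 : (g.1 y - y) + B y (g.1 y - y) • a = (g'.1 y - y) + B y (g'.1 y - y) • a :=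
      congrArg Subtype.val e
    obtain ⟨ν, h7⟩ : ∃ ν : F, g'.1 y = g.1 (y + ν • a) := ⟨B y (g.1 y - y) - B y (g'.1 y - y), by
      rw [map_add, map_smul, h2 _ g.2]
      linear_combination (norm := module) -h6⟩
    have h8 : (g⁻¹ * g').1 y - y = ν • a := by simp [h7]
    have h9 : ∀ v, Orth.mv (g⁻¹ * g').1 v = (ν * B a v) • a := fun v => by
      rw [Orth.mv_apply, key _ (g⁻¹ * g').2, h8]
      simp [hy]
      match_scalars <;> grind
    by_cases h0 : ν = 0
    · rw [← inv_mul_eq_one]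
      ext v
      simpa [h0, sub_eq_zero] using h9 v
    · refine absurd ?_ (h5 _ (g⁻¹ * g').2)
      rw [show LinearMap.range (Orth.mv (g⁻¹ * g').1) = F ∙ a from ?_, finrank_span_singleton ha]
      refine le_antisymm ?_ ((Submodule.span_singleton_le_iff_mem _ _).mpr ⟨ν⁻¹ • y, ?_⟩)
      · rintro _ ⟨v, rfl⟩
        exact h9 v ▸ Submodule.smul_mem _ _ (Submodule.mem_span_singleton_self a)
      · rw [h9]
        simp [hy, h0]
  have hf' := (hf.bijective_of_nat_card_le (by rw [hc, h4])).2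
  refine ⟨ha, fun w hw => ?_⟩
  obtain ⟨g, hg⟩ := hf' ⟨w + B y w • a, (hW _).mpr ⟨by simp [hw, hA.self_eq_zero], by
    simp [hs y a, hy]; grind⟩⟩
  have h6 : (g.1 y - y) + B y (g.1 y - y) • a = w + B y w • a := congrArg Subtype.val hg
  have h7 : SQ B L a (g.1 y - y) (B (g.1 y - y) y) := ⟨g.1, hL g.2, fun v => by
    rw [key _ g.2 v]
    generalize g.1 y - y = u
    simp
    module⟩
  refine ⟨B (g.1 y - y) y, ?_⟩
  convert (h7.shift (B y (g.1 y - y))).shift (B y w) using 1
  rw [h6, add_assoc, su_add_self F, add_zero]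

end Cfsg.Agent.Max
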